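import Mathlib
import Cfsg.Agent.H72.Basic
import Cfsg.Agent.Transfer.NPC

/-! Burnside's transfer theorem for abelian Sylow subgroups, with the hypothesis only for `p'`-elements. -/

set_option autoImplicit false

namespace Cfsg.Agent.H72

open Subgroup

/-- an element is the product of a power of order prime to `p` and a power of `p`-power order -/
theorem exists_zpow_decomp {G : Type*} [Group G] [Finite G] {p : ℕ} [hp : Fact p.Prime] (g : G) :
    ∃ s t : ℤ, g = g ^ s * g ^ t ∧ (orderOf (g ^ s)).Coprime p ∧ ∃ k : ℕ, orderOf (g ^ t) = p ^ k := by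
  obtain ⟨k, m, hm, hkm⟩ := Nat.exists_eq_pow_mul_and_not_dvd (orderOf_pos g).ne' p hp.out.ne_one
  have hcop : Nat.Coprime (p ^ k) m := Nat.Coprime.pow_left k ((Nat.Prime.coprime_iff_not_dvd hp.out).2 hm)
  obtain ⟨s, t, hst⟩ := Nat.isCoprime_iff_coprime.2 hcop
  have hm0 : m ≠ 0 := by rintro rfl; simp at hm
  refine ⟨s * (p ^ k : ℕ), t * (m : ℕ), ?_, ?_, ?_⟩
  · rw [← zpow_add, hst, zpow_one]
  · have ho : orderOf (g ^ (p ^ k)) = m := by
      rw [orderOf_pow_of_dvd (pow_pos hp.out.pos k).ne' (by rw [hkm]; exact Dvd.intro _ rfl), hkm]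
      exact Nat.mul_div_cancel_left m (pow_pos hp.out.pos k)
    have h1 : orderOf (g ^ (s * ((p ^ k : ℕ) : ℤ))) ∣ m := by
      rw [mul_comm, zpow_mul, zpow_natCast, ← ho]
      exact orderOf_dvd_of_mem_zpowers ⟨s, rfl⟩
    have h2 : m.Coprime p := ((Nat.Prime.coprime_iff_not_dvd hp.out).2 hm).symm
    exact Nat.Coprime.coprime_dvd_left h1 h2
  · have ho : orderOf (g ^ m) = p ^ k := by
      rw [orderOf_pow_of_dvd hm0 (by rw [hkm]; exact Dvd.intro_left _ rfl), hkm]
      exact Nat.mul_div_cancel _ (Nat.pos_of_ne_zero hm0)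
    have h1 : orderOf (g ^ (t * (m : ℤ))) ∣ p ^ k := by
      rw [mul_comm, zpow_mul, zpow_natCast, ← ho]
      exact orderOf_dvd_of_mem_zpowers ⟨t, rfl⟩
    obtain ⟨j, -, hj⟩ := (Nat.dvd_prime_pow hp.out).1 h1
    exact ⟨j, hj⟩

/-- If the Sylow `p`-subgroup `P` is abelian and centralized by the `p'`-elements of its normalizer
then `G` has a normal `p`-complement. -/
theorem hasNPC_of_abelian_sylow {G : Type*} [Group G] [Finite G] {p : ℕ} [hp : Fact p.Prime] (P : Sylow p G)
    (hab : ∀ x ∈ (P : Subgroup G), ∀ y ∈ (P : Subgroup G), x * y = y * x)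
    (hcent : ∀ g ∈ normalizer ((P : Subgroup G) : Set G), (orderOf g).Coprime p →
      ∀ x ∈ (P : Subgroup G), g * x = x * g) : Cfsg.HasNormalPComplement p G := by
  apply Transfer.hasNPC_of_normalizer_le_centralizer P
  intro g hg
  rw [Subgroup.mem_centralizer_iff]
  intro x hx
  obtain ⟨s, t, hst, h1, h2⟩ := exists_zpow_decomp (p := p) g
  have hs : g ^ s * x = x * g ^ s := hcent _ (Subgroup.zpow_mem _ hg s) h1 x hx
  have ht : g ^ t ∈ (P : Subgroup G) := by
    apply mem_sylow_of_smul_eq P (isPGroup_zpowers_of_orderOf h2)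
    exact Sylow.smul_eq_iff_mem_normalizer.2 (Subgroup.zpow_mem _ hg t)
  have ht' := hab _ ht x hx
  rw [hst]
  calc x * (g ^ s * g ^ t) = (x * g ^ s) * g ^ t := by group
    _ = g ^ s * (x * g ^ t) := by rw [← hs]; group
    _ = g ^ s * g ^ t * x := by rw [← ht']; group

/-- A `p'`-element normalizing an abelian `p`-group `M` and centralizing the elements of order `p` of `M`
centralizes `M`. -/
theorem commute_of_omega_abelian {G : Type*} [Group G] [Finite G] {p : ℕ} [hp : Fact p.Prime] (M : Subgroup G)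
    (hM : IsPGroup p M) (hab : ∀ x ∈ M, ∀ y ∈ M, x * y = y * x) (g : G) (hg : ∀ x ∈ M, g * x * g⁻¹ ∈ M)
    (hgo : (orderOf g).Coprime p) (hfix : ∀ x ∈ M, x ^ p = 1 → g * x = x * g) :
    ∀ x ∈ M, g * x = x * g := by
  have key : ∀ n : ℕ, ∀ x ∈ M, x ^ p ^ n = 1 → g * x = x * g := by
    intro n
    induction n with
    | zero =>
      intro x _ hx
      rw [pow_zero, pow_one] at hx
      rw [hx]; simp
    | succ n ih =>
      intro x hxM hx
      have h1 : g * x ^ p = x ^ p * g := by
        apply ih _ (M.pow_mem hxM p)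
        rw [← pow_mul, ← pow_succ']; exact hx
      set w := x⁻¹ * (g * x * g⁻¹) with hw
      have hwM : w ∈ M := M.mul_mem (M.inv_mem hxM) (hg x hxM)
      have hwp : w ^ p = 1 := by
        have hc : Commute x⁻¹ (g * x * g⁻¹) := hab _ (M.inv_mem hxM) _ (hg x hxM)
        rw [hw, hc.mul_pow, conj_pow, h1, mul_inv_cancel_right, inv_pow, inv_mul_cancel]
      have hwg : g * w = w * g := hfix w hwM hwp
      have hxw : x * w = w * x := hab x hxM w hwM
      have h2 : g * x = x * w * g := by rw [hw]; group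
      have h3 : ∀ k : ℕ, g ^ k * x = x * w ^ k * g ^ k := by
        intro k
        induction k with
        | zero => simp
        | succ k ihk =>
          calc g ^ (k + 1) * x = g * (g ^ k * x) := by rw [pow_succ', mul_assoc]
            _ = (g * x) * w ^ k * g ^ k := by rw [ihk]; group
            _ = x * w * (g * w ^ k) * g ^ k := by rw [h2]; group
            _ = x * w * (w ^ k * g) * g ^ k := by rw [((show Commute g w from hwg).pow_right k).eq]
            _ = x * (w * w ^ k) * (g * g ^ k) := by group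
            _ = x * w ^ (k + 1) * g ^ (k + 1) := by rw [← pow_succ', ← pow_succ']
      have h4 := h3 (orderOf g)
      rw [pow_orderOf_eq_one, one_mul, mul_one] at h4
      have h5 : w ^ orderOf g = 1 := by
        have := mul_left_cancel (a := x) (b := 1) (c := w ^ orderOf g) (by rw [mul_one]; exact h4)
        exact this.symm
      have h6 : w = 1 := by
        have h7 : orderOf w ∣ orderOf g := orderOf_dvd_of_pow_eq_one h5
        have h8 : orderOf w ∣ p := orderOf_dvd_of_pow_eq_one hwp
        have h9 : orderOf w ∣ 1 := by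
          rw [← Nat.coprime_iff_gcd_eq_one.1 hgo]; exact Nat.dvd_gcd h7 h8
        exact orderOf_eq_one_iff.1 (Nat.dvd_one.1 h9)
      rw [h2, h6, mul_one]
  intro x hx
  obtain ⟨k, hk⟩ := hM ⟨x, hx⟩
  exact key k x hx (congrArg Subtype.val hk)

end Cfsg.Agent.H72
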