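import Mathlib
import Cfsg.Prelude.Def_SubgroupEmbedding
import Cfsg.Prelude.Def_Solvable
import Cfsg.Prelude.Def_Blocks
import Cfsg.Agent.Solv.Core
import Cfsg.Agent.Fus.Cover
import Cfsg.Agent.BlkInd.PPart

/-!
Extremely closed abelian subgroups: the pair subgroups.
-/

set_option autoImplicit false
set_option linter.unusedSectionVars false
set_option linter.unusedVariables false

namespace Cfsg.Agent.H72.EC

open Cfsg Subgroup

universe u

section Local

variable {L : Type u} [Group L] [Finite L] {p : ℕ} [hpf : Fact p.Prime]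

/-- Burnside's transfer theorem for an abelian self-normalising `p`-subgroup. -/
theorem exists_compl {P : Subgroup L} (hP : IsPGroup p P) (hab : ∀ a ∈ P, ∀ b ∈ P, a * b = b * a)
    (hN : ∀ g ∈ Subgroup.normalizer (P : Set L), g ∈ P) :
    ∃ S : Sylow p L, (S : Subgroup L) = P ∧ ∃ K : Subgroup L, K.Normal ∧ ¬ p ∣ Nat.card K ∧
      (∀ x : L, ∃ y ∈ K, ∃ h ∈ P, x = y * h) ∧ K ⊓ P = ⊥ := by
  obtain ⟨S, hS⟩ := Cfsg.Agent.Fus.exists_sylow_of_normalizer hP (fun g hg _ => hN g hg)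
  refine ⟨S, hS, ?_⟩
  have hle : Subgroup.normalizer (S : Set L) ≤ Subgroup.centralizer (S : Set L) := by
    intro g hg
    have h1 : g ∈ P := hN g (by rw [← hS]; exact hg)
    rw [Subgroup.mem_centralizer_iff]
    intro h hh
    have h2 : h ∈ P := by rw [← hS]; exact hh
    exact hab h h2 g h1
  refine ⟨(MonoidHom.transferSylow S hle).ker, inferInstance,
    MonoidHom.not_dvd_card_ker_transferSylow S hle, ?_, ?_⟩
  · have hc := MonoidHom.ker_transferSylow_isComplement' S hle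
    intro x
    obtain ⟨⟨y, h⟩, hyh⟩ := hc.2 x
    refine ⟨y, y.2, h, ?_, hyh.symm⟩
    rw [← hS]
    exact h.2
  · have hc := MonoidHom.ker_transferSylow_isComplement' S hle
    rw [← hS]
    exact hc.disjoint.eq_bot

/-- The key elements. -/
theorem key_elt {P : Subgroup L} (S : Sylow p L) (hS : (S : Subgroup L) = P)
    (hab : ∀ a ∈ P, ∀ b ∈ P, a * b = b * a) {K : Subgroup L} [hK : K.Normal] (hpK : ¬ p ∣ Nat.card K)
    (hdec : ∀ x : L, ∃ y ∈ K, ∃ h ∈ P, x = y * h) (hKP : K ⊓ P = ⊥) (k a b : L) (ha : a ∈ P)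
    (hb : b ∈ P) :
    ∃ l s : L, l⁻¹ * (a * (k * b * k⁻¹)) * l = a * b * s ∧ Commute (a * b) s ∧ ¬ p ∣ orderOf s ∧
      s ∈ K := by
  classical
  have hquo : ∀ x y : L, (QuotientGroup.mk' K x) * (QuotientGroup.mk' K y) =
      (QuotientGroup.mk' K y) * (QuotientGroup.mk' K x) := by
    intro x y
    obtain ⟨x1, hx1, x2, hx2, rfl⟩ := hdec x
    obtain ⟨y1, hy1, y2, hy2, rfl⟩ := hdec y
    have e1 : QuotientGroup.mk' K x1 = 1 := by simpa using hx1
    have e2 : QuotientGroup.mk' K y1 = 1 := by simpa using hy1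
    rw [map_mul, map_mul, e1, e2, one_mul, one_mul, ← map_mul, hab x2 hx2 y2 hy2, map_mul]
  obtain ⟨u, s, hus, hcus, ⟨n, hn⟩, hs⟩ := Cfsg.Agent.BlkInd.exists_isPPart hpf.out (a * (k * b * k⁻¹))
  -- `s ∈ K`
  have hsK : s ∈ K := by
    obtain ⟨y, hy, h, hh, e⟩ := hdec s
    have h1 : QuotientGroup.mk' K s = QuotientGroup.mk' K h := by
      rw [e, map_mul]
      have : QuotientGroup.mk' K y = 1 := by simpa using hy
      rw [this, one_mul]
    obtain ⟨m, hm⟩ := S.2 ⟨h, by rw [hS]; exact hh⟩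
    have hm' : h ^ p ^ m = 1 := congrArg Subtype.val hm
    have h2 : (QuotientGroup.mk' K s) ^ p ^ m = 1 := by rw [h1, ← map_pow, hm', map_one]
    have h3 : orderOf (QuotientGroup.mk' K s) ∣ p ^ m := orderOf_dvd_of_pow_eq_one h2
    have h4 : orderOf (QuotientGroup.mk' K s) ∣ orderOf s := orderOf_map_dvd _ s
    have h5 : Nat.Coprime (orderOf s) (p ^ m) :=
      Nat.Coprime.pow_right _ ((Nat.Prime.coprime_iff_not_dvd hpf.out).mpr hs).symm
    have h6 : orderOf (QuotientGroup.mk' K s) = 1 := Nat.eq_one_of_dvd_coprimes h5 h4 h3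
    rw [orderOf_eq_one_iff] at h6
    simpa using h6
  -- conjugate `u` into `P`
  have hu : IsPGroup p (Subgroup.zpowers u) := by
    refine IsPGroup.of_card (n := n) ?_
    rw [Nat.card_zpowers, hn]
  obtain ⟨T, hT⟩ := hu.exists_le_sylow
  obtain ⟨l, hl⟩ := MulAction.exists_smul_eq L S T
  have hul : l⁻¹ * u * l ∈ P := by
    have h1 : u ∈ (T : Subgroup L) := hT (Subgroup.mem_zpowers u)
    rw [← hl, Sylow.coe_subgroup_smul, Subgroup.mem_pointwise_smul_iff_inv_smul_mem] at h1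
    rw [← hS]
    simpa [MulAut.smul_def, ← map_inv, MulAut.conj_apply] using h1
  have hul2 : l⁻¹ * u * l = a * b := by
    have h1 : QuotientGroup.mk' K (l⁻¹ * u * l) = QuotientGroup.mk' K (a * b) := by
      have e1 : QuotientGroup.mk' K (l⁻¹ * u * l) = QuotientGroup.mk' K u := by
        rw [map_mul, map_mul, hquo l⁻¹ u, mul_assoc, ← map_mul, inv_mul_cancel, map_one, mul_one]
      have e2 : QuotientGroup.mk' K u = QuotientGroup.mk' K (a * (k * b * k⁻¹)) := by
        rw [← hus, map_mul]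
        have : QuotientGroup.mk' K s = 1 := by simpa using hsK
        rw [this, mul_one]
      have e3 : QuotientGroup.mk' K (k * b * k⁻¹) = QuotientGroup.mk' K b := by
        rw [map_mul, map_mul, hquo k b, mul_assoc, ← map_mul, mul_inv_cancel, map_one, mul_one]
      rw [e1, e2, map_mul, e3, map_mul]
    have h2 : (a * b)⁻¹ * (l⁻¹ * u * l) ∈ K := by
      have := QuotientGroup.eq.mp h1.symm
      exact this
    have h3 : (a * b)⁻¹ * (l⁻¹ * u * l) ∈ K ⊓ P :=
      ⟨h2, P.mul_mem (P.inv_mem (P.mul_mem ha hb)) hul⟩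
    rw [hKP, Subgroup.mem_bot] at h3
    exact (inv_mul_eq_one.mp h3).symm
  refine ⟨l, l⁻¹ * s * l, ?_, ?_, ?_, ?_⟩
  · rw [← hul2, ← hus]; group
  · rw [← hul2]
    show l⁻¹ * u * l * (l⁻¹ * s * l) = l⁻¹ * s * l * (l⁻¹ * u * l)
    have := hcus.eq
    calc l⁻¹ * u * l * (l⁻¹ * s * l) = l⁻¹ * (u * s) * l := by group
      _ = l⁻¹ * (s * u) * l := by rw [this]
      _ = _ := by group
  · have : orderOf (l⁻¹ * s * l) = orderOf s := by
      have h1 : l⁻¹ * s * l = MulAut.conj l⁻¹ s := by simp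
      rw [h1, MulEquiv.orderOf_eq]
    rwa [this]
  · have := hK.conj_mem s hsK l⁻¹
    simpa using this

theorem comm_mem {P : Subgroup L} (hab : ∀ a ∈ P, ∀ b ∈ P, a * b = b * a) {K : Subgroup L}
    [hK : K.Normal] (hdec : ∀ x : L, ∃ y ∈ K, ∃ h ∈ P, x = y * h) (k a : L) (ha : a ∈ P) :
    a * (k * a⁻¹ * k⁻¹) ∈ K := by
  obtain ⟨y, hy, h, hh, rfl⟩ := hdec k
  have h1 : a * (y * h * a⁻¹ * (y * h)⁻¹) = (a * y * a⁻¹) * y⁻¹ := by
    have := hab h hh a⁻¹ (P.inv_mem ha)
    calc a * (y * h * a⁻¹ * (y * h)⁻¹) = a * (y * (h * a⁻¹) * h⁻¹ * y⁻¹) := by group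
      _ = a * (y * (a⁻¹ * h) * h⁻¹ * y⁻¹) := by rw [this]
      _ = _ := by group
  rw [h1]
  exact K.mul_mem (hK.conj_mem y hy a) (K.inv_mem hy)

end Local

section Main

variable {G : Type u} [Group G] {p : ℕ} [hpf : Fact p.Prime]

/-- The subgroup generated by `H` and `g H g⁻¹`. -/
def pr (H : Subgroup G) (g : G) : Subgroup G := H ⊔ H.map (MulAut.conj g).toMonoidHom

/-- The hypotheses on the subgroup `H`. -/
structure Hyp (p : ℕ) (H : Subgroup G) : Prop where
  hp : IsPGroup p H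
  ab : ∀ a ∈ H, ∀ b ∈ H, a * b = b * a
  ec : ∀ g x, x ∈ pr H g → x ∈ Subgroup.normalizer (H : Set G) → x ∈ H

theorem le_pr (H : Subgroup G) (g : G) : H ≤ pr H g := le_sup_left

theorem conj_mem_pr {H : Subgroup G} (g : G) {h : G} (hh : h ∈ H) : g * h * g⁻¹ ∈ pr H g :=
  (le_sup_right : _ ≤ pr H g) (Subgroup.mem_map_of_mem _ hh)

theorem pr_le {H D : Subgroup G} {g : G} (h1 : H ≤ D) (h2 : ∀ h ∈ H, g * h * g⁻¹ ∈ D) : pr H g ≤ D := by
  refine sup_le h1 ?_
  rintro _ ⟨h, hh, rfl⟩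
  exact h2 h hh

theorem pr_le_of_mem {H D : Subgroup G} {g : G} (h1 : H ≤ D) (h2 : g ∈ D) : pr H g ≤ D :=
  pr_le h1 fun _ hh => D.mul_mem (D.mul_mem h2 (h1 hh)) (D.inv_mem h2)

/-- Data in the pair subgroup. -/
theorem Hyp.local [Finite G] {H : Subgroup G} (h : Hyp p H) (g : G) :
    ∃ S : Sylow p (pr H g), (S : Subgroup (pr H g)) = H.subgroupOf (pr H g) ∧
      ∃ K : Subgroup (pr H g), K.Normal ∧ ¬ p ∣ Nat.card K ∧
      (∀ x : pr H g, ∃ y ∈ K, ∃ h ∈ H.subgroupOf (pr H g), x = y * h) ∧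
      K ⊓ H.subgroupOf (pr H g) = ⊥ := by
  refine exists_compl ?_ ?_ ?_
  · exact h.hp.comap_of_injective _ (Subgroup.subtype_injective _)
  · intro a ha b hb
    exact Subtype.ext (h.ab a ha b hb)
  · intro x hx
    rw [Subgroup.mem_subgroupOf]
    refine h.ec g x x.2 ?_
    rw [Subgroup.mem_normalizer_iff] at hx ⊢
    intro y
    constructor
    · intro hy
      exact (hx ⟨y, le_pr H g hy⟩).mp hy
    · intro hy
      have h1 : y ∈ pr H g := by
        have h2 := (pr H g).mul_mem ((pr H g).mul_mem ((pr H g).inv_mem x.2) (le_pr H g hy)) x.2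
        have h3 : (x : G)⁻¹ * (x * y * (x : G)⁻¹) * x = y := by group
        rwa [h3] at h2
      exact (hx ⟨y, h1⟩).mpr hy

/-- Every element is a product of an element of its pair subgroup and an element normalising `H`. -/
theorem Hyp.exists_k [Finite G] {H : Subgroup G} (h : Hyp p H) (g : G) :
    ∃ k ∈ pr H g, k⁻¹ * g ∈ Subgroup.normalizer (H : Set G) := by
  obtain ⟨S, hS, -⟩ := h.local g
  -- the conjugate is a Sylow subgroup as well
  set T : Subgroup (pr H g) := (H.map (MulAut.conj g).toMonoidHom).subgroupOf (pr H g) with hT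
  have hTp : IsPGroup p T := by
    have h1 : IsPGroup p (H.map (MulAut.conj g).toMonoidHom) := h.hp.map _
    exact h1.comap_of_injective _ (Subgroup.subtype_injective _)
  obtain ⟨T', hT'⟩ := hTp.exists_le_sylow
  obtain ⟨l, hl⟩ := MulAction.exists_smul_eq (pr H g) S T'
  refine ⟨l, l.2, ?_⟩
  have h1 : ∀ x ∈ H, (l : G)⁻¹ * (g * x * g⁻¹) * l ∈ H := by
    intro x hx
    have h2 : (⟨g * x * g⁻¹, conj_mem_pr g hx⟩ : pr H g) ∈ (T' : Subgroup (pr H g)) := by
      apply hT'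
      rw [hT, Subgroup.mem_subgroupOf]
      exact Subgroup.mem_map_of_mem _ hx
    rw [← hl, Sylow.coe_subgroup_smul, Subgroup.mem_pointwise_smul_iff_inv_smul_mem, hS,
      Subgroup.mem_subgroupOf] at h2
    simpa [MulAut.smul_def, ← map_inv, MulAut.conj_apply] using h2
  have h3 : H.map (MulAut.conj ((l : G)⁻¹ * g)).toMonoidHom ≤ H := by
    rintro _ ⟨x, hx, rfl⟩
    have := h1 x hx
    have e : (MulAut.conj ((l : G)⁻¹ * g)).toMonoidHom x = (l : G)⁻¹ * (g * x * g⁻¹) * l := by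
      simp [MulAut.conj_apply, mul_assoc]
    rw [e]
    exact this
  have h4 : H.map (MulAut.conj ((l : G)⁻¹ * g)).toMonoidHom = H := by
    apply Subgroup.eq_of_le_of_card_ge h3
    rw [Subgroup.card_map_of_injective (MulAut.conj ((l : G)⁻¹ * g)).injective]
  rw [Subgroup.mem_normalizer_iff]
  intro y
  constructor
  · intro hy
    have := Subgroup.mem_map_of_mem (MulAut.conj ((l : G)⁻¹ * g)).toMonoidHom hy
    rw [h4] at this
    exact this
  · intro hy
    have h5 : (MulAut.conj ((l : G)⁻¹ * g)).toMonoidHom y ∈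
        H.map (MulAut.conj ((l : G)⁻¹ * g)).toMonoidHom := by
      rw [h4]
      exact hy
    obtain ⟨z, hz, hzy⟩ := h5
    have := (MulAut.conj ((l : G)⁻¹ * g)).injective hzy
    rwa [← this]

/-- Elements generated by the pair they define. -/
theorem Hyp.mem_pr_of_mem_pr [Finite G] {H : Subgroup G} (h : Hyp p H) {g s : G} (hs : s ∈ pr H g) :
    s ∈ pr H s := by
  obtain ⟨k, hk, hks⟩ := h.exists_k s
  have h1 : pr H s ≤ pr H g := pr_le_of_mem (le_pr H g) hs
  have h2 : k⁻¹ * s ∈ H := h.ec g _ ((pr H g).mul_mem ((pr H g).inv_mem (h1 hk)) hs) hks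
  have h3 := (pr H s).mul_mem hk (le_pr H s h2)
  simpa using h3

theorem pr_eq_of_normalizer {H : Subgroup G} {g m : G} (hm : m ∈ Subgroup.normalizer (H : Set G)) :
    pr H (g * m) = pr H g := by
  have h1 : H.map (MulAut.conj (g * m)).toMonoidHom = H.map (MulAut.conj g).toMonoidHom := by
    rw [Subgroup.mem_normalizer_iff] at hm
    ext x
    constructor
    · rintro ⟨y, hy, rfl⟩
      refine ⟨m * y * m⁻¹, (hm y).mp hy, ?_⟩
      simp [mul_assoc]
    · rintro ⟨y, hy, rfl⟩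
      refine ⟨m⁻¹ * y * m, (hm _).mpr (by
        have : m * (m⁻¹ * y * m) * m⁻¹ = y := by group
        rw [this]; exact hy), ?_⟩
      simp [mul_assoc]
  rw [pr, pr, h1]

/-- The choice of `k`. -/
theorem Hyp.exists_k' [Finite G] {H : Subgroup G} (h : Hyp p H) (g : G) :
    ∃ k ∈ pr H k, pr H k = pr H g ∧ ∃ m ∈ Subgroup.normalizer (H : Set G), g = k * m := by
  obtain ⟨k, hk, hkg⟩ := h.exists_k g
  refine ⟨k, h.mem_pr_of_mem_pr hk, ?_, k⁻¹ * g, hkg, by group⟩
  have := pr_eq_of_normalizer (g := k) hkg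
  rw [← this]
  congr 1
  group

/-- Key elements in `G`. -/
theorem Hyp.key [Finite G] {H : Subgroup G} (h : Hyp p H) {k : G} (hk : k ∈ pr H k) {a b : G}
    (ha : a ∈ H) (hb : b ∈ H) :
    ∃ l s : G, l⁻¹ * (a * (k * b * k⁻¹)) * l = a * b * s ∧ Commute (a * b) s ∧ ¬ p ∣ orderOf s ∧
      s ∈ pr H s := by
  obtain ⟨S, hS, K, hK, hpK, hdec, hKP⟩ := h.local k
  obtain ⟨l, s, h1, h2, h3, -⟩ := key_elt S hS (fun a ha b hb => Subtype.ext (h.ab a ha b hb)) hpK
    hdec hKP ⟨k, hk⟩ ⟨a, le_pr H k ha⟩ ⟨b, le_pr H k hb⟩ ha hb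
  refine ⟨l, s, congrArg Subtype.val h1, congrArg Subtype.val h2.eq, ?_, h.mem_pr_of_mem_pr s.2⟩
  rwa [Subgroup.orderOf_coe]

theorem Hyp.comm_reg [Finite G] {H : Subgroup G} (h : Hyp p H) {k : G} (hk : k ∈ pr H k) {a : G}
    (ha : a ∈ H) : ¬ p ∣ orderOf (a * (k * a⁻¹ * k⁻¹)) := by
  obtain ⟨S, hS, K, hK, hpK, hdec, hKP⟩ := h.local k
  have h1 := comm_mem (fun a ha b hb => Subtype.ext (h.ab a ha b hb)) hdec ⟨k, hk⟩ ⟨a, le_pr H k ha⟩ ha
  intro hd
  apply hpK
  have h2 := Subgroup.orderOf_dvd_natCard K h1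
  refine dvd_trans ?_ h2
  rw [← Subgroup.orderOf_coe]
  exact hd

/-- Passing to overgroups of `H`. -/
theorem Hyp.subgroupOf {H : Subgroup G} (h : Hyp p H) {D : Subgroup G} (hD : H ≤ D) :
    Hyp p (H.subgroupOf D) := by
  refine ⟨h.hp.comap_of_injective _ (Subgroup.subtype_injective _), ?_, ?_⟩
  · intro a ha b hb
    exact Subtype.ext (h.ab a ha b hb)
  · intro g x hx hxN
    rw [Subgroup.mem_subgroupOf]
    refine h.ec g x ?_ ?_
    · have h1 : pr (H.subgroupOf D) g ≤ (pr H (g : G)).subgroupOf D := by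
        refine pr_le ?_ ?_
        · intro y hy
          exact le_pr H (g : G) hy
        · intro y hy
          exact conj_mem_pr (g : G) hy
      exact h1 hx
    · rw [Subgroup.mem_normalizer_iff] at hxN ⊢
      intro y
      constructor
      · intro hy
        exact (hxN ⟨y, hD hy⟩).mp hy
      · intro hy
        have h1 : y ∈ D := by
          have h2 := D.mul_mem (D.mul_mem (D.inv_mem x.2) (hD hy)) x.2
          have h3 : (x : G)⁻¹ * (x * y * (x : G)⁻¹) * x = y := by group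
          rwa [h3] at h2
        exact (hxN ⟨y, h1⟩).mpr hy

/-- Passing to the quotient by a normal subgroup contained in `H`. -/
theorem Hyp.quotient {H : Subgroup G} (h : Hyp p H) {N : Subgroup G} [N.Normal] (hN : N ≤ H) :
    Hyp p (H.map (QuotientGroup.mk' N)) := by
  have hmem : ∀ x : G, QuotientGroup.mk' N x ∈ H.map (QuotientGroup.mk' N) ↔ x ∈ H := by
    intro x
    constructor
    · rintro ⟨y, hy, hyx⟩
      have h1 : y⁻¹ * x ∈ N := QuotientGroup.eq.mp hyx
      have := H.mul_mem hy (hN h1)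
      simpa using this
    · intro hx
      exact Subgroup.mem_map_of_mem _ hx
  refine ⟨h.hp.map _, ?_, ?_⟩
  · rintro _ ⟨a, ha, rfl⟩ _ ⟨b, hb, rfl⟩
    rw [← map_mul, h.ab a ha b hb, map_mul]
  · intro g x hx hxN
    obtain ⟨g, rfl⟩ := QuotientGroup.mk'_surjective N g
    obtain ⟨x, rfl⟩ := QuotientGroup.mk'_surjective N x
    rw [hmem]
    refine h.ec g x ?_ ?_
    · have h1 : pr (H.map (QuotientGroup.mk' N)) (QuotientGroup.mk' N g) ≤ (pr H g).map (QuotientGroup.mk' N) := by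
        refine pr_le ?_ ?_
        · exact Subgroup.map_mono (le_pr H g)
        · rintro _ ⟨y, hy, rfl⟩
          refine ⟨g * y * g⁻¹, conj_mem_pr g hy, by simp⟩
      obtain ⟨z, hz, hzx⟩ := h1 hx
      have h2 : z⁻¹ * x ∈ N := QuotientGroup.eq.mp hzx
      have := (pr H g).mul_mem hz (le_pr H g (hN h2))
      simpa using this
    · rw [Subgroup.mem_normalizer_iff] at hxN ⊢
      intro y
      have := hxN (QuotientGroup.mk' N y)
      rw [hmem, ← map_mul, ← map_inv, ← map_mul, hmem] at this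
      exact this

end Main

end Cfsg.Agent.H72.EC
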