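import Mathlib
import Cfsg.Prelude.Def_Characters
import Cfsg.Agent.CharBase.Central
import Cfsg.Agent.CharBase.Basic

/-!
A positivity inequality for irreducible characters.
-/

set_option autoImplicit false
set_option linter.unusedSectionVars false
set_option linter.unusedVariables false

namespace Cfsg.Agent.H72.EC

open scoped ComplexConjugate
open Cfsg Cfsg.Agent.CharBase

universe u

variable {G : Type u} [Group G] [Fintype G]

theorem conv_formula (χ : IrrCharacter G) (x y : G) :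
    ∑ t : G, (χ : G → ℂ) (x * t) * conj ((χ : G → ℂ) (y * t)) =
      (Nat.card G : ℂ) / (χ : G → ℂ) 1 * (χ : G → ℂ) (x * y⁻¹) := by
  classical
  have h1 := congrFun (conv_irr χ χ) (x * y⁻¹)
  rw [if_pos rfl] at h1
  have h2 : conv (χ : G → ℂ) (χ : G → ℂ) (x * y⁻¹) =
      ∑ t : G, (χ : G → ℂ) (x * t) * conj ((χ : G → ℂ) (y * t)) := by
    unfold conv
    symm
    refine Fintype.sum_equiv (Equiv.mulLeft x) _ _ (fun t => ?_)
    rw [Equiv.coe_mulLeft, ← irr_inv]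
    congr 2
    group
  rw [← h2, h1]
  rfl

variable (χ : IrrCharacter G) (H : Subgroup G) [Fintype H] (k : G)

theorem sum_alpha :
    ∑ t : G, (∑ a : H, (χ : G → ℂ) (a * k * (a : G)⁻¹ * t)) *
      conj (∑ a : H, (χ : G → ℂ) (a * k * (a : G)⁻¹ * t)) =
    (Nat.card G : ℂ) / (χ : G → ℂ) 1 * ((Fintype.card H : ℂ) *
      ∑ a : H, (χ : G → ℂ) (a * (k * (a : G)⁻¹ * k⁻¹))) := by
  have hcf := irr_isClassFunction χ
  have h1 : ∀ t : G, (∑ a : H, (χ : G → ℂ) (a * k * (a : G)⁻¹ * t)) *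
      conj (∑ a : H, (χ : G → ℂ) (a * k * (a : G)⁻¹ * t)) =
      ∑ c : H, ∑ a : H, (χ : G → ℂ) (a * k * (a : G)⁻¹ * t) *
        conj ((χ : G → ℂ) (c * k * (c : G)⁻¹ * t)) := by
    intro t
    rw [map_sum, Finset.sum_mul_sum, Finset.sum_comm]
  rw [Finset.sum_congr rfl (fun t _ => h1 t), Finset.sum_comm]
  have h2 : ∀ c : H, ∑ t : G, ∑ a : H, (χ : G → ℂ) (a * k * (a : G)⁻¹ * t) *
        conj ((χ : G → ℂ) (c * k * (c : G)⁻¹ * t)) =
      (Nat.card G : ℂ) / (χ : G → ℂ) 1 * ∑ a : H, (χ : G → ℂ) (a * (k * (a : G)⁻¹ * k⁻¹)) := by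
    intro c
    rw [Finset.sum_comm, Finset.mul_sum]
    refine Fintype.sum_equiv (Equiv.mulLeft c⁻¹) _ _ (fun a => ?_)
    rw [conv_formula, Equiv.coe_mulLeft]
    congr 1
    have := hcf ((a : G) * k * (a : G)⁻¹ * ((c : G) * k * (c : G)⁻¹)⁻¹) (c : G)⁻¹
    rw [← this]
    congr 1
    push_cast
    group
  rw [Finset.sum_congr rfl (fun c _ => h2 c), Finset.sum_const, Finset.card_univ, nsmul_eq_mul]
  ring

theorem sum_beta :
    ∑ t : G, (∑ a : H, ∑ b : H, (χ : G → ℂ) (a * k * b * t)) *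
      conj (∑ a : H, ∑ b : H, (χ : G → ℂ) (a * k * b * t)) =
    (Nat.card G : ℂ) / (χ : G → ℂ) 1 * ((Fintype.card H : ℂ) ^ 2 *
      ∑ a : H, ∑ b : H, (χ : G → ℂ) (a * (k * b * k⁻¹))) := by
  have hcf := irr_isClassFunction χ
  have h1 : ∀ t : G, (∑ a : H, ∑ b : H, (χ : G → ℂ) (a * k * b * t)) *
      conj (∑ a : H, ∑ b : H, (χ : G → ℂ) (a * k * b * t)) =
      ∑ c : H, ∑ e : H, ∑ a : H, ∑ b : H, (χ : G → ℂ) (a * k * b * t) *
        conj ((χ : G → ℂ) (c * k * e * t)) := by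
    intro t
    rw [← Fintype.sum_prod_type', ← Fintype.sum_prod_type' (f := fun (c : H) (e : H) => ∑ a : H, ∑ b : H, (χ : G → ℂ) (a * k * b * t) *
        conj ((χ : G → ℂ) (c * k * e * t))), map_sum, Finset.sum_mul_sum, Finset.sum_comm]
    refine Finset.sum_congr rfl fun y _ => ?_
    rw [← Fintype.sum_prod_type' (f := fun (a : H) (b : H) => (χ : G → ℂ) (a * k * b * t) *
        conj ((χ : G → ℂ) (y.1 * k * y.2 * t)))]
  rw [Finset.sum_congr rfl (fun t _ => h1 t), Finset.sum_comm]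
  have h2 : ∀ c : H, ∑ t : G, ∑ e : H, ∑ a : H, ∑ b : H, (χ : G → ℂ) (a * k * b * t) *
        conj ((χ : G → ℂ) (c * k * e * t)) =
      (Nat.card G : ℂ) / (χ : G → ℂ) 1 * ((Fintype.card H : ℂ) *
        ∑ a : H, ∑ b : H, (χ : G → ℂ) (a * (k * b * k⁻¹))) := by
    intro c
    rw [Finset.sum_comm]
    have h3 : ∀ e : H, ∑ t : G, ∑ a : H, ∑ b : H, (χ : G → ℂ) (a * k * b * t) *
        conj ((χ : G → ℂ) (c * k * e * t)) =
        (Nat.card G : ℂ) / (χ : G → ℂ) 1 * ∑ a : H, ∑ b : H, (χ : G → ℂ) (a * (k * b * k⁻¹)) := by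
      intro e
      rw [Finset.sum_comm, Finset.mul_sum]
      refine Fintype.sum_equiv (Equiv.mulLeft c⁻¹) _ _ (fun a => ?_)
      rw [Finset.sum_comm, Finset.mul_sum]
      refine Fintype.sum_equiv (Equiv.mulRight e⁻¹) _ _ (fun b => ?_)
      rw [conv_formula, Equiv.coe_mulLeft, Equiv.coe_mulRight]
      congr 1
      have := hcf ((a : G) * k * b * ((c : G) * k * e)⁻¹) (c : G)⁻¹
      rw [← this]
      congr 1
      push_cast
      group
    rw [Finset.sum_congr rfl (fun e _ => h3 e), Finset.sum_const, Finset.card_univ, nsmul_eq_mul]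
    ring
  rw [Finset.sum_congr rfl (fun c _ => h2 c), Finset.sum_const, Finset.card_univ, nsmul_eq_mul]
  ring

/-- The positivity inequality. -/
theorem positivity_ineq :
    (∑ a : H, ∑ b : H, (χ : G → ℂ) (a * (k * b * k⁻¹))).re ≤
      (Fintype.card H : ℝ) * (∑ a : H, (χ : G → ℂ) (a * (k * (a : G)⁻¹ * k⁻¹))).re := by
  obtain ⟨d, hd⟩ := exists_nat_degree (irr_isCharacter χ)
  have hd0 : (χ : G → ℂ) 1 ≠ 0 := irr_one_ne_zero χ.2
  have hdpos : (0 : ℝ) < d := by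
    have : d ≠ 0 := by rintro rfl; exact hd0 (by rw [hd]; simp)
    exact_mod_cast Nat.pos_of_ne_zero this
  have hGpos : (0 : ℝ) < Nat.card G := by exact_mod_cast Nat.card_pos
  have hqpos : (0 : ℝ) < Fintype.card H := by exact_mod_cast Fintype.card_pos
  set α : G → ℂ := fun t => ∑ a : H, (χ : G → ℂ) (a * k * (a : G)⁻¹ * t) with hα
  set β : G → ℂ := fun t => ∑ a : H, ∑ b : H, (χ : G → ℂ) (a * k * b * t) with hβ
  have hβα : ∀ t, β t = ∑ h : H, α (h * t) := by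
    intro t
    rw [hβ, hα]
    simp only
    rw [Finset.sum_comm (s := Finset.univ) (t := Finset.univ) (f := fun (h : H) (a : H) =>
      (χ : G → ℂ) (a * k * (a : G)⁻¹ * (h * t)))]
    refine Finset.sum_congr rfl fun a _ => ?_
    refine Fintype.sum_equiv (Equiv.mulLeft a) _ _ (fun b => ?_)
    rw [Equiv.coe_mulLeft]
    congr 1
    push_cast
    group
  have hα2 : ∑ t : G, ‖α t‖ ^ 2 = (Nat.card G : ℝ) / d * ((Fintype.card H : ℝ) *
      (∑ a : H, (χ : G → ℂ) (a * (k * (a : G)⁻¹ * k⁻¹))).re) := by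
    have h := sum_alpha χ H k
    have h1 := congrArg Complex.re h
    rw [Complex.re_sum] at h1
    have h2 : ∀ t : G, ((∑ a : H, (χ : G → ℂ) (a * k * (a : G)⁻¹ * t)) *
      conj (∑ a : H, (χ : G → ℂ) (a * k * (a : G)⁻¹ * t))).re = ‖α t‖ ^ 2 := by
      intro t
      rw [Complex.mul_conj, Complex.ofReal_re, Complex.normSq_eq_norm_sq]
    rw [Finset.sum_congr rfl (fun t _ => h2 t)] at h1
    rw [h1, hd]
    have h3 : ((Nat.card G : ℂ) / (d : ℂ) * ((Fintype.card H : ℂ) *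
      ∑ a : H, (χ : G → ℂ) (a * (k * (a : G)⁻¹ * k⁻¹)))) =
      (((Nat.card G : ℝ) / d * (Fintype.card H : ℝ) : ℝ) : ℂ) *
        ∑ a : H, (χ : G → ℂ) (a * (k * (a : G)⁻¹ * k⁻¹)) := by
      push_cast; ring
    rw [h3, Complex.re_ofReal_mul]
    ring
  have hβ2 : ∑ t : G, ‖β t‖ ^ 2 = (Nat.card G : ℝ) / d * ((Fintype.card H : ℝ) ^ 2 *
      (∑ a : H, ∑ b : H, (χ : G → ℂ) (a * (k * b * k⁻¹))).re) := by
    have h := sum_beta χ H k
    have h1 := congrArg Complex.re h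
    rw [Complex.re_sum] at h1
    have h2 : ∀ t : G, ((∑ a : H, ∑ b : H, (χ : G → ℂ) (a * k * b * t)) *
      conj (∑ a : H, ∑ b : H, (χ : G → ℂ) (a * k * b * t))).re = ‖β t‖ ^ 2 := by
      intro t
      rw [Complex.mul_conj, Complex.ofReal_re, Complex.normSq_eq_norm_sq]
    rw [Finset.sum_congr rfl (fun t _ => h2 t)] at h1
    rw [h1, hd]
    have h3 : ((Nat.card G : ℂ) / (d : ℂ) * ((Fintype.card H : ℂ) ^ 2 *
      ∑ a : H, ∑ b : H, (χ : G → ℂ) (a * (k * b * k⁻¹)))) =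
      (((Nat.card G : ℝ) / d * (Fintype.card H : ℝ) ^ 2 : ℝ) : ℂ) *
        ∑ a : H, ∑ b : H, (χ : G → ℂ) (a * (k * b * k⁻¹)) := by
      push_cast; ring
    rw [h3, Complex.re_ofReal_mul]
    ring
  have hcs : ∀ t, ‖β t‖ ^ 2 ≤ (Fintype.card H : ℝ) * ∑ h : H, ‖α (h * t)‖ ^ 2 := by
    intro t
    rw [hβα t]
    have h1 : ‖∑ h : H, α (h * t)‖ ≤ ∑ h : H, ‖α (h * t)‖ := norm_sum_le _ _
    have h2 : (∑ h : H, ‖α (h * t)‖) ^ 2 ≤ (Fintype.card H : ℝ) * ∑ h : H, ‖α (h * t)‖ ^ 2 := by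
      have := sq_sum_le_card_mul_sum_sq (s := (Finset.univ : Finset H)) (f := fun h : H => ‖α (h * t)‖)
      rwa [Finset.card_univ] at this
    exact (pow_le_pow_left₀ (norm_nonneg _) h1 2).trans h2
  have hsum : ∑ t : G, ‖β t‖ ^ 2 ≤ (Fintype.card H : ℝ) ^ 2 * ∑ t : G, ‖α t‖ ^ 2 := by
    calc ∑ t : G, ‖β t‖ ^ 2 ≤ ∑ t : G, (Fintype.card H : ℝ) * ∑ h : H, ‖α (h * t)‖ ^ 2 :=
        Finset.sum_le_sum fun t _ => hcs t
      _ = (Fintype.card H : ℝ) * ∑ h : H, ∑ t : G, ‖α (h * t)‖ ^ 2 := by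
        rw [← Finset.mul_sum, Finset.sum_comm]
      _ = (Fintype.card H : ℝ) * ∑ h : H, ∑ t : G, ‖α t‖ ^ 2 := by
        congr 1
        refine Finset.sum_congr rfl fun h _ => ?_
        exact Fintype.sum_equiv (Equiv.mulLeft (h : G)) _ _ (fun t => rfl)
      _ = _ := by
        rw [Finset.sum_const, Finset.card_univ, nsmul_eq_mul]; ring
  rw [hα2, hβ2] at hsum
  have hc : 0 < (Nat.card G : ℝ) / d * (Fintype.card H : ℝ) ^ 2 := by positivity
  nlinarith [hsum, hc, mul_pos hc hqpos,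
    (mul_le_mul_iff_right₀ hc (b := (∑ a : H, ∑ b : H, (χ : G → ℂ) (a * (k * b * k⁻¹))).re)
      (c := (Fintype.card H : ℝ) * (∑ a : H, (χ : G → ℂ) (a * (k * (a : G)⁻¹ * k⁻¹))).re))]

end Cfsg.Agent.H72.EC
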