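import Mathlib
import Cfsg.Agent.H72.ECPos
import Cfsg.Agent.H72.ECGroup
import Cfsg.Agent.H4.CharKer

/-!
Extremely closed abelian subgroups: the basic character formulas.
-/

set_option autoImplicit false
set_option linter.unusedSectionVars false
set_option linter.unusedVariables false

namespace Cfsg.Agent.H72.EC

open scoped ComplexConjugate
open Cfsg Cfsg.Agent.CharBase

universe u

variable {G : Type u} [Group G] [Fintype G] {p : ℕ} [hpf : Fact p.Prime]

/-- The key property of a character. -/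
def KeyChar (χ : IrrCharacter G) (H : Subgroup G) : Prop :=
  ∀ k, k ∈ pr H k → ∀ a ∈ H, ∀ b ∈ H, a * b ≠ 1 →
    (χ : G → ℂ) (a * (k * b * k⁻¹)) = (χ : G → ℂ) (a * b)

theorem eq_of_sum_eq {ι : Type*} [Fintype ι] {f : ι → ℂ} {d : ℝ} (hf : ∀ i, ‖f i‖ ≤ d)
    (hs : ∑ i, f i = (Fintype.card ι : ℂ) * d) : ∀ i, f i = d := by
  have h1 : ∑ i, (d - (f i).re) = 0 := by
    rw [Finset.sum_sub_distrib, Finset.sum_const, Finset.card_univ, nsmul_eq_mul]
    have := congrArg Complex.re hs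
    rw [Complex.re_sum] at this
    rw [this]
    simp
  have h2 : ∀ i, (f i).re ≤ d := fun i => (Complex.re_le_norm _).trans (hf i)
  have h3 := (Finset.sum_eq_zero_iff_of_nonneg (fun i _ => sub_nonneg.mpr (h2 i))).mp h1
  intro i
  have h4 : (f i).re = d := by
    have := h3 i (Finset.mem_univ i)
    linarith
  have h5 : ‖f i‖ = (f i).re := le_antisymm ((hf i).trans_eq h4.symm) (Complex.re_le_norm _)
  have h6 : (f i).im = 0 := by
    have h7 : ‖f i‖ ^ 2 = (f i).re ^ 2 + (f i).im ^ 2 := by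
      rw [← Complex.normSq_eq_norm_sq, Complex.normSq_apply]; ring
    rw [h5] at h7
    have : (f i).im ^ 2 = 0 := by linarith
    exact pow_eq_zero_iff (two_ne_zero) |>.mp this
  apply Complex.ext
  · simpa using h4
  · simpa using h6

theorem norm_le_deg (χ : IrrCharacter G) {d : ℕ} (hd : (χ : G → ℂ) 1 = d) (g : G) :
    ‖(χ : G → ℂ) g‖ ≤ d := by
  obtain ⟨n, hn, h⟩ := norm_le_of_isCharacter (irr_isCharacter χ) g
  rw [hd] at hn
  have : d = n := by exact_mod_cast hn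
  rw [this]
  exact h

section

variable (χ : IrrCharacter G) (H : Subgroup G) [Fintype H]

/-- The sum over `H` is `|H|` times a natural number. -/
theorem exists_n₀ {d : ℕ} (hd : (χ : G → ℂ) 1 = d) :
    ∃ n : ℕ, n ≤ d ∧ ∑ b : H, (χ : G → ℂ) b = (Fintype.card H : ℂ) * n := by
  have hch := isCharacter_restrict (irr_isCharacter χ) H
  obtain ⟨n, hn⟩ := classInner_natCast hch (isCharacter_of_isIrr (isIrrCharacter_one (G := H)))
  have hq0 : (Fintype.card H : ℂ) ≠ 0 := by exact_mod_cast Fintype.card_ne_zero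
  have h1 : ∑ b : H, (χ : G → ℂ) b = (Fintype.card H : ℂ) * n := by
    unfold classInner at hn
    rw [← hn, Nat.card_eq_fintype_card, mul_inv_cancel_left₀ hq0]
    refine Finset.sum_congr rfl fun b _ => ?_
    simp
  refine ⟨n, ?_, h1⟩
  have h2 : ‖∑ b : H, (χ : G → ℂ) b‖ ≤ ∑ b : H, (d : ℝ) :=
    (norm_sum_le _ _).trans (Finset.sum_le_sum fun b _ => norm_le_deg χ hd b)
  rw [h1, Finset.sum_const, Finset.card_univ, nsmul_eq_mul, norm_mul, Complex.norm_natCast,
    Complex.norm_natCast] at h2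
  have hq : (0 : ℝ) < Fintype.card H := by exact_mod_cast Fintype.card_pos
  have := le_of_mul_le_mul_left h2 hq
  exact_mod_cast this

theorem mem_ker_of_n₀_eq {d : ℕ} (hd : (χ : G → ℂ) 1 = d)
    (h : ∑ b : H, (χ : G → ℂ) b = (Fintype.card H : ℂ) * d) : ∀ b ∈ H, (χ : G → ℂ) b = (χ : G → ℂ) 1 := by
  intro b hb
  have := eq_of_sum_eq (f := fun b : H => (χ : G → ℂ) b) (d := d) (fun i => norm_le_deg χ hd i)
    (by rw [h]; simp) ⟨b, hb⟩
  rw [hd]
  simpa using this

variable {χ H}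

theorem KeyChar.sum_b (hk : KeyChar χ H) {k a : G} (hkk : k ∈ pr H k) (ha : a ∈ H) :
    ∑ b : H, (χ : G → ℂ) (a * (k * b * k⁻¹)) =
      ∑ b : H, (χ : G → ℂ) b - (χ : G → ℂ) 1 + (χ : G → ℂ) (a * (k * a⁻¹ * k⁻¹)) := by
  have h1 : ∑ b : H, (χ : G → ℂ) b = ∑ b : H, (χ : G → ℂ) (a * b) := by
    symm
    exact Fintype.sum_equiv (Equiv.mulLeft (⟨a, ha⟩ : H)) _ _ (fun b => rfl)
  have h2 : ∑ b : H, ((χ : G → ℂ) (a * (k * b * k⁻¹)) - (χ : G → ℂ) (a * b)) =
      (χ : G → ℂ) (a * (k * a⁻¹ * k⁻¹)) - (χ : G → ℂ) 1 := by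
    rw [Finset.sum_eq_single (⟨a⁻¹, H.inv_mem ha⟩ : H)]
    · simp
    · intro b _ hb
      rw [hk k hkk a ha b b.2, sub_self]
      intro hab
      apply hb
      exact Subtype.ext (eq_inv_of_mul_eq_one_right hab)
    · intro h
      exact absurd (Finset.mem_univ _) h
  rw [Finset.sum_sub_distrib] at h2
  rw [h1, eq_add_of_sub_eq h2]
  ring

theorem sum_conj_normalizer {k m a : G} (hm : m ∈ Subgroup.normalizer (H : Set G)) :
    ∑ b : H, (χ : G → ℂ) (a * (k * m * b * (k * m)⁻¹)) =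
      ∑ b : H, (χ : G → ℂ) (a * (k * b * k⁻¹)) := by
  rw [Subgroup.mem_normalizer_iff] at hm
  let e : H ≃ H := {
    toFun := fun b => ⟨m * b * m⁻¹, (hm b).mp b.2⟩
    invFun := fun b => ⟨m⁻¹ * b * m, (hm _).mpr (by
      have : m * (m⁻¹ * b * m) * m⁻¹ = (b : G) := by group
      rw [this]; exact b.2)⟩
    left_inv := fun b => Subtype.ext (by simp only []; group)
    right_inv := fun b => Subtype.ext (by simp only []; group) }
  refine Fintype.sum_equiv e _ _ (fun b => ?_)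
  change _ = (χ : G → ℂ) (a * (k * (m * b * m⁻¹) * k⁻¹))
  congr 1
  group

/-- The averaged formula. -/
theorem KeyChar.sum_T (hk : KeyChar χ H) {kk : G → G} (hkk : ∀ g, kk g ∈ pr H (kk g))
    (hkm : ∀ g, ∃ m ∈ Subgroup.normalizer (H : Set G), g = kk g * m) {a : G} (ha : a ∈ H) :
    ∑ g : G, (χ : G → ℂ) (a * (kk g * a⁻¹ * (kk g)⁻¹)) =
      (Nat.card G : ℂ) * ((χ : G → ℂ) a * (∑ b : H, (χ : G → ℂ) b) / (χ : G → ℂ) 1 -
        ∑ b : H, (χ : G → ℂ) b + (χ : G → ℂ) 1) := by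
  have h1 : ∑ g : G, ∑ b : H, (χ : G → ℂ) (a * (g * b * g⁻¹)) =
      (Nat.card G : ℂ) * ((χ : G → ℂ) a * (∑ b : H, (χ : G → ℂ) b) / (χ : G → ℂ) 1) := by
    rw [Finset.sum_comm, Finset.sum_congr rfl (fun (b : H) _ => sum_conj_mul χ.2 a b),
      ← Finset.sum_div, ← Finset.mul_sum]
    ring
  have h2 : ∀ g : G, ∑ b : H, (χ : G → ℂ) (a * (g * b * g⁻¹)) =
      ∑ b : H, (χ : G → ℂ) b - (χ : G → ℂ) 1 + (χ : G → ℂ) (a * (kk g * a⁻¹ * (kk g)⁻¹)) := by
    intro g
    obtain ⟨m, hm, hg⟩ := hkm g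
    rw [← hk.sum_b (hkk g) ha, ← sum_conj_normalizer hm (k := kk g), ← hg]
  rw [Finset.sum_congr rfl (fun g _ => h2 g), Finset.sum_add_distrib, Finset.sum_const,
    Finset.card_univ, nsmul_eq_mul, ← Nat.card_eq_fintype_card] at h1
  rw [← sub_eq_iff_eq_add'.mpr h1.symm]
  ring

theorem KeyChar.T_eq_of_zero (hk : KeyChar χ H) {kk : G → G} (hkk : ∀ g, kk g ∈ pr H (kk g))
    (hkm : ∀ g, ∃ m ∈ Subgroup.normalizer (H : Set G), g = kk g * m)
    (h0 : ∑ b : H, (χ : G → ℂ) b = 0) {a : G} (ha : a ∈ H) (g : G) :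
    (χ : G → ℂ) (a * (kk g * a⁻¹ * (kk g)⁻¹)) = (χ : G → ℂ) 1 := by
  obtain ⟨d, hd⟩ := exists_nat_degree (irr_isCharacter χ)
  have h1 := hk.sum_T hkk hkm ha
  rw [h0, mul_zero, zero_div, sub_self, zero_add] at h1
  have := eq_of_sum_eq (f := fun g : G => (χ : G → ℂ) (a * (kk g * a⁻¹ * (kk g)⁻¹))) (d := d)
    (fun i => norm_le_deg χ hd _) (by rw [h1, Nat.card_eq_fintype_card, hd]; simp) g
  rw [hd]
  simpa using this

/-- The quadratic inequality for the multiplicity. -/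
theorem KeyChar.quad (hk : KeyChar χ H) {kk : G → G} (hkk : ∀ g, kk g ∈ pr H (kk g))
    (hkm : ∀ g, ∃ m ∈ Subgroup.normalizer (H : Set G), g = kk g * m) {d n : ℕ}
    (hd : (χ : G → ℂ) 1 = d) (hn : ∑ b : H, (χ : G → ℂ) b = (Fintype.card H : ℂ) * n) (hnd : n ≤ d) :
    n = d ∨ ((Fintype.card H : ℝ) - 1) * n ≤ d := by
  have hd0 : (χ : G → ℂ) 1 ≠ 0 := irr_one_ne_zero χ.2
  have hdpos : (0 : ℝ) < d := by
    have : d ≠ 0 := by rintro rfl; exact hd0 (by rw [hd]; simp)
    exact_mod_cast Nat.pos_of_ne_zero this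
  have hdC : (d : ℂ) ≠ 0 := by rw [← hd]; exact hd0
  have hGpos : (0 : ℝ) < Nat.card G := by exact_mod_cast Nat.card_pos
  have hqpos : (0 : ℝ) < Fintype.card H := by exact_mod_cast Fintype.card_pos
  set q : ℝ := ((Fintype.card H : ℕ) : ℝ) with hq
  have h1 : ∀ g : G, (q * (q * n - d) + (∑ a : H, (χ : G → ℂ) (a * (kk g * (a : G)⁻¹ * (kk g)⁻¹))).re) ≤
      q * (∑ a : H, (χ : G → ℂ) (a * (kk g * (a : G)⁻¹ * (kk g)⁻¹))).re := by
    intro g
    refine le_trans (le_of_eq ?_) (positivity_ineq χ H (kk g))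
    rw [Finset.sum_congr rfl (fun (a : H) _ => hk.sum_b (hkk g) a.2), Finset.sum_add_distrib,
      Finset.sum_const, Finset.card_univ, nsmul_eq_mul, hn, hd, Complex.add_re]
    congr 1
    have : ((Fintype.card H : ℂ) * ((Fintype.card H : ℂ) * n - d)) = ((q * (q * n - d) : ℝ) : ℂ) := by
      rw [hq]; push_cast; ring
    rw [this, Complex.ofReal_re]
  have h2 := Finset.sum_le_sum (fun g (_ : g ∈ (Finset.univ : Finset G)) => h1 g)
  rw [Finset.sum_add_distrib, Finset.sum_const, Finset.card_univ, nsmul_eq_mul, ← Finset.mul_sum,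
    ← Nat.card_eq_fintype_card, ← Complex.re_sum, Finset.sum_comm] at h2
  have h3 : ∑ a : H, ∑ g : G, (χ : G → ℂ) (a * (kk g * (a : G)⁻¹ * (kk g)⁻¹)) =
      ((Nat.card G * (q * n * (q * n) / d - q * (q * n) + q * d) : ℝ) : ℂ) := by
    rw [Finset.sum_congr rfl (fun (a : H) _ => hk.sum_T hkk hkm a.2), ← Finset.mul_sum,
      Finset.sum_add_distrib, Finset.sum_sub_distrib, ← Finset.sum_div, ← Finset.sum_mul,
      Finset.sum_const, Finset.sum_const, Finset.card_univ, nsmul_eq_mul, nsmul_eq_mul, hn, hd, hq]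
    push_cast
    ring
  rw [h3, Complex.ofReal_re] at h2
  -- algebra
  have h4 : (q * (q * n - d) + (q * n * (q * n) / d - q * (q * n) + q * d)) ≤
      q * (q * n * (q * n) / d - q * (q * n) + q * d) := by
    have : (Nat.card G : ℝ) * (q * (q * n - d) + (q * n * (q * n) / d - q * (q * n) + q * d)) ≤
      Nat.card G * (q * (q * n * (q * n) / d - q * (q * n) + q * d)) := by
      calc _ = (Nat.card G : ℝ) * (q * (q * n - d)) +
          Nat.card G * (q * n * (q * n) / d - q * (q * n) + q * d) := by ring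
        _ ≤ q * (Nat.card G * (q * n * (q * n) / d - q * (q * n) + q * d)) := h2
        _ = _ := by ring
    exact le_of_mul_le_mul_left this hGpos
  have h5 : 0 ≤ (d - n : ℝ) * (d - (q - 1) * n) := by
    have h6 : (q * (q * n * (q * n) / d - q * (q * n) + q * d)) -
        (q * (q * n - d) + (q * n * (q * n) / d - q * (q * n) + q * d)) =
        (q * q / d) * ((d - n : ℝ) * (d - (q - 1) * n)) := by
      field_simp
      ring
    have h7 : 0 ≤ (q * q / d) * ((d - n : ℝ) * (d - (q - 1) * n)) := by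
      rw [← h6]; linarith
    have h8 : 0 < q * q / d := by positivity
    exact nonneg_of_mul_nonneg_right h7 h8
  rcases hnd.lt_or_eq with hlt | heq
  · right
    have h9 : (0 : ℝ) < d - n := by
      have : (n : ℝ) < d := by exact_mod_cast hlt
      linarith
    have := nonneg_of_mul_nonneg_right h5 h9
    linarith
  · left
    exact heq

end

end Cfsg.Agent.H72.EC
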