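import Mathlib
import Cfsg.Agent.H72.ECChar
import Cfsg.Agent.H4.SecThird
import Cfsg.Agent.H4.CharKer
import Cfsg.Agent.Blk.Orth
import Cfsg.Agent.S0942

/-!
Extremely closed abelian subgroups: relations in the principal block.
-/

set_option autoImplicit false
set_option linter.unusedSectionVars false
set_option linter.unusedVariables false

namespace Cfsg.Agent.H72.EC

open scoped ComplexConjugate
open Cfsg Cfsg.Agent.CharBase Cfsg.Agent.H4

universe u

variable {G : Type u} [Group G] [Fintype G] {p : ℕ} [hpf : Fact p.Prime] {M : Ideal AlgInt}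
  {H : Subgroup G}

theorem int_of_isIntegral_mul' {x : ℂ} (hx : IsIntegral ℤ x) {m k : ℤ} (hm : m ≠ 0)
    (h : (m : ℂ) * x = k) : ∃ j : ℤ, x = j := by
  have hm' : (m : ℂ) ≠ 0 := by exact_mod_cast hm
  have h0 : x = (((k : ℚ) / (m : ℚ) : ℚ) : ℂ) := by
    push_cast
    rw [eq_div_iff hm', ← h]; ring
  have h1 : IsIntegral ℤ ((k : ℚ) / (m : ℚ)) := by
    rw [← isIntegral_algebraMap_iff (algebraMap ℚ ℂ).injective]
    rw [h0] at hx
    exact hx
  obtain ⟨z, hz⟩ := IsIntegrallyClosed.isIntegral_iff.mp h1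
  refine ⟨z, ?_⟩
  rw [h0, ← hz]
  simp

theorem eq_oneIrr_of_charKer {χ : IrrCharacter G} (htop : charKer χ = ⊤) : χ = oneIrr G := by
  have h1 : ∀ g : G, (χ : G → ℂ) g = (χ : G → ℂ) 1 := by
    intro g
    rw [← mem_charKer, htop]
    exact Subgroup.mem_top g
  by_contra hne
  have h2 : classInner (χ : G → ℂ) (oneIrr G : G → ℂ) = 0 := classInner_irr_of_ne hne
  have h3 : classInner (χ : G → ℂ) (oneIrr G : G → ℂ) = (χ : G → ℂ) 1 := by
    unfold classInner
    rw [Finset.sum_congr rfl fun g _ => by rw [h1 g, oneIrr_apply, map_one, mul_one]]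
    rw [Finset.sum_const, Finset.card_univ, nsmul_eq_mul, ← Nat.card_eq_fintype_card]
    have : (Nat.card G : ℂ) ≠ 0 := by exact_mod_cast Nat.card_pos.ne'
    field_simp
  rw [h3] at h2
  exact irr_one_ne_zero χ.2 h2

/-- The principal block characters satisfy the key property. -/
theorem Hyp.keyChar (h : Hyp p H) (hM : IsPModular p M)
    (hC : ∀ u ∈ H, u ≠ 1 → ∀ s, Commute u s → ¬ p ∣ orderOf s → s ∈ pr H s →
      s ∈ centralizerPPrimeCore p u) {χ : IrrCharacter G} (hχ : χ ∈ principalBlock M G) :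
    KeyChar χ H := by
  intro k hk a ha b hb hab
  obtain ⟨l, s, h1, h2, h3, h4⟩ := h.key hk ha hb
  have h5 : (χ : G → ℂ) (a * (k * b * k⁻¹)) = (χ : G → ℂ) (l⁻¹ * (a * (k * b * k⁻¹)) * l) := by
    have := irr_isClassFunction χ (a * (k * b * k⁻¹)) l⁻¹
    rw [inv_inv] at this
    exact this.symm
  rw [h5, h1]
  have hu : a * b ∈ H := H.mul_mem ha hb
  refine Cfsg.Agent.S0942.result p M hM (a * b) ?_ s (hC _ hu hab s h2 h3 h4) χ hχ
  obtain ⟨n, hn⟩ := (IsPGroup.iff_orderOf.mp h.hp) ⟨a * b, hu⟩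
  exact ⟨n, by rw [← hn, Subgroup.orderOf_mk]⟩

section

variable [Fintype (IrrCharacter G)]

open Classical in
/-- The principal block as a finset. -/
noncomputable def BB (M : Ideal AlgInt) (G : Type u) [Group G] [Fintype (IrrCharacter G)] :
    Finset (IrrCharacter G) := Finset.univ.filter (· ∈ principalBlock M G)

theorem mem_BB {χ : IrrCharacter G} : χ ∈ BB M G ↔ χ ∈ principalBlock M G := by
  classical
  unfold BB
  simp

theorem finsum_BB (f : IrrCharacter G → ℂ) :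
    ∑ᶠ χ ∈ principalBlock M G, f χ = ∑ χ ∈ BB M G, f χ := by
  classical
  rw [← finsum_mem_coe_finset]
  congr 1
  funext χ
  congr 1
  · rw [Finset.mem_coe, mem_BB]
  · rw [Finset.mem_coe, mem_BB]

theorem weak (hM : IsPModular p M) {x y : G} (hx : ¬ p ∣ orderOf x) (hy : p ∣ orderOf y) :
    ∑ χ ∈ BB M G, (χ : G → ℂ) x * conj ((χ : G → ℂ) y) = 0 := by
  rw [← finsum_BB (M := M) (fun χ : IrrCharacter G => (χ : G → ℂ) x * conj ((χ : G → ℂ) y))]
  exact Blk.weak_block_orthogonality hM ⟨oneIrr G, rfl⟩ hx hy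

theorem strong (hM : IsPModular p M) {g h x y : G} (hx : IsPPart p g x) (hy : IsPPart p h y)
    (hxy : ¬ IsConj x y) :
    ∑ χ ∈ BB M G, (χ : G → ℂ) g * conj ((χ : G → ℂ) h) = 0 := by
  rw [← finsum_BB (M := M) (fun χ : IrrCharacter G => (χ : G → ℂ) g * conj ((χ : G → ℂ) h))]
  exact Blk.block_orthogonality hM ⟨oneIrr G, rfl⟩ hx hy hxy

theorem Hyp.dvd_orderOf (h : Hyp p H) {a : G} (ha : a ∈ H) (h1 : a ≠ 1) : p ∣ orderOf a := by
  obtain ⟨n, hn⟩ := (IsPGroup.iff_orderOf.mp h.hp) ⟨a, ha⟩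
  rw [Subgroup.orderOf_mk] at hn
  rw [hn]
  cases n with
  | zero => rw [pow_zero, orderOf_eq_one_iff] at hn; exact absurd hn h1
  | succ n => exact dvd_pow_self p (Nat.succ_ne_zero n)

end

end Cfsg.Agent.H72.EC
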