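import Mathlib
import Cfsg.Agent.H72.ECBlk

/-!
Extremely closed abelian subgroups: values of the principal block on `H`.
-/

set_option autoImplicit false
set_option linter.unusedSectionVars false
set_option linter.unusedVariables false

namespace Cfsg.Agent.H72.EC

open scoped ComplexConjugate
open Cfsg Cfsg.Agent.CharBase Cfsg.Agent.H4

universe u

variable {G : Type u} [Group G] [Fintype G] {p : ℕ} [hpf : Fact p.Prime] {M : Ideal AlgInt}
  {H : Subgroup G} [Fintype H]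

/-- The data. -/
structure Dat (p : ℕ) (M : Ideal AlgInt) (H : Subgroup G) [Fintype H] where
  h : Hyp p H
  hM : IsPModular p M
  key : ∀ χ ∈ principalBlock M G, KeyChar χ H
  kk : G → G
  hkk : ∀ g, kk g ∈ pr H (kk g)
  hpr : ∀ g, pr H (kk g) = pr H g
  hkm : ∀ g, ∃ m ∈ Subgroup.normalizer (H : Set G), g = kk g * m
  n : IrrCharacter G → ℕ
  hn : ∀ χ : IrrCharacter G, ∑ b : H, (χ : G → ℂ) b = (Fintype.card H : ℂ) * n χ
  hnd : ∀ χ, n χ ≤ H75.deg χ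

theorem Hyp.exists_dat (h : Hyp p H) (hM : IsPModular p M)
    (key : ∀ χ ∈ principalBlock M G, KeyChar χ H) : Nonempty (Dat p M H) := by
  choose kk hkk using fun g => h.exists_k' g
  choose n hn using fun χ : IrrCharacter G => exists_n₀ χ H (H75.deg_spec χ)
  exact ⟨⟨h, hM, key, kk, fun g => (hkk g).1, fun g => (hkk g).2.1, fun g => (hkk g).2.2, n,
    fun χ => (hn χ).2, fun χ => (hn χ).1⟩⟩

variable [Fintype (IrrCharacter G)] (D : Dat p M H)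

include D

theorem deg_ne (χ : IrrCharacter G) : (H75.deg χ : ℂ) ≠ 0 := by
  exact_mod_cast (H75.deg_pos χ).ne'

theorem Dat.weak1 {b : G} (hb : b ∈ H) (hb1 : b ≠ 1) :
    ∑ χ ∈ BB M G, (H75.deg χ : ℂ) * conj ((χ : G → ℂ) b) = 0 := by
  have := weak (x := (1 : G)) (y := b) D.hM (by
    rw [orderOf_one]; exact hpf.out.one_lt.not_ge ∘ Nat.le_of_dvd one_pos) (D.h.dvd_orderOf hb hb1)
  rw [← this]
  exact Finset.sum_congr rfl fun χ _ => by rw [H75.deg_spec]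

theorem Dat.F3 {a b : G} (ha : a ∈ H) (hb : b ∈ H) (hb1 : b ≠ 1) :
    ∑ χ ∈ BB M G, ((D.n χ : ℂ) / H75.deg χ) * ((χ : G → ℂ) a - H75.deg χ) * conj ((χ : G → ℂ) b) = 0 := by
  have h1 : ∑ g : G, ∑ χ ∈ BB M G, (χ : G → ℂ) (a * (D.kk g * a⁻¹ * (D.kk g)⁻¹)) *
      conj ((χ : G → ℂ) b) = 0 := by
    refine Finset.sum_eq_zero fun g _ => ?_
    exact weak D.hM (D.h.comm_reg (D.hkk g) ha) (D.h.dvd_orderOf hb hb1)
  rw [Finset.sum_comm] at h1
  have h2 : ∀ χ ∈ BB M G, ∑ g : G, (χ : G → ℂ) (a * (D.kk g * a⁻¹ * (D.kk g)⁻¹)) *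
      conj ((χ : G → ℂ) b) = (Nat.card G : ℂ) * (Fintype.card H : ℂ) *
        (((D.n χ : ℂ) / H75.deg χ) * ((χ : G → ℂ) a - H75.deg χ) * conj ((χ : G → ℂ) b)) +
        (Nat.card G : ℂ) * ((H75.deg χ : ℂ) * conj ((χ : G → ℂ) b)) := by
    intro χ hχ
    rw [← Finset.sum_mul, (D.key χ (mem_BB.mp hχ)).sum_T D.hkk D.hkm ha, D.hn, H75.deg_spec]
    have := deg_ne D χ
    field_simp
  rw [Finset.sum_congr rfl h2, Finset.sum_add_distrib, ← Finset.mul_sum, ← Finset.mul_sum,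
    D.weak1 hb hb1, mul_zero, add_zero] at h1
  have hG : (Nat.card G : ℂ) ≠ 0 := by exact_mod_cast Nat.card_pos.ne'
  have hq : (Fintype.card H : ℂ) ≠ 0 := by exact_mod_cast Fintype.card_ne_zero
  exact (mul_eq_zero.mp h1).resolve_left (mul_ne_zero hG hq)

theorem Dat.F4 {a b : G} (ha : a ∈ H) (ha1 : a ≠ 1) (hb : b ∈ H) (hb1 : b ≠ 1) {χ : IrrCharacter G}
    (hχ : χ ∈ BB M G) (hn : D.n χ ≠ 0) : (χ : G → ℂ) a = (χ : G → ℂ) b := by
  have h1 : ∑ χ ∈ BB M G, ((D.n χ : ℂ) / H75.deg χ) *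
      (((χ : G → ℂ) a - (χ : G → ℂ) b) * conj ((χ : G → ℂ) a - (χ : G → ℂ) b)) = 0 := by
    have e1 := D.F3 ha ha ha1
    have e2 := D.F3 ha hb hb1
    have e3 := D.F3 hb ha ha1
    have e4 := D.F3 hb hb hb1
    have : ∑ χ ∈ BB M G, ((D.n χ : ℂ) / H75.deg χ) *
      (((χ : G → ℂ) a - (χ : G → ℂ) b) * conj ((χ : G → ℂ) a - (χ : G → ℂ) b)) =
      ∑ χ ∈ BB M G, ((D.n χ : ℂ) / H75.deg χ) * ((χ : G → ℂ) a - H75.deg χ) * conj ((χ : G → ℂ) a) -
      ∑ χ ∈ BB M G, ((D.n χ : ℂ) / H75.deg χ) * ((χ : G → ℂ) a - H75.deg χ) * conj ((χ : G → ℂ) b) -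
      ∑ χ ∈ BB M G, ((D.n χ : ℂ) / H75.deg χ) * ((χ : G → ℂ) b - H75.deg χ) * conj ((χ : G → ℂ) a) +
      ∑ χ ∈ BB M G, ((D.n χ : ℂ) / H75.deg χ) * ((χ : G → ℂ) b - H75.deg χ) * conj ((χ : G → ℂ) b) := by
      rw [← Finset.sum_sub_distrib, ← Finset.sum_sub_distrib, ← Finset.sum_add_distrib]
      refine Finset.sum_congr rfl fun χ _ => ?_
      rw [map_sub]
      ring
    rw [this, e1, e2, e3, e4]
    simp
  have h2 : ∑ χ ∈ BB M G, ((D.n χ : ℝ) / H75.deg χ) *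
      ‖(χ : G → ℂ) a - (χ : G → ℂ) b‖ ^ 2 = 0 := by
    have h3 : ((∑ χ ∈ BB M G, ((D.n χ : ℝ) / H75.deg χ) *
      ‖(χ : G → ℂ) a - (χ : G → ℂ) b‖ ^ 2 : ℝ) : ℂ) = 0 := by
      rw [← h1]
      push_cast
      refine Finset.sum_congr rfl fun χ _ => ?_
      rw [Complex.mul_conj, Complex.normSq_eq_norm_sq]
      push_cast
      ring
    exact_mod_cast h3
  have h3 := (Finset.sum_eq_zero_iff_of_nonneg (fun χ _ => by positivity)).mp h2 χ hχ
  have h4 : (0 : ℝ) < (D.n χ : ℝ) / H75.deg χ := by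
    have := H75.deg_pos χ
    have h5 : (0 : ℝ) < H75.deg χ := by exact_mod_cast this
    have h6 : (0 : ℝ) < D.n χ := by exact_mod_cast Nat.pos_of_ne_zero hn
    positivity
  have h5 : ‖(χ : G → ℂ) a - (χ : G → ℂ) b‖ ^ 2 = 0 := (mul_eq_zero.mp h3).resolve_left h4.ne'
  have h6 := pow_eq_zero_iff (two_ne_zero) |>.mp h5
  exact sub_eq_zero.mp (norm_eq_zero.mp h6)

/-- Integral values. -/
theorem Dat.exists_z (hq : 2 ≤ Fintype.card H) {χ : IrrCharacter G} (hχ : χ ∈ BB M G)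
    (hn : D.n χ ≠ 0) : ∃ z : ℤ, (∀ a ∈ H, a ≠ 1 → (χ : G → ℂ) a = z) ∧
      (Fintype.card H : ℤ) * D.n χ = H75.deg χ + (Fintype.card H - 1) * z := by
  obtain ⟨b, hb1⟩ := Fintype.exists_ne_of_one_lt_card hq (1 : H)
  have hb1' : (b : G) ≠ 1 := fun e => hb1 (Subtype.ext e)
  have hval : ∀ a ∈ H, a ≠ 1 → (χ : G → ℂ) a = (χ : G → ℂ) b := fun a ha ha1 =>
    D.F4 ha ha1 b.2 hb1' hχ hn
  have hsum : (Fintype.card H : ℂ) * D.n χ = H75.deg χ + (Fintype.card H - 1) * (χ : G → ℂ) b := by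
    classical
    rw [← D.hn χ, ← Finset.add_sum_erase Finset.univ _ (Finset.mem_univ (1 : H))]
    congr 1
    · exact H75.deg_spec χ
    · rw [Finset.sum_congr rfl (g := fun _ => (χ : G → ℂ) b), Finset.sum_const,
        Finset.card_erase_of_mem (Finset.mem_univ _), Finset.card_univ, nsmul_eq_mul,
        Nat.cast_sub (by omega), Nat.cast_one]
      intro x hx
      exact hval x x.2 (fun e => (Finset.mem_erase.mp hx).1 (Subtype.ext e))
  obtain ⟨z, hz⟩ := int_of_isIntegral_mul' (irr_isIntegral χ (b : G)) (m := (Fintype.card H : ℤ) - 1)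
    (k := (Fintype.card H : ℤ) * D.n χ - H75.deg χ) (by omega) (by
      push_cast
      rw [hsum]
      ring)
  refine ⟨z, fun a ha ha1 => (hval a ha ha1).trans hz, ?_⟩
  rw [hz] at hsum
  exact_mod_cast hsum

end Cfsg.Agent.H72.EC
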