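import Mathlib
import Cfsg.Agent.H72.ECMain

/-!
Extremely closed abelian subgroups: the case where `G` is generated by the conjugates of `H`.
-/

set_option autoImplicit false
set_option linter.unusedSectionVars false
set_option linter.unusedVariables false
set_option linter.style.haveILetI false

namespace Cfsg.Agent.H72.EC

open scoped ComplexConjugate
open Cfsg Cfsg.Agent.CharBase Cfsg.Agent.H4 Cfsg.Agent.Blk

universe u

variable {G : Type u} [Group G] [Fintype G] {p : ℕ} [hpf : Fact p.Prime] {M : Ideal AlgInt}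
  {H : Subgroup G}

/-- Characters of a quotient `p`-group lie in the principal block. -/
theorem mem_principalBlock_of_index (hM : IsPModular p M) (N : Subgroup G) [N.Normal]
    (hnc : ∃ k, N.index = p ^ k) (χ : IrrCharacter G)
    (hχ : ∀ n ∈ N, (χ : G → ℂ) n = (χ : G → ℂ) 1) : χ ∈ principalBlock M G := by
  haveI := isPrime_of_isPModular hM
  obtain ⟨χ', hχ', he⟩ := H75.exists_deflate_irr N χ.2 hχ
  obtain ⟨k, hk⟩ := hnc
  have hreg : ∀ g : G ⧸ N, ¬ p ∣ orderOf g → g = 1 := by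
    intro g hg
    have h1 : orderOf g ∣ p ^ k := by
      rw [← hk, Subgroup.index_eq_card]
      exact orderOf_dvd_natCard g
    obtain ⟨j, -, hj⟩ := (Nat.dvd_prime_pow hM.1).mp h1
    cases j with
    | zero => rw [pow_zero] at hj; exact orderOf_eq_one_iff.mp hj
    | succ j => exact absurd (by rw [hj]; exact dvd_pow_self p (Nat.succ_ne_zero j)) hg
  have h1 : SameBlock M ((oneIrr (G ⧸ N) : IrrCharacter _) :
      G ⧸ N → ℂ) χ' := by
    refine sameBlock_of_regular hM (oneIrr (G ⧸ N)) ⟨χ', hχ'⟩ fun g hg => ?_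
    rw [hreg g hg, centralChar_one, centralChar_one, sub_self]
    exact mli_zero
  have h2 := sameBlock_inflate hM N h1
  have h3 : χ' ∘ (QuotientGroup.mk : G → G ⧸ N) = (χ : G → ℂ) := by
    funext g
    exact he g
  rw [h3] at h2
  exact h2

variable [Fintype H]

/-- The subgroup generated by the commutators. -/
def Dat.N₁ (D : Dat p M H) : Subgroup G :=
  Subgroup.normalClosure {x | ∃ a ∈ H, ∃ g, x = a * (D.kk g * a⁻¹ * (D.kk g)⁻¹)}

instance (D : Dat p M H) : D.N₁.Normal := Subgroup.normalClosure_normal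

theorem Dat.mem_N₁ (D : Dat p M H) {a : G} (ha : a ∈ H) (g : G) :
    a * (D.kk g * a⁻¹ * (D.kk g)⁻¹) ∈ D.N₁ :=
  Subgroup.subset_normalClosure ⟨a, ha, g, rfl⟩

theorem Dat.conj_mem (D : Dat p M H) {a : G} (ha : a ∈ H) (g : G) : g * a * g⁻¹ ∈ D.N₁ ⊔ H := by
  obtain ⟨m, hm, hg⟩ := D.hkm g
  have h1 : m * a * m⁻¹ ∈ H := (Subgroup.mem_normalizer_iff.mp hm a).mp ha
  have h2 := D.mem_N₁ h1 g
  have h3 : g * a * g⁻¹ = ((m * a * m⁻¹) * (D.kk g * (m * a * m⁻¹)⁻¹ * (D.kk g)⁻¹))⁻¹ * (m * a * m⁻¹) := by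
    conv_lhs => rw [hg]
    group
  rw [h3]
  exact Subgroup.mul_mem _ (Subgroup.inv_mem _ ((le_sup_left : D.N₁ ≤ _) h2)) ((le_sup_right : H ≤ _) h1)

theorem Dat.sup_eq_top (D : Dat p M H) (hgen : ∀ N : Subgroup G, N.Normal → H ≤ N → N = ⊤) :
    D.N₁ ⊔ H = ⊤ := by
  have h1 : Subgroup.normalClosure (H : Set G) = ⊤ :=
    hgen _ Subgroup.normalClosure_normal Subgroup.subset_normalClosure
  rw [eq_top_iff, ← h1, Subgroup.normalClosure, Subgroup.closure_le]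
  intro x hx
  rw [Group.mem_conjugatesOfSet_iff] at hx
  obtain ⟨a, ha, hax⟩ := hx
  obtain ⟨g, rfl⟩ := isConj_iff.mp hax
  exact D.conj_mem ha g

variable [Fintype (IrrCharacter G)] (D : Dat p M H)

include D

theorem Dat.ker0 {χ : IrrCharacter G} (hχ : χ ∈ BB M G) (hn : D.n χ = 0) : D.N₁ ≤ charKer χ := by
  refine Subgroup.normalClosure_le_normal ?_
  rintro x ⟨a, ha, g, rfl⟩
  rw [SetLike.mem_coe, mem_charKer]
  exact (D.key χ (mem_BB.mp hχ)).T_eq_of_zero D.hkk D.hkm (by rw [D.hn, hn]; simp) ha g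

theorem Dat.ker1 (hgen : ∀ N : Subgroup G, N.Normal → H ≤ N → N = ⊤) {χ : IrrCharacter G}
    (hχ : χ ∈ BB M G) (h : D.N₁ ≤ charKer χ) : D.n χ = 0 ∨ χ = oneIrr G := by
  by_cases hn : D.n χ = 0
  · left; exact hn
  right
  apply eq_oneIrr_of_charKer
  refine hgen _ inferInstance ?_
  intro a ha
  rw [mem_charKer]
  have h1 := (D.key χ (mem_BB.mp hχ)).sum_T D.hkk D.hkm ha
  rw [Finset.sum_congr rfl (g := fun _ => (χ : G → ℂ) 1) (fun g _ => h (D.mem_N₁ ha g)),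
    Finset.sum_const, Finset.card_univ, nsmul_eq_mul, ← Nat.card_eq_fintype_card, D.hn] at h1
  have hG : (Nat.card G : ℂ) ≠ 0 := by exact_mod_cast Nat.card_pos.ne'
  have h2 := mul_left_cancel₀ hG h1
  have hd := deg_ne D χ
  rw [H75.deg_spec] at h2 ⊢
  have h3 : (Fintype.card H : ℂ) * D.n χ * ((χ : G → ℂ) a - H75.deg χ) = 0 := by
    field_simp at h2
    linear_combination (-1 : ℂ) * h2
  have hq : (Fintype.card H : ℂ) ≠ 0 := by exact_mod_cast Fintype.card_ne_zero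
  have hn' : (D.n χ : ℂ) ≠ 0 := by exact_mod_cast hn
  have := (mul_eq_zero.mp h3).resolve_left (mul_ne_zero hq hn')
  exact sub_eq_zero.mp this

theorem Dat.deg_one : H75.deg (oneIrr G) = 1 := by
  have := H75.deg_spec (oneIrr G)
  rw [oneIrr_apply] at this
  exact_mod_cast this.symm

theorem Dat.n_one : D.n (oneIrr G) = 1 := by
  have h1 := D.hn (oneIrr G)
  simp only [oneIrr_apply] at h1
  rw [Finset.sum_const, Finset.card_univ, nsmul_eq_mul] at h1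
  have hq : (Fintype.card H : ℂ) ≠ 0 := by exact_mod_cast Fintype.card_ne_zero
  have := mul_left_cancel₀ hq h1
  exact_mod_cast this.symm

theorem Dat.one_mem : oneIrr G ∈ BB M G := by
  haveI := isPrime_of_isPModular D.hM
  rw [mem_BB]
  exact oneIrr_mem_principalBlock

open Classical in
/-- The nontrivial members with `n ≠ 0`. -/
noncomputable def YY : Finset (IrrCharacter G) := (BB M G).filter fun χ => χ ≠ oneIrr G ∧ D.n χ ≠ 0

open Classical in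
/-- The nontrivial members with `n = 0`. -/
noncomputable def ZZ : Finset (IrrCharacter G) := (BB M G).filter fun χ => χ ≠ oneIrr G ∧ D.n χ = 0

theorem mem_YY {χ : IrrCharacter G} : χ ∈ YY D ↔ χ ∈ BB M G ∧ χ ≠ oneIrr G ∧ D.n χ ≠ 0 := by
  classical
  unfold YY
  rw [Finset.mem_filter]

theorem mem_ZZ {χ : IrrCharacter G} : χ ∈ ZZ D ↔ χ ∈ BB M G ∧ χ ≠ oneIrr G ∧ D.n χ = 0 := by
  classical
  unfold ZZ
  rw [Finset.mem_filter]

theorem sum_split (f : IrrCharacter G → ℂ) :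
    ∑ χ ∈ BB M G, f χ = f (oneIrr G) + ∑ χ ∈ YY D, f χ + ∑ χ ∈ ZZ D, f χ := by
  classical
  have h1 : BB M G = insert (oneIrr G) (YY D ∪ ZZ D) := by
    ext χ
    rw [Finset.mem_insert, Finset.mem_union, mem_YY, mem_ZZ]
    constructor
    · intro h
      by_cases h1 : χ = oneIrr G
      · left; exact h1
      · right
        by_cases h2 : D.n χ = 0
        · right; exact ⟨h, h1, h2⟩
        · left; exact ⟨h, h1, h2⟩
    · rintro (h | h | h)
      · rw [h]; exact D.one_mem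
      · exact h.1
      · exact h.1
  have h2 : oneIrr G ∉ YY D ∪ ZZ D := by
    rw [Finset.mem_union, mem_YY, mem_ZZ]
    rintro (h | h)
    · exact h.2.1 rfl
    · exact h.2.1 rfl
  have h3 : Disjoint (YY D) (ZZ D) := by
    rw [Finset.disjoint_left]
    intro χ h4 h5
    exact ((mem_YY D).mp h4).2.2 ((mem_ZZ D).mp h5).2.2
  rw [h1, Finset.sum_insert h2, Finset.sum_union h3, add_assoc]

/-- Existence of all integral values. -/
theorem Dat.exists_zfun (hq : 2 ≤ Fintype.card H) : ∃ z : IrrCharacter G → ℤ, ∀ χ ∈ YY D,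
    (∀ a ∈ H, a ≠ 1 → (χ : G → ℂ) a = z χ) ∧
      (Fintype.card H : ℤ) * D.n χ = H75.deg χ + (Fintype.card H - 1) * z χ := by
  have : ∀ χ ∈ YY D, ∃ z : ℤ, (∀ a ∈ H, a ≠ 1 → (χ : G → ℂ) a = z) ∧
      (Fintype.card H : ℤ) * D.n χ = H75.deg χ + (Fintype.card H - 1) * z := by
    intro χ hχ
    rw [mem_YY] at hχ
    exact D.exists_z hq hχ.1 hχ.2.2
  choose! z hz using this
  exact ⟨z, hz⟩

theorem Dat.relA {z : IrrCharacter G → ℤ} (hz : ∀ χ ∈ YY D,
    (∀ a ∈ H, a ≠ 1 → (χ : G → ℂ) a = z χ)) {a : G} (ha : a ∈ H) (ha1 : a ≠ 1) :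
    1 + ∑ χ ∈ YY D, (H75.deg χ : ℂ) * z χ + ∑ χ ∈ ZZ D, (H75.deg χ : ℂ) * (χ : G → ℂ) a = 0 := by
  have h1 := D.weak1 (H.inv_mem ha) (inv_ne_one.mpr ha1)
  rw [Finset.sum_congr rfl (g := fun χ : IrrCharacter G => (H75.deg χ : ℂ) * (χ : G → ℂ) a)
    (fun χ _ => by rw [← irr_inv, inv_inv]), sum_split D] at h1
  rw [← h1, D.deg_one, oneIrr_apply]
  rw [Finset.sum_congr rfl (s₁ := YY D) (g := fun χ : IrrCharacter G => (H75.deg χ : ℂ) * (χ : G → ℂ) a)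
    (fun χ hχ => by rw [hz χ hχ a ha ha1])]
  simp

theorem Dat.relB (hq : 2 ≤ Fintype.card H) {z : IrrCharacter G → ℤ} (hz : ∀ χ ∈ YY D,
    (∀ a ∈ H, a ≠ 1 → (χ : G → ℂ) a = z χ)) :
    ((Fintype.card H : ℤ) - 1) * (1 + ∑ χ ∈ YY D, (H75.deg χ : ℤ) * z χ) =
      ∑ χ ∈ ZZ D, (H75.deg χ : ℤ) ^ 2 := by
  classical
  have h1 : ∑ a ∈ (Finset.univ : Finset H).erase 1, (1 + ∑ χ ∈ YY D, (H75.deg χ : ℂ) * z χ +
      ∑ χ ∈ ZZ D, (H75.deg χ : ℂ) * (χ : G → ℂ) a) = 0 := by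
    refine Finset.sum_eq_zero fun a ha => ?_
    exact D.relA hz a.2 (fun e => (Finset.mem_erase.mp ha).1 (Subtype.ext e))
  rw [Finset.sum_add_distrib, Finset.sum_const, Finset.card_erase_of_mem (Finset.mem_univ _),
    Finset.card_univ, nsmul_eq_mul, Finset.sum_comm] at h1
  have h2 : ∀ χ ∈ ZZ D, ∑ a ∈ (Finset.univ : Finset H).erase 1, (H75.deg χ : ℂ) * (χ : G → ℂ) a =
      - (H75.deg χ : ℂ) ^ 2 := by
    intro χ hχ
    rw [mem_ZZ] at hχ
    have h3 := D.hn χ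
    rw [hχ.2.2, Nat.cast_zero, mul_zero, ← Finset.add_sum_erase Finset.univ _ (Finset.mem_univ (1 : H))] at h3
    have h4 : (χ : G → ℂ) ((1 : H) : G) = H75.deg χ := H75.deg_spec χ
    rw [h4] at h3
    rw [← Finset.mul_sum, eq_neg_of_add_eq_zero_right h3]
    ring
  rw [Finset.sum_congr rfl h2, Finset.sum_neg_distrib, Nat.cast_sub (by omega), Nat.cast_one] at h1
  have h3 : (((((Fintype.card H : ℤ) - 1) * (1 + ∑ χ ∈ YY D, (H75.deg χ : ℤ) * z χ) : ℤ)) : ℂ) =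
      ((∑ χ ∈ ZZ D, (H75.deg χ : ℤ) ^ 2 : ℤ) : ℂ) := by
    push_cast
    linear_combination h1
  exact_mod_cast h3

theorem Dat.relC (hq : 2 ≤ Fintype.card H) {z : IrrCharacter G → ℤ} (hz : ∀ χ ∈ YY D,
    (∀ a ∈ H, a ≠ 1 → (χ : G → ℂ) a = z χ) ∧
      (Fintype.card H : ℤ) * D.n χ = H75.deg χ + (Fintype.card H - 1) * z χ) :
    ∑ χ ∈ YY D, (((Fintype.card H : ℝ) - 2) * z χ ^ 2 - ((Fintype.card H : ℝ) - 1) * z χ ^ 3 / H75.deg χ) =
      - ∑ χ ∈ YY D, (H75.deg χ : ℝ) * z χ := by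
  obtain ⟨b, hb1⟩ := Fintype.exists_ne_of_one_lt_card hq (1 : H)
  have hb1' : (b : G) ≠ 1 := fun e => hb1 (Subtype.ext e)
  have h1 := D.F3 b.2 b.2 hb1'
  rw [sum_split D, D.deg_one, oneIrr_apply] at h1
  rw [Finset.sum_eq_zero (s := ZZ D) (fun χ hχ => by
    rw [((mem_ZZ D).mp hχ).2.2]; simp)] at h1
  have h2 : ∑ χ ∈ YY D, ((D.n χ : ℂ) / H75.deg χ) * ((z χ : ℂ) - H75.deg χ) * (z χ : ℂ) = 0 := by
    rw [← h1]
    simp only [Nat.cast_one, sub_self, mul_zero, zero_mul, zero_add, add_zero]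
    refine Finset.sum_congr rfl fun χ hχ => ?_
    rw [(hz χ hχ).1 b b.2 hb1', map_intCast]
  have h3 : ∑ χ ∈ YY D, ((D.n χ : ℝ) / H75.deg χ) * ((z χ : ℝ) - H75.deg χ) * (z χ : ℝ) = 0 := by
    have : ((∑ χ ∈ YY D, ((D.n χ : ℝ) / H75.deg χ) * ((z χ : ℝ) - H75.deg χ) * (z χ : ℝ) : ℝ) : ℂ) = 0 := by
      rw [← h2]; push_cast; rfl
    exact_mod_cast this
  have h4 : ∑ χ ∈ YY D, (Fintype.card H : ℝ) * (((D.n χ : ℝ) / H75.deg χ) * ((z χ : ℝ) - H75.deg χ) * (z χ : ℝ)) = 0 := by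
    rw [← Finset.mul_sum, h3, mul_zero]
  rw [eq_neg_iff_add_eq_zero, ← Finset.sum_add_distrib, ← neg_eq_zero, ← Finset.sum_neg_distrib, ← h4]
  refine Finset.sum_congr rfl fun χ hχ => ?_
  have h5 : (Fintype.card H : ℝ) * D.n χ = H75.deg χ + (Fintype.card H - 1) * z χ := by
    exact_mod_cast (hz χ hχ).2
  have h6 : (H75.deg χ : ℝ) ≠ 0 := by exact_mod_cast (H75.deg_pos χ).ne'
  have h7 : (Fintype.card H : ℝ) * (((D.n χ : ℝ) / H75.deg χ) * ((z χ : ℝ) - H75.deg χ) * (z χ : ℝ)) =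
      ((Fintype.card H : ℝ) * D.n χ) * ((z χ : ℝ) - H75.deg χ) * (z χ : ℝ) / H75.deg χ := by ring
  rw [h7, h5]
  field_simp
  ring

/-- The terms are nonnegative. -/
theorem Dat.term_ge (hq : 3 ≤ Fintype.card H) (hgen : ∀ N : Subgroup G, N.Normal → H ≤ N → N = ⊤)
    {z : IrrCharacter G → ℤ} (hz : ∀ χ ∈ YY D,
    (∀ a ∈ H, a ≠ 1 → (χ : G → ℂ) a = z χ) ∧
      (Fintype.card H : ℤ) * D.n χ = H75.deg χ + (Fintype.card H - 1) * z χ) {χ : IrrCharacter G}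
    (hχ : χ ∈ YY D) : (z χ : ℝ) ^ 2 / 2 ≤
      ((Fintype.card H : ℝ) - 2) * z χ ^ 2 - ((Fintype.card H : ℝ) - 1) * z χ ^ 3 / H75.deg χ := by
  have hY := (mem_YY D).mp hχ
  have h1 : D.n χ ≠ H75.deg χ := by
    intro he
    apply hY.2.1
    apply eq_oneIrr_of_charKer
    refine hgen _ inferInstance ?_
    intro a ha
    rw [mem_charKer]
    refine mem_ker_of_n₀_eq χ H (H75.deg_spec χ) ?_ a ha
    rw [D.hn, he]
  have h2 := ((D.key χ (mem_BB.mp hY.1)).quad D.hkk D.hkm (H75.deg_spec χ) (D.hn χ) (D.hnd χ)).resolve_left h1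
  have h5 : (Fintype.card H : ℝ) * D.n χ = H75.deg χ + (Fintype.card H - 1) * z χ := by
    exact_mod_cast (hz χ hχ).2
  have h6 : (0 : ℝ) < H75.deg χ := by exact_mod_cast H75.deg_pos χ
  have hq3 : (3 : ℝ) ≤ Fintype.card H := by exact_mod_cast hq
  set q : ℝ := ((Fintype.card H : ℕ) : ℝ) with hqd
  set d : ℝ := ((H75.deg χ : ℕ) : ℝ) with hd
  set w : ℝ := (z χ : ℝ) with hw
  have h7 : (q - 1) ^ 2 * w ≤ d := by
    have : q * ((q - 1) * D.n χ) ≤ q * d := mul_le_mul_of_nonneg_left h2 (by linarith)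
    have h8 : q * ((q - 1) * (D.n χ : ℝ)) = (q - 1) * (d + (q - 1) * w) := by rw [← h5]; ring
    rw [h8] at this
    nlinarith
  have h8 : (q - 1) * w / d ≤ 1 / 2 := by
    rw [div_le_div_iff₀ h6 (by norm_num)]
    by_cases hw0 : w ≤ 0
    · nlinarith
    · push Not at hw0
      nlinarith
  have h9 : (q - 2) * w ^ 2 - (q - 1) * w ^ 3 / d = w ^ 2 * ((q - 2) - (q - 1) * w / d) := by ring
  rw [h9]
  have : w ^ 2 * (1 / 2) ≤ w ^ 2 * ((q - 2) - (q - 1) * w / d) :=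
    mul_le_mul_of_nonneg_left (by linarith) (sq_nonneg w)
  linarith

end Cfsg.Agent.H72.EC
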