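import Mathlib
import Cfsg.Agent.H72.ECFin

/-!
Extremely closed abelian subgroups: conclusion of the case where `G` is generated by the conjugates of `H`.
-/

set_option autoImplicit false
set_option linter.unusedSectionVars false
set_option linter.unusedVariables false
set_option linter.style.haveILetI false

namespace Cfsg.Agent.H72.EC

open scoped ComplexConjugate
open Cfsg Cfsg.Agent.CharBase Cfsg.Agent.H4 Cfsg.Agent.Blk

universe u

variable {G : Type u} [Group G] [Fintype G] {p : ℕ} [hpf : Fact p.Prime] {M : Ideal AlgInt}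
  {H : Subgroup G} [Fintype H] [Fintype (IrrCharacter G)] (D : Dat p M H)

include D

theorem Dat.dicho (hq : 3 ≤ Fintype.card H) (hgen : ∀ N : Subgroup G, N.Normal → H ≤ N → N = ⊤) :
    ∀ a ∈ H, a ∈ D.N₁ → a = 1 := by
  intro a ha haN
  by_contra ha1
  obtain ⟨z, hz⟩ := D.exists_zfun (by omega)
  have hA := D.relA (fun χ hχ => (hz χ hχ).1) ha ha1
  have hB := D.relB (by omega) (fun χ hχ => (hz χ hχ).1)
  have hC := D.relC (by omega) hz
  have h1 : ∑ χ ∈ ZZ D, (H75.deg χ : ℂ) * (χ : G → ℂ) a = ∑ χ ∈ ZZ D, (H75.deg χ : ℂ) ^ 2 := by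
    refine Finset.sum_congr rfl fun χ hχ => ?_
    have h2 := (mem_ZZ D).mp hχ
    have h3 := D.ker0 h2.1 h2.2.2 haN
    rw [mem_charKer, H75.deg_spec] at h3
    rw [h3]; ring
  rw [h1] at hA
  have hA' : 1 + ∑ χ ∈ YY D, (H75.deg χ : ℤ) * z χ + ∑ χ ∈ ZZ D, (H75.deg χ : ℤ) ^ 2 = 0 := by
    exact_mod_cast hA
  have hD : ∑ χ ∈ YY D, (H75.deg χ : ℤ) * z χ = -1 := by
    have h2 : (Fintype.card H : ℤ) * (1 + ∑ χ ∈ YY D, (H75.deg χ : ℤ) * z χ) = 0 := by
      linear_combination hB + hA'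
    have h3 : (Fintype.card H : ℤ) ≠ 0 := by exact_mod_cast Fintype.card_ne_zero
    have := (mul_eq_zero.mp h2).resolve_left h3
    linarith
  have hDR : ∑ χ ∈ YY D, (H75.deg χ : ℝ) * z χ = -1 := by exact_mod_cast hD
  rw [hDR, neg_neg] at hC
  -- a member with negative value
  obtain ⟨χ, hχ, hneg⟩ : ∃ χ ∈ YY D, z χ < 0 := by
    by_contra hcon
    push Not at hcon
    have : 0 ≤ ∑ χ ∈ YY D, (H75.deg χ : ℤ) * z χ :=
      Finset.sum_nonneg fun χ hχ => mul_nonneg (by positivity) (hcon χ hχ)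
    omega
  have h2 : ((Fintype.card H : ℝ) - 2) * z χ ^ 2 - ((Fintype.card H : ℝ) - 1) * z χ ^ 3 / H75.deg χ ≤ 1 := by
    refine le_of_le_of_eq ?_ hC
    refine Finset.single_le_sum (f := fun χ => ((Fintype.card H : ℝ) - 2) * (z χ : ℝ) ^ 2 -
      ((Fintype.card H : ℝ) - 1) * (z χ : ℝ) ^ 3 / H75.deg χ) (fun ψ hψ => ?_) hχ
    exact le_trans (by positivity) (D.term_ge hq hgen hz hψ)
  have h3 : (z χ : ℝ) ≤ -1 := by exact_mod_cast (by omega : z χ ≤ -1)
  have h6 : (0 : ℝ) < H75.deg χ := by exact_mod_cast H75.deg_pos χ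
  have hq3 : (3 : ℝ) ≤ Fintype.card H := by exact_mod_cast hq
  have h4 : ((Fintype.card H : ℝ) - 1) * z χ ^ 3 / H75.deg χ < 0 := by
    apply div_neg_of_neg_of_pos _ h6
    have h5 : (z χ : ℝ) ^ 3 < 0 := by
      have : (z χ : ℝ) ^ 3 = z χ * z χ ^ 2 := by ring
      rw [this]
      exact mul_neg_of_neg_of_pos (by linarith) (by nlinarith)
    exact mul_neg_of_pos_of_neg (by linarith) h5
  have h5 : (1 : ℝ) ≤ ((Fintype.card H : ℝ) - 2) * z χ ^ 2 := by
    have : (1 : ℝ) ≤ (z χ : ℝ) ^ 2 := by nlinarith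
    nlinarith
  linarith

theorem Dat.index_eq (hgen : ∀ N : Subgroup G, N.Normal → H ≤ N → N = ⊤)
    (hd : ∀ a ∈ H, a ∈ D.N₁ → a = 1) : D.N₁.index = Nat.card H := by
  have h1 : Subgroup.IsComplement' D.N₁ H := by
    apply Subgroup.isComplement'_of_disjoint_and_mul_eq_univ
    · rw [disjoint_iff, eq_bot_iff]
      rintro x ⟨h2, h3⟩
      rw [Subgroup.mem_bot]
      exact hd x h3 h2
    · have h2 := D.sup_eq_top hgen
      rw [← Subgroup.normal_mul, h2]
      rfl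
  exact h1.symm.index_eq_card

theorem Dat.vanish (hq : 3 ≤ Fintype.card H) (hgen : ∀ N : Subgroup G, N.Normal → H ≤ N → N = ⊤)
    {χ : IrrCharacter G} (hχ : χ ∈ YY D) : ∀ a ∈ H, a ≠ 1 → (χ : G → ℂ) a = 0 := by
  classical
  have hd := D.dicho hq hgen
  obtain ⟨z, hz⟩ := D.exists_zfun (by omega)
  have hB := D.relB (by omega) (fun χ hχ => (hz χ hχ).1)
  have hC := D.relC (by omega) hz
  have hidx := D.index_eq hgen hd
  have h1 := sum_deg_sq_ker D.N₁
  rw [hidx, Nat.card_eq_fintype_card, ← Finset.sum_filter] at h1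
  have h2 : (Finset.univ.filter fun χ : IrrCharacter G => ∀ n ∈ D.N₁, (χ : G → ℂ) n = (χ : G → ℂ) 1) =
      insert (oneIrr G) (ZZ D) := by
    ext ψ
    rw [Finset.mem_filter, Finset.mem_insert, mem_ZZ]
    constructor
    · rintro ⟨-, h⟩
      have h3 : ψ ∈ BB M G := by
        rw [mem_BB]
        refine mem_principalBlock_of_index D.hM D.N₁ ?_ ψ h
        rw [hidx]
        exact IsPGroup.iff_card.mp D.h.hp
      rcases D.ker1 hgen h3 h with h4 | h4
      · by_cases h5 : ψ = oneIrr G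
        · left; exact h5
        · right; exact ⟨h3, h5, h4⟩
      · left; exact h4
    · rintro (h | h)
      · refine ⟨Finset.mem_univ _, fun n _ => ?_⟩
        rw [h]; rfl
      · exact ⟨Finset.mem_univ _, fun n hn => D.ker0 h.1 h.2.2 hn⟩
  have h3 : oneIrr G ∉ ZZ D := fun h => ((mem_ZZ D).mp h).2.1 rfl
  rw [h2, Finset.sum_insert h3, D.deg_one] at h1
  have h4 : (∑ χ ∈ ZZ D, (H75.deg χ : ℤ) ^ 2) = Fintype.card H - 1 := by
    have : ((1 ^ 2 + ∑ χ ∈ ZZ D, (H75.deg χ) ^ 2 : ℕ) : ℤ) = (Fintype.card H : ℤ) := by exact_mod_cast h1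
    push_cast at this
    linarith
  rw [h4] at hB
  have hD : ∑ χ ∈ YY D, (H75.deg χ : ℤ) * z χ = 0 := by
    have h5 : ((Fintype.card H : ℤ) - 1) ≠ 0 := by omega
    have h6 : ((Fintype.card H : ℤ) - 1) * (∑ χ ∈ YY D, (H75.deg χ : ℤ) * z χ) = 0 := by
      linear_combination hB
    exact (mul_eq_zero.mp h6).resolve_left h5
  have hDR : ∑ χ ∈ YY D, (H75.deg χ : ℝ) * z χ = 0 := by exact_mod_cast hD
  rw [hDR, neg_zero] at hC
  have h7 := (Finset.sum_eq_zero_iff_of_nonneg (fun ψ hψ =>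
    le_trans (by positivity) (D.term_ge hq hgen hz hψ))).mp hC χ hχ
  have h8 := D.term_ge hq hgen hz hχ
  rw [h7] at h8
  have h9 : (z χ : ℝ) = 0 := by
    have : (z χ : ℝ) ^ 2 ≤ 0 := by linarith
    exact pow_eq_zero_iff (two_ne_zero) |>.mp (le_antisymm this (sq_nonneg _))
  intro a ha ha1
  rw [(hz χ hχ).1 a ha ha1]
  have : z χ = 0 := by exact_mod_cast h9
  rw [this]; simp

/-- Elements of the coset `h N₁` have `p`-part conjugate to `h`. -/
theorem Dat.isConj_part (hq : 3 ≤ Fintype.card H) (hgen : ∀ N : Subgroup G, N.Normal → H ≤ N → N = ⊤)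
    {a x t : G} (ha : a ∈ H) (ha1 : a ≠ 1) (ht : t ∈ D.N₁) (hx : ∃ k, orderOf (a * t) = p ^ k) :
    IsConj (a * t) a := by
  by_contra hne
  have hp1 : ∀ y : G, (∃ k, orderOf y = p ^ k) → IsPPart p y y := fun y hy =>
    ⟨1, mul_one y, Commute.one_right y, hy, by
      rw [orderOf_one]; exact hpf.out.one_lt.not_ge ∘ Nat.le_of_dvd one_pos⟩
  have ha2 : ∃ k, orderOf a = p ^ k := by
    obtain ⟨n, hn⟩ := (IsPGroup.iff_orderOf.mp D.h.hp) ⟨a, ha⟩
    exact ⟨n, by rw [← hn, Subgroup.orderOf_mk]⟩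
  have h1 := strong D.hM (hp1 _ hx) (hp1 _ ha2) hne
  rw [sum_split D] at h1
  have h2 : ∑ χ ∈ YY D, (χ : G → ℂ) (a * t) * conj ((χ : G → ℂ) a) = 0 :=
    Finset.sum_eq_zero fun χ hχ => by rw [D.vanish hq hgen hχ a ha ha1]; simp
  have h3 : ∀ χ ∈ ZZ D, (χ : G → ℂ) (a * t) * conj ((χ : G → ℂ) a) = ((‖(χ : G → ℂ) a‖ ^ 2 : ℝ) : ℂ) := by
    intro χ hχ
    have h4 := (mem_ZZ D).mp hχ
    have h5 := D.ker0 h4.1 h4.2.2 ht
    have h6 : (χ : G → ℂ) (a * t) = (χ : G → ℂ) a := by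
      obtain ⟨χ, n, ρ, hρ, rfl⟩ := χ
      change ρ.character _ = ρ.character _
      have h7 := (char_eq_one_iff ρ t).mp h5
      show LinearMap.trace ℂ _ (ρ (a * t)) = LinearMap.trace ℂ _ (ρ a)
      rw [map_mul, h7, mul_one]
    rw [h6, Complex.mul_conj, Complex.normSq_eq_norm_sq]
  rw [h2, Finset.sum_congr rfl h3, oneIrr_apply, oneIrr_apply, map_one, mul_one, add_zero,
    ← Complex.ofReal_sum, ← Complex.ofReal_one, ← Complex.ofReal_add] at h1
  have h4 : (1 : ℝ) + ∑ χ ∈ ZZ D, ‖(χ : G → ℂ) a‖ ^ 2 = 0 := by exact_mod_cast h1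
  have h5 : 0 ≤ ∑ χ ∈ ZZ D, ‖(χ : G → ℂ) a‖ ^ 2 := Finset.sum_nonneg fun _ _ => by positivity
  linarith

/-- The conclusion. -/
theorem Dat.conclusion (hq : 3 ≤ Fintype.card H) (hgen : ∀ N : Subgroup G, N.Normal → H ≤ N → N = ⊤) :
    Subgroup.normalizer (H : Set G) ⊔ pPrimeCore p G = ⊤ := by
  have hd := D.dicho hq hgen
  obtain ⟨a, ha1⟩ := Fintype.exists_ne_of_one_lt_card (by omega : 1 < Fintype.card H) (1 : H)
  have ha1' : (a : G) ≠ 1 := fun e => ha1 (Subtype.ext e)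
  -- a Sylow subgroup containing `H`
  obtain ⟨S, hS⟩ := D.h.hp.exists_le_sylow
  have hnorm : ∀ s ∈ S, s ∈ Subgroup.normalizer (H : Set G) := by
    intro s hs
    obtain ⟨m, hm, hg⟩ := D.hkm s
    have h1 : pr H s ≤ S := pr_le_of_mem hS hs
    have h2 : IsPGroup p (pr H s) := S.2.to_le h1
    obtain ⟨T, hT, -⟩ := D.h.local s
    have h3 : (T : Subgroup (pr H s)) = ⊤ := by
      have h4 : IsPGroup p (⊤ : Subgroup (pr H s)) := h2.to_subgroup ⊤
      exact (T.3 h4 le_top).symm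
    have h4 : D.kk s ∈ H := by
      have h5 : D.kk s ∈ pr H s := by rw [← D.hpr s]; exact D.hkk s
      have h6 : (⟨D.kk s, h5⟩ : pr H s) ∈ (T : Subgroup (pr H s)) := by rw [h3]; trivial
      rw [hT] at h6
      exact h6
    rw [hg]
    exact Subgroup.mul_mem _ (Subgroup.le_normalizer h4) hm
  have hN : ¬ p ∣ Nat.card D.N₁ := by
    intro hdvd
    obtain ⟨t, ht⟩ := exists_prime_orderOf_dvd_card' (G := D.N₁) p hdvd
    have ht' : orderOf (t : G) = p := by rw [Subgroup.orderOf_coe]; exact ht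
    -- conjugate `t` into `S`
    have htp : IsPGroup p (Subgroup.zpowers (t : G)) :=
      IsPGroup.of_card (n := 1) (by rw [Nat.card_zpowers, ht', pow_one])
    obtain ⟨T, hT⟩ := htp.exists_le_sylow
    obtain ⟨l, hl⟩ := MulAction.exists_smul_eq G S T
    have htl : l⁻¹ * t * l ∈ S := by
      have h1 : (t : G) ∈ (T : Subgroup G) := hT (Subgroup.mem_zpowers _)
      rw [← hl, Sylow.coe_subgroup_smul, Subgroup.mem_pointwise_smul_iff_inv_smul_mem] at h1
      have h2 : (MulAut.conj l)⁻¹ • (t : G) = l⁻¹ * t * l := by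
        simp [MulAut.smul_def, ← map_inv, MulAut.conj_apply]
      rw [h2] at h1
      exact h1
    have htN : l⁻¹ * t * l ∈ D.N₁ := by
      have : D.N₁.Normal := inferInstance
      have := this.conj_mem t t.2 l⁻¹
      simpa using this
    set t' := l⁻¹ * t * l with ht''
    have hat : (a : G) * t' ∈ S := S.mul_mem (hS a.2) htl
    have h1 : ∃ k, orderOf ((a : G) * t') = p ^ k := by
      obtain ⟨n, hn⟩ := (IsPGroup.iff_orderOf.mp S.2) ⟨_, hat⟩
      exact ⟨n, by rw [← hn, Subgroup.orderOf_mk]⟩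
    have h2 := D.isConj_part (x := a) hq hgen a.2 ha1' htN h1
    obtain ⟨g, hg⟩ := isConj_iff.mp h2.symm
    have h3 : (a : G) * t' ∈ H := by
      refine D.h.ec g _ ?_ (hnorm _ hat)
      rw [← hg]
      exact conj_mem_pr g a.2
    have h4 : t' ∈ H := by
      have := H.mul_mem (H.inv_mem a.2) h3
      simpa using this
    have h5 := hd t' h4 htN
    have h6 : (t : G) = 1 := by
      have : (t : G) = l * t' * l⁻¹ := by rw [ht'']; group
      rw [this, h5]; group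
    rw [h6, orderOf_one] at ht'
    exact hpf.out.one_lt.ne ht'
  have hle : D.N₁ ≤ pPrimeCore p G :=
    Cfsg.Agent.Solv.le_pPrimeCore inferInstance ((Nat.Prime.coprime_iff_not_dvd hpf.out).mpr hN).symm
  rw [eq_top_iff, ← D.sup_eq_top hgen]
  exact sup_le (hle.trans le_sup_right) (Subgroup.le_normalizer.trans le_sup_left)

end Cfsg.Agent.H72.EC
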