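import Mathlib
import Cfsg.Agent.H72.ECFin2

/-!
Extremely closed abelian subgroups: the factorisation `G = N(H) O_{p'}(G)`.
-/

set_option autoImplicit false
set_option linter.unusedSectionVars false
set_option linter.unusedVariables false
set_option linter.style.haveILetI false

namespace Cfsg.Agent.H72.EC

open scoped ComplexConjugate
open Cfsg Cfsg.Agent.CharBase Cfsg.Agent.H4 Cfsg.Agent.Blk Cfsg.Agent.Solv

universe u

variable {G : Type u} [Group G] [Finite G] {p : ℕ} [hpf : Fact p.Prime] {H : Subgroup G}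

theorem orderOf_dvd_of_mem' {N : Subgroup G} {x : G} (hx : x ∈ N) : orderOf x ∣ Nat.card N := by
  have := orderOf_dvd_natCard (⟨x, hx⟩ : N)
  rwa [← Subgroup.orderOf_coe] at this

/-- `p'`-elements above `O_{p'}` of the quotient by a central `p`-subgroup. -/
theorem mem_core_of_central {N : Subgroup G} [N.Normal] (hNc : ∀ n ∈ N, ∀ g, n * g = g * n)
    (hNp : IsPGroup p N) {c : G} (hc : QuotientGroup.mk' N c ∈ pPrimeCore p (G ⧸ N))
    (hcr : ¬ p ∣ orderOf c) : c ∈ pPrimeCore p G := by
  set C : Subgroup G := (pPrimeCore p (G ⧸ N)).comap (QuotientGroup.mk' N) with hC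
  have hNC : N ≤ C := by
    intro x hx
    rw [hC, Subgroup.mem_comap]
    have : QuotientGroup.mk' N x = 1 := by simpa using hx
    rw [this]
    exact Subgroup.one_mem _
  obtain ⟨a, ha⟩ := IsPGroup.iff_card.mp hNp
  have hcardN : Nat.card (N.subgroupOf C) = Nat.card N := Nat.card_congr (Subgroup.subgroupOfEquivOfLe hNC).toEquiv
  have hcardC : Nat.card C = Nat.card (pPrimeCore p (G ⧸ N)) * Nat.card N := by
    have h1 : C.index = (pPrimeCore p (G ⧸ N)).index :=
      Subgroup.index_comap_of_surjective _ (QuotientGroup.mk'_surjective N)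
    have h2 := Subgroup.card_mul_index C
    have h3 := Subgroup.card_mul_index (pPrimeCore p (G ⧸ N))
    have h4 := Subgroup.card_eq_card_quotient_mul_card_subgroup N
    rw [h1, h4, ← h3] at h2
    have h5 : 0 < (pPrimeCore p (G ⧸ N)).index := Nat.pos_of_ne_zero Subgroup.index_ne_zero_of_finite
    refine Nat.eq_of_mul_eq_mul_right h5 ?_
    rw [h2]; ring
  have hidx : (N.subgroupOf C).index = Nat.card (pPrimeCore p (G ⧸ N)) := by
    have h1 := Subgroup.card_mul_index (N.subgroupOf C)
    rw [hcardN, hcardC, mul_comm] at h1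
    exact Nat.eq_of_mul_eq_mul_right Nat.card_pos h1
  have hcop : Nat.Coprime (Nat.card (N.subgroupOf C)) (N.subgroupOf C).index := by
    rw [hcardN, hidx, ha]
    exact (pPrimeCore_card_coprime p).symm.pow_left a
  obtain ⟨K, hK⟩ := Subgroup.exists_left_complement'_of_coprime hcop
  have hcardK : ¬ p ∣ Nat.card K := by
    have h1 : (N.subgroupOf C).index = Nat.card K := hK.index_eq_card
    rw [← h1, hidx]
    exact (Nat.Prime.coprime_iff_not_dvd hpf.out).mp (pPrimeCore_card_coprime p).symm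
  -- `p'`-elements of `C` lie in `K`
  have hmem : ∀ x : C, ¬ p ∣ orderOf x → x ∈ K := by
    intro x hx
    obtain ⟨⟨k, n⟩, hkn⟩ := hK.2 x
    have hkn' : (k : C) * (n : C) = x := hkn
    have hcomm : Commute (k : C) (n : C) := by
      apply Subtype.ext
      exact (hNc _ n.2 _).symm
    have h1 : ¬ p ∣ orderOf (k : C) := by
      intro h
      exact hcardK (h.trans (by rw [Subgroup.orderOf_coe]; exact orderOf_dvd_natCard k))
    have h2 : (n : C) ^ (orderOf x * orderOf (k : C)) = 1 := by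
      have h3 : x ^ (orderOf x * orderOf (k : C)) = 1 := by rw [pow_mul, pow_orderOf_eq_one, one_pow]
      rw [← hkn', hcomm.mul_pow, mul_comm (orderOf _), pow_mul, pow_orderOf_eq_one, one_pow, one_mul] at h3
      rw [← hkn', mul_comm]
      exact h3
    have hnN : ((n : C) : G) ∈ N := Subgroup.mem_subgroupOf.mp n.2
    obtain ⟨b, hb⟩ := (IsPGroup.iff_orderOf.mp hNp) ⟨((n : C) : G), hnN⟩
    rw [Subgroup.orderOf_mk, Subgroup.orderOf_coe] at hb
    have h3 : orderOf (n : C) ∣ orderOf x * orderOf (k : C) := orderOf_dvd_of_pow_eq_one h2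
    have h4 : Nat.Coprime (orderOf (n : C)) (orderOf x * orderOf (k : C)) := by
      rw [hb]
      apply Nat.Coprime.pow_left
      rw [Nat.Prime.coprime_iff_not_dvd hpf.out]
      intro h
      rcases (Nat.Prime.dvd_mul hpf.out).mp h with h | h
      · exact hx h
      · exact h1 h
    have h5 : orderOf (n : C) = 1 := Nat.eq_one_of_dvd_coprimes h4 dvd_rfl h3
    rw [orderOf_eq_one_iff] at h5
    rw [← hkn', h5, mul_one]
    exact k.2
  have hnorm : (K.map C.subtype).Normal := by
    constructor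
    rintro _ ⟨k, hk, rfl⟩ g
    have h1 : g * (k : G) * g⁻¹ ∈ C := by
      have : C.Normal := by rw [hC]; infer_instance
      exact this.conj_mem _ k.2 g
    refine ⟨⟨_, h1⟩, hmem _ ?_, rfl⟩
    rw [Subgroup.orderOf_mk]
    have h2 : orderOf (g * (k : G) * g⁻¹) = orderOf (k : G) := by
      have : g * (k : G) * g⁻¹ = MulAut.conj g (k : G) := rfl
      rw [this, MulEquiv.orderOf_eq]
    rw [h2, Subgroup.orderOf_coe]
    intro h
    exact hcardK (h.trans (orderOf_dvd_of_mem' hk))
  have hle : K.map C.subtype ≤ pPrimeCore p G := by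
    refine le_pPrimeCore hnorm ?_
    rw [Subgroup.card_map_of_injective C.subtype_injective]
    exact ((Nat.Prime.coprime_iff_not_dvd hpf.out).mpr hcardK).symm
  have hcC : c ∈ C := hc
  refine hle ⟨⟨c, hcC⟩, hmem _ ?_, rfl⟩
  rwa [Subgroup.orderOf_mk]

/-- If `G = N(H) O_{p'}(G)` then regular elements of their pair subgroups lie in `O_{p'}(G)`. -/
theorem mem_core_of_c2 (hHp : IsPGroup p H)
    (h : Subgroup.normalizer (H : Set G) ⊔ pPrimeCore p G = ⊤) {s : G} (hs : s ∈ pr H s)
    (hsp : ¬ p ∣ orderOf s) : s ∈ pPrimeCore p G := by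
  have h1 : pr H s ≤ pPrimeCore p G ⊔ H := by
    refine pr_le le_sup_right ?_
    intro y hy
    have h2 : s ∈ Subgroup.normalizer (H : Set G) ⊔ pPrimeCore p G := by rw [h]; trivial
    rw [sup_comm, ← SetLike.mem_coe, Subgroup.normal_mul] at h2
    obtain ⟨o, ho, m, hm, rfl⟩ := Set.mem_mul.mp h2
    have h3 : m * y * m⁻¹ ∈ H := (Subgroup.mem_normalizer_iff.mp hm y).mp hy
    have h4 : o * m * y * (o * m)⁻¹ = (o * ((m * y * m⁻¹) * o⁻¹ * (m * y * m⁻¹)⁻¹)) * (m * y * m⁻¹) := by
      group
    rw [h4]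
    refine Subgroup.mul_mem _ ((le_sup_left : pPrimeCore p G ≤ _) ?_) ((le_sup_right : H ≤ _) h3)
    refine Subgroup.mul_mem _ ho ?_
    have : (pPrimeCore p G).Normal := inferInstance
    exact this.conj_mem _ (Subgroup.inv_mem _ ho) _
  have h2 := h1 hs
  rw [← SetLike.mem_coe, Subgroup.normal_mul] at h2
  obtain ⟨o, ho, y, hy, hoy⟩ := Set.mem_mul.mp h2
  have h3 : QuotientGroup.mk' (pPrimeCore p G) s = QuotientGroup.mk' (pPrimeCore p G) y := by
    rw [← hoy, map_mul]
    have : QuotientGroup.mk' (pPrimeCore p G) o = 1 := by simpa using ho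
    rw [this, one_mul]
  obtain ⟨b, hb⟩ := (IsPGroup.iff_orderOf.mp hHp) ⟨y, hy⟩
  rw [Subgroup.orderOf_mk] at hb
  have h4 : orderOf (QuotientGroup.mk' (pPrimeCore p G) s) ∣ p ^ b := by
    rw [h3, ← hb]; exact orderOf_map_dvd _ y
  have h5 : orderOf (QuotientGroup.mk' (pPrimeCore p G) s) ∣ orderOf s := orderOf_map_dvd _ s
  have h6 : Nat.Coprime (orderOf s) (p ^ b) :=
    Nat.Coprime.pow_right _ ((Nat.Prime.coprime_iff_not_dvd hpf.out).mpr hsp).symm
  have h7 : orderOf (QuotientGroup.mk' (pPrimeCore p G) s) = 1 := Nat.eq_one_of_dvd_coprimes h6 h5 h4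
  rw [orderOf_eq_one_iff] at h7
  simpa using h7

theorem pr_subgroupOf {D : Subgroup G} (hD : H ≤ D) {s : G} (hs : s ∈ D) (h : s ∈ pr H s) :
    (⟨s, hs⟩ : D) ∈ pr (H.subgroupOf D) ⟨s, hs⟩ := by
  have h1 : pr H s ≤ (pr (H.subgroupOf D) ⟨s, hs⟩).map D.subtype := by
    refine pr_le ?_ ?_
    · intro y hy
      exact ⟨⟨y, hD hy⟩, le_pr _ _ hy, rfl⟩
    · intro y hy
      refine ⟨⟨s, hs⟩ * ⟨y, hD hy⟩ * ⟨s, hs⟩⁻¹, conj_mem_pr _ ?_, rfl⟩
      exact hy
  obtain ⟨y, hy, hys⟩ := h1 h
  have : y = ⟨s, hs⟩ := Subtype.ext hys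
  rw [← this] at hy ⊢
  exact hy

theorem map_normalizer_le {D : Subgroup G} (hD : H ≤ D) :
    (Subgroup.normalizer ((H.subgroupOf D : Subgroup D) : Set D)).map D.subtype ≤
      Subgroup.normalizer (H : Set G) := by
  rintro _ ⟨x, hx, rfl⟩
  have hx' := Subgroup.mem_normalizer_iff.mp hx
  rw [Subgroup.mem_normalizer_iff]
  intro y
  constructor
  · intro hy
    exact (hx' ⟨y, hD hy⟩).mp hy
  · intro hy
    have h1 : y ∈ D := by
      have h2 := D.mul_mem (D.mul_mem (D.inv_mem x.2) (hD hy)) x.2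
      have h3 : (x : G)⁻¹ * (D.subtype x * y * (D.subtype x : G)⁻¹) * x = y := by
        simp only [Subgroup.subtype_apply]; group
      rwa [h3] at h2
    exact (hx' ⟨y, h1⟩).mpr hy

end Cfsg.Agent.H72.EC

namespace Cfsg.Agent.H72.EC

open Cfsg Cfsg.Agent.CharBase Cfsg.Agent.H4 Cfsg.Agent.Blk Cfsg.Agent.Solv

universe u

/-- **C2**: `G = N(H) O_{p'}(G)`. -/
theorem c2_aux {p : ℕ} [hpf : Fact p.Prime] (hp : p ≠ 2) : ∀ (n : ℕ) (G : Type u) [Group G] [Finite G]
    (H : Subgroup G), Nat.card G = n → Hyp p H →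
      Subgroup.normalizer (H : Set G) ⊔ pPrimeCore p G = ⊤ := by
  intro n
  induction n using Nat.strong_induction_on with
  | _ n ih =>
  intro G _ _ H hn h
  subst hn
  by_cases hH : H = ⊥
  · rw [eq_top_iff]
    refine le_trans ?_ le_sup_left
    intro x _
    rw [hH, Subgroup.mem_normalizer_iff]
    intro y
    rw [Subgroup.mem_bot, Subgroup.mem_bot]
    constructor
    · rintro rfl; group
    · intro hy
      have : y = x⁻¹ * (x * y * x⁻¹) * x := by group
      rw [this, hy]; group
  by_cases hcen : ∃ u ∈ H, u ≠ 1 ∧ ∀ g : G, u * g = g * u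
  · obtain ⟨u, huH, hu1, hu⟩ := hcen
    set N := Subgroup.zpowers u with hN
    have hNc : ∀ n ∈ N, ∀ g, n * g = g * n := by
      intro n hn g
      obtain ⟨k, rfl⟩ := Subgroup.mem_zpowers_iff.mp hn
      exact (Commute.zpow_left (hu g) k).eq
    haveI : N.Normal := ⟨fun n hn g => by
      rw [← hNc n hn g, mul_inv_cancel_right]; exact hn⟩
    have hNH : N ≤ H := by rw [hN, Subgroup.zpowers_le]; exact huH
    have hcard : Nat.card (G ⧸ N) < Nat.card G := by
      rw [Subgroup.card_eq_card_quotient_mul_card_subgroup N]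
      have h1 : 1 < Nat.card N := by
        rw [Subgroup.one_lt_card_iff_ne_bot, hN, Ne, Subgroup.zpowers_eq_bot]; exact hu1
      have h2 : 0 < Nat.card (G ⧸ N) := Nat.card_pos
      nlinarith
    have h1 := ih _ hcard (G ⧸ N) (H.map (QuotientGroup.mk' N)) rfl (h.quotient hNH)
    rw [eq_top_iff]
    intro g _
    have h2 : QuotientGroup.mk' N g ∈ Subgroup.normalizer ((H.map (QuotientGroup.mk' N) : Subgroup (G ⧸ N)) : Set (G ⧸ N)) ⊔
      pPrimeCore p (G ⧸ N) := by rw [h1]; trivial
    rw [sup_comm, ← SetLike.mem_coe, Subgroup.normal_mul] at h2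
    obtain ⟨o, ho, m, hm, hom⟩ := Set.mem_mul.mp h2
    obtain ⟨o, rfl⟩ := QuotientGroup.mk'_surjective N o
    obtain ⟨m, rfl⟩ := QuotientGroup.mk'_surjective N m
    have hmem : ∀ x : G, QuotientGroup.mk' N x ∈ H.map (QuotientGroup.mk' N) ↔ x ∈ H := by
      intro x
      constructor
      · rintro ⟨y, hy, hyx⟩
        have h1 : y⁻¹ * x ∈ N := QuotientGroup.eq.mp hyx
        have := H.mul_mem hy (hNH h1)
        simpa using this
      · intro hx
        exact Subgroup.mem_map_of_mem _ hx
    have hm' : m ∈ Subgroup.normalizer (H : Set G) := by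
      have hm1 := Subgroup.mem_normalizer_iff.mp hm
      rw [Subgroup.mem_normalizer_iff]
      intro y
      have := hm1 (QuotientGroup.mk' N y)
      rw [hmem, ← map_mul, ← map_inv, ← map_mul, hmem] at this
      exact this
    -- decompose `o`
    obtain ⟨w, c, hwc, -, ⟨k, hk⟩, hc, hw, hcz⟩ := Cfsg.Agent.BlkInd.exists_decomp hpf.out o
    have hcore : ∀ y ∈ Subgroup.zpowers o, QuotientGroup.mk' N y ∈ pPrimeCore p (G ⧸ N) := by
      intro y hy
      obtain ⟨j, rfl⟩ := Subgroup.mem_zpowers_iff.mp hy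
      rw [map_zpow]
      exact Subgroup.zpow_mem _ ho j
    have hwN : w ∈ N := by
      have h3 : orderOf (QuotientGroup.mk' N w) ∣ p ^ k := by rw [← hk]; exact orderOf_map_dvd _ w
      have h4 : orderOf (QuotientGroup.mk' N w) ∣ Nat.card (pPrimeCore p (G ⧸ N)) :=
        orderOf_dvd_of_mem' (hcore w hw)
      have h5 := Nat.eq_one_of_dvd_coprimes ((pPrimeCore_card_coprime (G := G ⧸ N) p).pow_right k) h4 h3
      rw [orderOf_eq_one_iff] at h5
      simpa using h5
    have hcO : c ∈ pPrimeCore p G :=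
      mem_core_of_central hNc (h.hp.to_le hNH) (hcore c hcz) hc
    -- `g = o m n`
    have h6 : (o * m)⁻¹ * g ∈ N := by
      apply QuotientGroup.eq.mp
      rw [← QuotientGroup.mk'_apply, ← QuotientGroup.mk'_apply, map_mul]
      exact hom
    have h7 : g = o * m * ((o * m)⁻¹ * g) := by group
    rw [h7, ← hwc]
    have hHn : H ≤ Subgroup.normalizer (H : Set G) := Subgroup.le_normalizer
    refine Subgroup.mul_mem _ (Subgroup.mul_mem _ (Subgroup.mul_mem _ ?_ ?_) ?_) ?_
    · exact (le_sup_left : Subgroup.normalizer (H : Set G) ≤ _) (hHn (hNH hwN))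
    · exact (le_sup_right : pPrimeCore p G ≤ _) hcO
    · exact (le_sup_left : Subgroup.normalizer (H : Set G) ≤ _) hm'
    · rw [hwc]
      exact (le_sup_left : Subgroup.normalizer (H : Set G) ≤ _) (hHn (hNH h6))
  by_cases hX : Subgroup.normalClosure (H : Set G) = ⊤
  · -- the main case
    haveI := Fintype.ofFinite G
    haveI := Fintype.ofFinite H
    haveI := Fintype.ofFinite (IrrCharacter G)
    obtain ⟨M, hM⟩ := H4.exists_isPModular p
    have hC : ∀ u ∈ H, u ≠ 1 → ∀ s, Commute u s → ¬ p ∣ orderOf s → s ∈ pr H s →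
        s ∈ centralizerPPrimeCore p u := by
      intro u huH hu1 s hus hsp hspr
      set C := Subgroup.centralizer ({u} : Set G) with hCdef
      have hHC : H ≤ C := by
        intro y hy
        rw [hCdef, Subgroup.mem_centralizer_singleton_iff]
        exact (h.ab y hy u huH)
      have hsC : s ∈ C := by
        rw [hCdef, Subgroup.mem_centralizer_singleton_iff]
        exact hus.eq.symm
      have hClt : Nat.card C < Nat.card G := by
        have hne : C ≠ ⊤ := by
          intro htop
          apply hcen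
          refine ⟨u, huH, hu1, fun g => ?_⟩
          have : g ∈ C := by rw [htop]; trivial
          rw [hCdef, Subgroup.mem_centralizer_singleton_iff] at this
          exact this.symm
        exact lt_of_le_of_ne (Subgroup.card_le_card_group C) (fun he => hne (Subgroup.eq_top_of_card_eq C he))
      have h1 := ih _ hClt C (H.subgroupOf C) rfl (h.subgroupOf hHC)
      have h2 := mem_core_of_c2 (h.subgroupOf hHC).hp h1 (pr_subgroupOf hHC hsC hspr) (by
        rwa [Subgroup.orderOf_mk])
      exact ⟨⟨s, hsC⟩, h2, rfl⟩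
    obtain ⟨D⟩ := h.exists_dat hM fun χ hχ => h.keyChar hM hC hχ
    have hgen : ∀ N : Subgroup G, N.Normal → H ≤ N → N = ⊤ := by
      intro N hN hHN
      rw [eq_top_iff, ← hX]
      exact Subgroup.normalClosure_le_normal hHN
    have hq : 3 ≤ Fintype.card H := by
      rw [← Nat.card_eq_fintype_card]
      obtain ⟨k, hk⟩ := IsPGroup.iff_card.mp h.hp
      rw [hk]
      have hk0 : k ≠ 0 := by
        rintro rfl
        rw [pow_zero] at hk
        exact hH (Subgroup.card_eq_one.mp hk)
      have hp3 : 3 ≤ p := by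
        have := hpf.out.two_le
        omega
      exact hp3.trans (Nat.le_self_pow hk0 p)
    exact D.conclusion hq hgen
  · -- proper normal closure
    set X := Subgroup.normalClosure (H : Set G) with hXdef
    have hHX : H ≤ X := Subgroup.subset_normalClosure
    have hXlt : Nat.card X < Nat.card G := by
      exact lt_of_le_of_ne (Subgroup.card_le_card_group X) (fun he => hX (Subgroup.eq_top_of_card_eq X he))
    have h1 := ih _ hXlt X (H.subgroupOf X) rfl (h.subgroupOf hHX)
    haveI : X.Normal := Subgroup.normalClosure_normal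
    rw [eq_top_iff]
    intro g _
    obtain ⟨k, hk, hkg⟩ := h.exists_k g
    have hkX : k ∈ X := by
      have h2 : pr H g ≤ X := pr_le hHX fun y hy =>
        (inferInstance : X.Normal).conj_mem y (hHX hy) g
      exact h2 hk
    have h2 : (⟨k, hkX⟩ : X) ∈ Subgroup.normalizer ((H.subgroupOf X : Subgroup X) : Set X) ⊔ pPrimeCore p X := by
      rw [h1]; trivial
    have h3 : k ∈ (Subgroup.normalizer ((H.subgroupOf X : Subgroup X) : Set X) ⊔ pPrimeCore p X).map X.subtype :=
      ⟨⟨k, hkX⟩, h2, rfl⟩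
    rw [Subgroup.map_sup] at h3
    have h4 : k ∈ Subgroup.normalizer (H : Set G) ⊔ pPrimeCore p G :=
      (sup_le_sup (map_normalizer_le hHX) (map_subtype_pPrimeCore_le p X)) h3
    have h5 : g = k * (k⁻¹ * g) := by group
    rw [h5]
    exact Subgroup.mul_mem _ h4 ((le_sup_left : Subgroup.normalizer (H : Set G) ≤ _) hkg)

theorem c2 {p : ℕ} [hpf : Fact p.Prime] (hp : p ≠ 2) {G : Type u} [Group G] [Finite G]
    {H : Subgroup G} (h : Hyp p H) : Subgroup.normalizer (H : Set G) ⊔ pPrimeCore p G = ⊤ :=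
  c2_aux hp _ G H rfl h

end Cfsg.Agent.H72.EC
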