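import Mathlib
import Cfsg.Agent.H72.ECBeta
import Cfsg.Agent.H72.ECInd
import Cfsg.Agent.S0867

/-!
Extremely closed abelian subgroups: invariant characters of the normal complement.
-/

set_option autoImplicit false
set_option linter.unusedSectionVars false
set_option linter.unusedVariables false
set_option linter.style.haveILetI false

namespace Cfsg.Agent.H72.EC

open scoped ComplexConjugate
open Cfsg Cfsg.Agent.CharBase Cfsg.Agent.H4 Cfsg.Agent.Blk Cfsg.Agent.Solv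

universe u

section Basic

variable {G : Type u} [Group G] [Finite G] {p : ℕ} [hpf : Fact p.Prime] {H Y : Subgroup G}

theorem exists_mul_of_sup (hY : Y.Normal) (hYH : Y ⊔ H = ⊤) (x : G) : ∃ y ∈ Y, ∃ h ∈ H, x = y * h := by
  have h1 : x ∈ ((Y ⊔ H : Subgroup G) : Set G) := by rw [hYH]; trivial
  rw [Subgroup.normal_mul] at h1
  obtain ⟨y, hy, h, hh, e⟩ := Set.mem_mul.mp h1
  exact ⟨y, hy, h, hh, e.symm⟩

theorem isPGroup_quot (hHp : IsPGroup p H) (hY : Y.Normal) (hYH : Y ⊔ H = ⊤) : IsPGroup p (G ⧸ Y) := by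
  intro x
  obtain ⟨x, rfl⟩ := QuotientGroup.mk'_surjective Y x
  obtain ⟨y, hy, h, hh, rfl⟩ := exists_mul_of_sup hY hYH x
  obtain ⟨k, hk⟩ := hHp ⟨h, hh⟩
  refine ⟨k, ?_⟩
  have h1 : QuotientGroup.mk' Y y = 1 := by simpa using hy
  have hk' : h ^ p ^ k = 1 := congrArg Subtype.val hk
  rw [map_mul, h1, one_mul, ← map_pow, hk', map_one]

theorem mem_Y_of_reg (hHp : IsPGroup p H) (hY : Y.Normal) (hYH : Y ⊔ H = ⊤) {s : G} (hs : ¬ p ∣ orderOf s) :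
    s ∈ Y := by
  obtain ⟨k, hk⟩ := (IsPGroup.iff_orderOf.mp (isPGroup_quot hHp hY hYH)) (QuotientGroup.mk' Y s)
  have h5 : orderOf (QuotientGroup.mk' Y s) ∣ orderOf s := orderOf_map_dvd _ s
  have h6 : Nat.Coprime (orderOf s) (p ^ k) :=
    Nat.Coprime.pow_right _ ((Nat.Prime.coprime_iff_not_dvd hpf.out).mpr hs).symm
  have h7 : orderOf (QuotientGroup.mk' Y s) = 1 := Nat.eq_one_of_dvd_coprimes h6 h5 (dvd_of_eq hk)
  rw [orderOf_eq_one_iff] at h7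
  simpa using h7

theorem eq_one_of_mem_both (hHp : IsPGroup p H) (hpY : ¬ p ∣ Nat.card Y) {x : G} (h1 : x ∈ H) (h2 : x ∈ Y) :
    x = 1 := by
  obtain ⟨k, hk⟩ := (IsPGroup.iff_orderOf.mp hHp) ⟨x, h1⟩
  rw [Subgroup.orderOf_mk] at hk
  have h3 := orderOf_dvd_of_mem' h2
  have h4 : Nat.Coprime (Nat.card Y) (p ^ k) :=
    Nat.Coprime.pow_right _ ((Nat.Prime.coprime_iff_not_dvd hpf.out).mpr hpY).symm
  have h5 := Nat.eq_one_of_dvd_coprimes h4 h3 (dvd_of_eq hk)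
  rwa [orderOf_eq_one_iff] at h5

/-- Elements normalising `H` centralise `H`. -/
theorem normalizer_centralizes (h : Hyp p H) (hY : Y.Normal) (hpY : ¬ p ∣ Nat.card Y) (hYH : Y ⊔ H = ⊤)
    {m b : G} (hm : m ∈ Subgroup.normalizer (H : Set G)) (hb : b ∈ H) : m * b * m⁻¹ = b := by
  obtain ⟨y, hy, x, hx, rfl⟩ := exists_mul_of_sup hY hYH m
  have hyN : y ∈ Subgroup.normalizer (H : Set G) := by
    have := Subgroup.mul_mem _ hm (Subgroup.inv_mem _ (Subgroup.le_normalizer hx))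
    simpa using this
  have h1 : x * b * x⁻¹ = b := by rw [h.ab x hx b hb]; group
  have h2 : y * b * y⁻¹ * b⁻¹ = 1 := by
    refine eq_one_of_mem_both h.hp hpY ?_ ?_
    · exact H.mul_mem ((Subgroup.mem_normalizer_iff.mp hyN b).mp hb) (H.inv_mem hb)
    · have : y * b * y⁻¹ * b⁻¹ = y * (b * y⁻¹ * b⁻¹) := by group
      rw [this]
      exact Y.mul_mem hy (hY.conj_mem _ (Y.inv_mem hy) b)
  have h3 : y * b * y⁻¹ = b := mul_inv_eq_one.mp h2
  calc y * x * b * (y * x)⁻¹ = y * (x * b * x⁻¹) * y⁻¹ := by group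
    _ = b := by rw [h1, h3]

/-- The kernel argument. -/
theorem ker_of_pr (hHp : IsPGroup p H) (hY : Y.Normal) (hpY : ¬ p ∣ Nat.card Y) (hYH : Y ⊔ H = ⊤) {θ : Y → ℂ}
    (hθ : IsIrrCharacter Y θ)
    (hinv : ∀ h ∈ H, ∀ y y' : Y, (y' : G) = h * y * h⁻¹ → θ y' = θ y)
    (hcomm : ∀ (y : Y) (h : G), h ∈ H → ∀ c : Y, (c : G) = y * h * (y : G)⁻¹ * h⁻¹ → θ c = θ 1)
    {s : Y} (hs : (s : G) ∈ pr H s) : θ s = θ 1 := by
  set χ : IrrCharacter Y := ⟨θ, hθ⟩ with hχ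
  set K : Subgroup G := (charKer χ).map Y.subtype with hK
  have hmemK : ∀ y : Y, (y : G) ∈ K ↔ θ y = θ 1 := by
    intro y
    constructor
    · rintro ⟨z, hz, hzy⟩
      have : z = y := Subtype.ext hzy
      rw [← this]
      exact hz
    · intro h
      exact ⟨y, h, rfl⟩
  have hKY : K ≤ Y := by
    rintro _ ⟨z, -, rfl⟩
    exact z.2
  haveI hKn : K.Normal := by
    constructor
    intro n hn g
    obtain ⟨y, hy, x, hx, rfl⟩ := exists_mul_of_sup hY hYH g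
    have hnY := hKY hn
    have h1 : x * n * x⁻¹ ∈ Y := hY.conj_mem n hnY x
    have h2 : (y * x * n * (y * x)⁻¹) = y * (x * n * x⁻¹) * y⁻¹ := by group
    have h3 : y * (x * n * x⁻¹) * y⁻¹ ∈ Y := hY.conj_mem _ h1 y
    rw [h2]
    have h4 := (hmemK ⟨_, h3⟩).mpr ?_
    · exact h4
    · have h5 : θ ⟨y * (x * n * x⁻¹) * y⁻¹, h3⟩ = θ ⟨x * n * x⁻¹, h1⟩ :=
        irr_isClassFunction χ ⟨x * n * x⁻¹, h1⟩ ⟨y, hy⟩
      have h6 : θ ⟨x * n * x⁻¹, h1⟩ = θ ⟨n, hnY⟩ := hinv x hx _ _ rfl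
      rw [h5, h6]
      exact (hmemK ⟨n, hnY⟩).mp hn
  have hpr : pr H s ≤ K ⊔ H := by
    refine pr_le le_sup_right ?_
    intro b hb
    have h1 : (s : G) * b * (s : G)⁻¹ * b⁻¹ ∈ Y := by
      have : (s : G) * b * (s : G)⁻¹ * b⁻¹ = s * (b * (s : G)⁻¹ * b⁻¹) := by group
      rw [this]
      exact Y.mul_mem s.2 (hY.conj_mem _ (Y.inv_mem s.2) b)
    have h2 := (hmemK ⟨_, h1⟩).mpr (hcomm s b hb ⟨_, h1⟩ rfl)
    have h3 : (s : G) * b * (s : G)⁻¹ = ((s : G) * b * (s : G)⁻¹ * b⁻¹) * b := by group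
    rw [h3]
    exact Subgroup.mul_mem _ ((le_sup_left : K ≤ _) h2) ((le_sup_right : H ≤ _) hb)
  have h1 : (s : G) ∈ ((K ⊔ H : Subgroup G) : Set G) := hpr hs
  rw [Subgroup.normal_mul] at h1
  obtain ⟨k, hk, x, hx, e⟩ := Set.mem_mul.mp h1
  have h2 : x ∈ Y := by
    have : x = k⁻¹ * s := by rw [← e]; group
    rw [this]
    exact Y.mul_mem (Y.inv_mem (hKY hk)) s.2
  have h3 := eq_one_of_mem_both hHp hpY hx h2
  rw [h3, mul_one] at e
  rw [← hmemK, ← e]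
  exact hk

end Basic

section Scalar

variable {G : Type u} [Group G]

theorem comm_mem_charKer' [Finite G] (χ : IrrCharacter G) {x : G}
    (hx : ‖(χ : G → ℂ) x‖ = ‖(χ : G → ℂ) 1‖) (g : G) : x * g * x⁻¹ * g⁻¹ ∈ charKer χ := by
  obtain ⟨χ, n, ρ, hρ, rfl⟩ := χ
  change ρ.character _ = ρ.character _
  change ‖ρ.character x‖ = ‖ρ.character 1‖ at hx
  rw [char_eq_one_iff]
  have h1 : ‖ρ.character x‖ = (Module.finrank ℂ (Fin n → ℂ) : ℝ) := by
    rw [hx, Representation.char_one]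
    simp
  obtain ⟨ω, hω⟩ := (Cfsg.Agent.Char.rep_norm_character_eq_iff ρ x).mp h1
  have hω' : ρ x = ω • (1 : (Fin n → ℂ) →ₗ[ℂ] (Fin n → ℂ)) := hω
  have h4 : ρ x * ρ g * ρ x⁻¹ * ρ g⁻¹ = ρ x * ρ x⁻¹ * (ρ g * ρ g⁻¹) := by
    rw [hω']
    simp only [smul_mul_assoc, one_mul]
    congr 1
    have h5 : ρ x⁻¹ * ρ x = 1 := by rw [← map_mul, inv_mul_cancel, map_one]
    by_cases h0 : ω = 0
    · rw [hω', h0, zero_smul, mul_zero] at h5
      have h6 : ∀ f : (Fin n → ℂ) →ₗ[ℂ] (Fin n → ℂ), f = 0 := fun f => by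
        rw [← mul_one f, ← h5, mul_zero]
      rw [h6 (_ * _), h6 (ρ x⁻¹ * _)]
    · rw [hω', mul_smul_comm, mul_one] at h5
      have h7 : ρ x⁻¹ = ω⁻¹ • (1 : (Fin n → ℂ) →ₗ[ℂ] (Fin n → ℂ)) := by
        rw [← h5, smul_smul, inv_mul_cancel₀ h0, one_smul]
      rw [h7]
      simp only [smul_mul_assoc, mul_smul_comm, one_mul, mul_one]
  rw [map_mul, map_mul, map_mul, h4, ← map_mul, ← map_mul, mul_inv_cancel, mul_inv_cancel, map_one, one_mul]

end Scalar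

end Cfsg.Agent.H72.EC
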