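import Mathlib
import Cfsg.Agent.H72.ECKer

/-!
Extremely closed abelian subgroups: `[Y, H]` lies in the kernel of the invariant characters of `Y`.
-/

set_option autoImplicit false
set_option linter.unusedSectionVars false
set_option linter.unusedVariables false
set_option linter.style.haveILetI false

namespace Cfsg.Agent.H72.EC

open scoped ComplexConjugate
open Cfsg Cfsg.Agent.CharBase Cfsg.Agent.H4 Cfsg.Agent.Blk Cfsg.Agent.Solv

universe u

section Mult

variable {G : Type u} [Group G] [Fintype G] {p : ℕ} [hpf : Fact p.Prime] {H Y : Subgroup G}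

/-- The product formula. -/
theorem prod_formula (h : Hyp p H) (hY : Y.Normal) (hpY : ¬ p ∣ Nat.card Y) (hYH : Y ⊔ H = ⊤)
    (χ : IrrCharacter G)
    (hkey : ∀ u ∈ H, u ∉ Subgroup.center G → ∀ s, Commute u s → ¬ p ∣ orderOf s → s ∈ pr H s →
      (χ : G → ℂ) (u * s) = (χ : G → ℂ) u) {a b : G} (ha : a ∈ H) (hb : b ∈ H)
    (hab : a * b ∉ Subgroup.center G) :
    (χ : G → ℂ) a * (χ : G → ℂ) b = (χ : G → ℂ) 1 * (χ : G → ℂ) (a * b) := by
  have h1 : ∀ g : G, (χ : G → ℂ) (a * (g * b * g⁻¹)) = (χ : G → ℂ) (a * b) := by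
    intro g
    obtain ⟨k, hk, -, m, hm, rfl⟩ := h.exists_k' g
    have h2 : k * m * b * (k * m)⁻¹ = k * b * k⁻¹ := by
      have := normalizer_centralizes h hY hpY hYH hm hb
      calc k * m * b * (k * m)⁻¹ = k * (m * b * m⁻¹) * k⁻¹ := by group
        _ = _ := by rw [this]
    rw [h2]
    obtain ⟨l, s, e1, e2, e3, e4⟩ := h.key hk ha hb
    have h5 : (χ : G → ℂ) (a * (k * b * k⁻¹)) = (χ : G → ℂ) (l⁻¹ * (a * (k * b * k⁻¹)) * l) := by
      have := irr_isClassFunction χ (a * (k * b * k⁻¹)) l⁻¹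
      rw [inv_inv] at this
      exact this.symm
    rw [h5, e1]
    exact hkey _ (H.mul_mem ha hb) hab s e2 e3 e4
  have h2 := sum_conj_mul χ.2 a b
  rw [Finset.sum_congr rfl (fun g _ => h1 g), Finset.sum_const, Finset.card_univ, nsmul_eq_mul,
    ← Nat.card_eq_fintype_card] at h2
  have hG : (Nat.card G : ℂ) ≠ 0 := by exact_mod_cast Nat.card_pos.ne'
  have hd : (χ : G → ℂ) 1 ≠ 0 := irr_one_ne_zero χ.2
  rw [eq_div_iff hd] at h2
  have h3 : (Nat.card G : ℂ) * ((χ : G → ℂ) (a * b) * (χ : G → ℂ) 1) =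
      (Nat.card G : ℂ) * ((χ : G → ℂ) a * (χ : G → ℂ) b) := by linear_combination h2
  have h4 := mul_left_cancel₀ hG h3
  linear_combination -h4

theorem center_of_sq (hp : p ≠ 2) (h : Hyp p H) {a : G} (ha : a ∈ H) (h2 : a * a ∈ Subgroup.center G) :
    a ∈ Subgroup.center G := by
  obtain ⟨k, hk⟩ := (IsPGroup.iff_orderOf.mp h.hp) ⟨a, ha⟩
  rw [Subgroup.orderOf_mk] at hk
  have hodd : Odd (orderOf a) := by
    rw [hk]
    exact (hpf.out.odd_of_ne_two hp).pow
  obtain ⟨m, hm⟩ := hodd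
  have h3 : a = (a * a) ^ (m + 1) := by
    rw [← pow_two, ← pow_mul]
    have : 2 * (m + 1) = orderOf a + 1 := by omega
    rw [this, pow_succ, pow_orderOf_eq_one, one_mul]
  rw [h3]
  exact Subgroup.pow_mem _ h2 _

theorem norm_eq (hp : p ≠ 2) (h : Hyp p H) (hY : Y.Normal) (hpY : ¬ p ∣ Nat.card Y) (hYH : Y ⊔ H = ⊤)
    (χ : IrrCharacter G)
    (hkey : ∀ u ∈ H, u ∉ Subgroup.center G → ∀ s, Commute u s → ¬ p ∣ orderOf s → s ∈ pr H s →
      (χ : G → ℂ) (u * s) = (χ : G → ℂ) u) {a : G} (ha : a ∈ H) (haz : a ∉ Subgroup.center G)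
    (ha0 : (χ : G → ℂ) a ≠ 0) : ‖(χ : G → ℂ) a‖ = ‖(χ : G → ℂ) 1‖ := by
  have h1 : a * a ∉ Subgroup.center G := fun h2 => haz (center_of_sq hp h ha h2)
  have h2 := prod_formula h hY hpY hYH χ hkey ha ha h1
  have h3 : a * a * a⁻¹ = a := by group
  have h4 := prod_formula h hY hpY hYH χ hkey (H.mul_mem ha ha) (H.inv_mem ha) (by rw [h3]; exact haz)
  rw [h3, irr_inv] at h4
  have h5 : (χ : G → ℂ) a * ((χ : G → ℂ) a * conj ((χ : G → ℂ) a)) =
      (χ : G → ℂ) a * ((χ : G → ℂ) 1 * (χ : G → ℂ) 1) := by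
    linear_combination conj ((χ : G → ℂ) a) * h2 + (χ : G → ℂ) 1 * h4
  have h6 := mul_left_cancel₀ ha0 h5
  have h7 := congrArg norm h6
  rw [norm_mul, norm_mul, RCLike.norm_conj] at h7
  nlinarith [norm_nonneg ((χ : G → ℂ) a), norm_nonneg ((χ : G → ℂ) 1),
    abs_eq_abs.mpr (Or.inl (rfl : ‖(χ : G → ℂ) a‖ = ‖(χ : G → ℂ) a‖)),
    mul_self_inj_of_nonneg (norm_nonneg ((χ : G → ℂ) a)) (norm_nonneg ((χ : G → ℂ) 1))]

end Mult

theorem inv_aux {p : ℕ} [hpf : Fact p.Prime] (hp : p ≠ 2) : ∀ (n : ℕ) (G : Type u) [Group G] [Finite G]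
    (H Y : Subgroup G), Nat.card G = n → Hyp p H → Y.Normal → ¬ p ∣ Nat.card Y → Y ⊔ H = ⊤ →
    ∀ θ : Y → ℂ, IsIrrCharacter Y θ → (∀ h ∈ H, ∀ y y' : Y, (y' : G) = h * y * h⁻¹ → θ y' = θ y) →
    ∀ (y : Y) (h : G), h ∈ H → ∀ c : Y, (c : G) = y * h * (y : G)⁻¹ * h⁻¹ → θ c = θ 1 := by
  intro n
  induction n using Nat.strong_induction_on with
  | _ n ih =>
  intro G _ _ H Y hn h hY hpY hYH θ hθ hinv y a ha c hc
  subst hn
  haveI := Fintype.ofFinite G
  haveI := Fintype.ofFinite Y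
  haveI := hY
  by_cases haz : a ∈ Subgroup.center G
  · have h1 : (c : G) = 1 := by
      have h2 := Subgroup.mem_center_iff.mp haz (y : G)
      rw [hc, h2]; group
    have h2 : c = 1 := Subtype.ext h1
    rw [h2]
  -- invariance under the whole group
  have hinvG : ∀ (g : G) (n : Y), θ ⟨g * n * g⁻¹, hY.conj_mem (n : G) n.2 g⟩ = θ n := by
    intro g n
    obtain ⟨z, hz, x, hx, rfl⟩ := exists_mul_of_sup hY hYH g
    have h1 : x * n * x⁻¹ ∈ Y := hY.conj_mem n n.2 x
    have h3 : θ ⟨z * x * n * (z * x)⁻¹, hY.conj_mem (n : G) n.2 (z * x)⟩ = θ ⟨x * n * x⁻¹, h1⟩ := by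
      have := isClassFunction_of_isCharacter (isCharacter_of_isIrr hθ) ⟨x * n * x⁻¹, h1⟩ ⟨z, hz⟩
      rw [← this]
      congr 1
      apply Subtype.ext
      change z * x * n * (z * x)⁻¹ = z * (x * n * x⁻¹) * z⁻¹
      group
    rw [h3]
    exact hinv x hx n ⟨_, h1⟩ rfl
  -- indices
  obtain ⟨b, hb⟩ := IsPGroup.iff_card.mp (isPGroup_quot h.hp hY hYH)
  have hidx : Y.index = p ^ b := by rw [Subgroup.index_eq_card, hb]
  have hcopp : Nat.Coprime (Nat.card Y) p := ((Nat.Prime.coprime_iff_not_dvd hpf.out).mpr hpY).symm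
  have hcop : Nat.Coprime (Nat.card Y) Y.index := by rw [hidx]; exact hcopp.pow_right b
  obtain ⟨d, hd⟩ := exists_nat_degree (isCharacter_of_isIrr hθ)
  have hdetdvd : detOrder θ ∣ Nat.card Y := H79.detOrder_dvd_card (⟨θ, hθ⟩ : IrrCharacter Y)
  have hcop2 : Nat.Coprime Y.index (detOrder θ * d) := by
    apply Nat.Coprime.mul_right
    · exact (hcop.coprime_dvd_left hdetdvd).symm
    · exact (hcop.coprime_dvd_left (degree_dvd_card hθ hd)).symm
  obtain ⟨χ0, ⟨hχ0, hres, hdet⟩, -⟩ := Cfsg.Agent.S0867.result Y θ hθ hinvG d hd hcop2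
  set χ : IrrCharacter G := ⟨χ0, hχ0⟩ with hχ
  have hresχ : ∀ y : Y, (χ : G → ℂ) y = θ y := hres
  have hirr : IsIrrCharacter Y (fun y : Y => (χ : G → ℂ) y) := by
    have : (fun y : Y => (χ : G → ℂ) y) = θ := funext hresχ
    rw [this]; exact hθ
  have hdetc : (detOrder (χ : G → ℂ)).Coprime Y.index := by
    have : detOrder (χ : G → ℂ) = detOrder θ := hdet
    rw [this]
    exact hcop.coprime_dvd_left hdetdvd
  -- values at elements of `H`
  have hbeta : ∀ u ∈ H, u ≠ 1 → ∃ C : Subgroup G,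
      C = Y ⊓ Subgroup.centralizer ((Subgroup.zpowers u : Subgroup G) : Set G) ∧
      ∃ (β : IrrCharacter C) (ε : ℂ), ε ≠ 0 ∧ ∀ c : C, (χ : G → ℂ) ((c : G) * u) = ε * (β : C → ℂ) c := by
    intro u hu hu1
    haveI := Fintype.ofFinite (Y ⊓ Subgroup.centralizer ((Subgroup.zpowers u : Subgroup G) : Set G) : Subgroup G)
    haveI := Fintype.ofFinite (Subgroup.zpowers u)
    obtain ⟨e, he⟩ := (IsPGroup.iff_orderOf.mp h.hp) ⟨u, hu⟩
    rw [Subgroup.orderOf_mk] at he
    have hcard : Nat.card (Subgroup.zpowers u) = p ^ e := by rw [Nat.card_zpowers, he]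
    have he0 : e ≠ 0 := by
      rintro rfl
      rw [pow_zero, orderOf_eq_one_iff] at he
      exact hu1 he
    refine ⟨_, rfl, ?_⟩
    obtain ⟨β, ε, hε, hβ⟩ := exists_beta' (G := Y) (S := Subgroup.zpowers u)
      (C := Y ⊓ Subgroup.centralizer ((Subgroup.zpowers u : Subgroup G) : Set G)) hcop
      (by rw [hcard]; exact hcopp.pow_right e)
      (by
        intro k hk
        rw [hcard] at hk
        rw [hidx]
        exact (Nat.Coprime.coprime_dvd_right (dvd_pow_self p he0) hk).pow_right b)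
      rfl inf_le_left ⟨u, Subgroup.mem_zpowers u⟩ rfl χ hirr hdetc
    refine ⟨β, ε, ?_, hβ⟩
    rcases hε with rfl | rfl <;> norm_num
  -- the key property
  have hkey : ∀ u ∈ H, u ∉ Subgroup.center G → ∀ s, Commute u s → ¬ p ∣ orderOf s → s ∈ pr H s →
      (χ : G → ℂ) (u * s) = (χ : G → ℂ) u := by
    intro u hu huz s hus hsp hspr
    have hu1 : u ≠ 1 := fun e => huz (by rw [e]; exact Subgroup.one_mem _)
    obtain ⟨C, hC, β, ε, hε, hβ⟩ := hbeta u hu hu1
    set D : Subgroup G := Subgroup.centralizer ({u} : Set G) with hD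
    have hHD : H ≤ D := by
      intro x hx
      rw [hD, Subgroup.mem_centralizer_singleton_iff]
      exact h.ab x hx u hu
    have hDlt : Nat.card D < Nat.card G := by
      refine lt_of_le_of_ne (Subgroup.card_le_card_group D) (fun he => huz ?_)
      have htop := Subgroup.eq_top_of_card_eq D he
      rw [Subgroup.mem_center_iff]
      intro g
      have : g ∈ D := by rw [htop]; trivial
      rw [hD, Subgroup.mem_centralizer_singleton_iff] at this
      exact this
    have hmemC : ∀ x : G, x ∈ C ↔ x ∈ Y ∧ x ∈ D := by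
      intro x
      rw [hC, hD, Subgroup.mem_inf]
      refine and_congr_right fun _ => ?_
      rw [Subgroup.mem_centralizer_singleton_iff, Subgroup.mem_centralizer_iff]
      constructor
      · intro h1
        exact (h1 u (Subgroup.mem_zpowers u)).symm
      · intro h1 z hz
        obtain ⟨j, rfl⟩ := Subgroup.mem_zpowers_iff.mp hz
        exact (Commute.zpow_left (show Commute u x from h1.symm) j).eq
    let f : Y.subgroupOf D →* C :=
      { toFun := fun x => ⟨((x : D) : G), (hmemC _).mpr ⟨Subgroup.mem_subgroupOf.mp x.2, (x : D).2⟩⟩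
        map_one' := rfl
        map_mul' := fun _ _ => rfl }
    have hf : Function.Surjective f := by
      intro x
      have h1 := (hmemC x).mp x.2
      exact ⟨⟨⟨x, h1.2⟩, h1.1⟩, rfl⟩
    have hsY : s ∈ Y := mem_Y_of_reg h.hp hY hYH hsp
    have hsD : s ∈ D := by
      rw [hD, Subgroup.mem_centralizer_singleton_iff]
      exact hus.eq.symm
    have hYD : (Y.subgroupOf D).Normal := inferInstance
    have hsupD : Y.subgroupOf D ⊔ H.subgroupOf D = ⊤ := by
      rw [eq_top_iff]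
      intro x _
      obtain ⟨z, hz, w, hw, e⟩ := exists_mul_of_sup hY hYH (x : G)
      have hzD : z ∈ D := by
        have : z = (x : G) * w⁻¹ := by rw [e]; group
        rw [this]
        exact D.mul_mem x.2 (D.inv_mem (hHD hw))
      have : x = ⟨z, hzD⟩ * ⟨w, hHD hw⟩ := Subtype.ext e
      rw [this]
      exact Subgroup.mul_mem _ ((le_sup_left : Y.subgroupOf D ≤ _) (show (⟨z, hzD⟩ : D) ∈ Y.subgroupOf D from hz))
        ((le_sup_right : H.subgroupOf D ≤ _) (show (⟨w, hHD hw⟩ : D) ∈ H.subgroupOf D from hw))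
    have hpYD : ¬ p ∣ Nat.card (Y.subgroupOf D) := by
      intro hd'
      apply hpY
      refine hd'.trans ?_
      have h1 : Nat.card (Y.subgroupOf D) = Nat.card ((Y.subgroupOf D).map D.subtype) :=
        (Subgroup.card_map_of_injective D.subtype_injective).symm
      rw [h1]
      refine Subgroup.card_dvd_of_le ?_
      rintro _ ⟨x, hx, rfl⟩
      exact hx
    have hθD : IsIrrCharacter (Y.subgroupOf D) ((β : C → ℂ) ∘ f) := isIrrCharacter_comp_surjective β.2 f hf
    have hinvD : ∀ h ∈ H.subgroupOf D, ∀ y y' : Y.subgroupOf D, (y' : D) = h * y * h⁻¹ →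
        ((β : C → ℂ) ∘ f) y' = ((β : C → ℂ) ∘ f) y := by
      intro w hw y y' hyy
      have h1 := hβ (f y)
      have h2 := hβ (f y')
      have h3 : (χ : G → ℂ) ((f y' : G) * u) = (χ : G → ℂ) ((f y : G) * u) := by
        have h4 := irr_isClassFunction χ ((f y : G) * u) (w : G)
        have h5 : (f y' : G) = (w : G) * (f y : G) * (w : G)⁻¹ := congrArg Subtype.val hyy
        have h6 := h.ab w hw u hu
        have h7 : (w : G) * (f y : G) * (w : G)⁻¹ * u = w * ((f y : G) * u) * (w : G)⁻¹ := by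
          calc (w : G) * (f y : G) * (w : G)⁻¹ * u = w * (f y : G) * ((w : G)⁻¹ * (u * w)) * (w : G)⁻¹ := by group
            _ = w * (f y : G) * ((w : G)⁻¹ * (w * u)) * (w : G)⁻¹ := by rw [h6]
            _ = _ := by group
        rw [← h4, h5, h7]
      rw [h2, h1] at h3
      exact mul_left_cancel₀ hε h3
    have hcommD := ih _ hDlt D (H.subgroupOf D) (Y.subgroupOf D) rfl (h.subgroupOf hHD) hYD hpYD hsupD
      _ hθD hinvD
    have hfin := ker_of_pr (h.subgroupOf hHD).hp hYD hpYD hsupD hθD hinvD hcommD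
      (s := ⟨⟨s, hsD⟩, hsY⟩) (pr_subgroupOf hHD hsD hspr)
    have h1 := hβ (f ⟨⟨s, hsD⟩, hsY⟩)
    have h2 := hβ (f 1)
    have h3 : (β : C → ℂ) (f ⟨⟨s, hsD⟩, hsY⟩) = (β : C → ℂ) (f 1) := hfin
    rw [h3, ← h2, map_one, Subgroup.coe_one, one_mul] at h1
    rw [hus.eq]
    exact h1
  -- conclusion
  have ha1 : a ≠ 1 := fun e => haz (by rw [e]; exact Subgroup.one_mem _)
  have ha0 : (χ : G → ℂ) a ≠ 0 := by
    obtain ⟨C, -, β, ε, hε, hβ⟩ := hbeta a ha ha1
    have h1 := hβ 1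
    rw [Subgroup.coe_one, one_mul] at h1
    rw [h1]
    exact mul_ne_zero hε (irr_one_ne_zero β.2)
  have hnorm := norm_eq hp h hY hpY hYH χ hkey ha haz ha0
  have h1 := comm_mem_charKer' χ hnorm (y : G)
  have h2 : (c : G) ∈ charKer χ := by
    have : (c : G) = (a * y * a⁻¹ * (y : G)⁻¹)⁻¹ := by rw [hc]; group
    rw [this]
    exact Subgroup.inv_mem _ h1
  rw [mem_charKer, hresχ c] at h2
  rw [h2]
  exact hresχ 1

end Cfsg.Agent.H72.EC
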