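import Mathlib
import Cfsg.Agent.H72.ECInv

/-!
Extremely closed abelian subgroups: the normal closure meets the normaliser in `H`.
-/

set_option autoImplicit false
set_option linter.unusedSectionVars false
set_option linter.unusedVariables false
set_option linter.style.haveILetI false

namespace Cfsg.Agent.H72.EC

open scoped ComplexConjugate
open Cfsg Cfsg.Agent.CharBase Cfsg.Agent.H4 Cfsg.Agent.Blk Cfsg.Agent.Solv

universe u

section Basic

variable {G : Type u} [Group G] [Finite G] {p : ℕ} [hpf : Fact p.Prime] {H Y : Subgroup G}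

/-- If `G` is the normal closure of `H` then an invariant character of `Y` with `[Y, H]` in its kernel is
trivial. -/
theorem trivial_of_gen (hHp : IsPGroup p H) (hY : Y.Normal) (hpY : ¬ p ∣ Nat.card Y) (hYH : Y ⊔ H = ⊤)
    (hgen : ∀ N : Subgroup G, N.Normal → H ≤ N → N = ⊤) (χ : IrrCharacter Y)
    (hinv : ∀ h ∈ H, ∀ y y' : Y, (y' : G) = h * y * h⁻¹ → (χ : Y → ℂ) y' = (χ : Y → ℂ) y)
    (hcomm : ∀ (y : Y) (h : G), h ∈ H → ∀ c : Y, (c : G) = y * h * (y : G)⁻¹ * h⁻¹ →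
      (χ : Y → ℂ) c = (χ : Y → ℂ) 1) : ∀ y : Y, (χ : Y → ℂ) y = (χ : Y → ℂ) 1 := by
  set K : Subgroup G := (charKer χ).map Y.subtype with hK
  have hmemK : ∀ y : Y, (y : G) ∈ K ↔ (χ : Y → ℂ) y = (χ : Y → ℂ) 1 := by
    intro y
    constructor
    · rintro ⟨z, hz, hzy⟩
      have : z = y := Subtype.ext hzy
      rw [← this]
      exact hz
    · intro h
      exact ⟨y, h, rfl⟩
  have hKY : K ≤ Y := by
    rintro _ ⟨z, -, rfl⟩
    exact z.2
  haveI hKn : K.Normal := by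
    constructor
    intro n hn g
    obtain ⟨y, hy, x, hx, rfl⟩ := exists_mul_of_sup hY hYH g
    have hnY := hKY hn
    have h1 : x * n * x⁻¹ ∈ Y := hY.conj_mem n hnY x
    have h2 : (y * x * n * (y * x)⁻¹) = y * (x * n * x⁻¹) * y⁻¹ := by group
    have h3 : y * (x * n * x⁻¹) * y⁻¹ ∈ Y := hY.conj_mem _ h1 y
    rw [h2]
    have h4 := (hmemK ⟨_, h3⟩).mpr ?_
    · exact h4
    · have h5 : (χ : Y → ℂ) ⟨y * (x * n * x⁻¹) * y⁻¹, h3⟩ = (χ : Y → ℂ) ⟨x * n * x⁻¹, h1⟩ :=
        irr_isClassFunction χ ⟨x * n * x⁻¹, h1⟩ ⟨y, hy⟩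
      have h6 : (χ : Y → ℂ) ⟨x * n * x⁻¹, h1⟩ = (χ : Y → ℂ) ⟨n, hnY⟩ := hinv x hx _ _ rfl
      rw [h5, h6]
      exact (hmemK ⟨n, hnY⟩).mp hn
  have hconjH : ∀ g b : G, b ∈ H → g * b * g⁻¹ ∈ K ⊔ H := by
    intro g b hb
    obtain ⟨y, hy, x, hx, rfl⟩ := exists_mul_of_sup hY hYH g
    set b' := x * b * x⁻¹ with hb'
    have hb'H : b' ∈ H := H.mul_mem (H.mul_mem hx hb) (H.inv_mem hx)
    have h1 : y * b' * y⁻¹ * b'⁻¹ ∈ Y := by
      have : y * b' * y⁻¹ * b'⁻¹ = y * (b' * y⁻¹ * b'⁻¹) := by group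
      rw [this]
      exact Y.mul_mem hy (hY.conj_mem _ (Y.inv_mem hy) b')
    have h2 := (hmemK ⟨_, h1⟩).mpr (hcomm ⟨y, hy⟩ b' hb'H ⟨_, h1⟩ rfl)
    have h3 : y * x * b * (y * x)⁻¹ = (y * b' * y⁻¹ * b'⁻¹) * b' := by rw [hb']; group
    rw [h3]
    exact Subgroup.mul_mem _ ((le_sup_left : K ≤ _) h2) ((le_sup_right : H ≤ _) hb'H)
  have hKH : (K ⊔ H).Normal := by
    constructor
    intro n hn g
    have h1 : n ∈ ((K ⊔ H : Subgroup G) : Set G) := hn
    rw [Subgroup.normal_mul] at h1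
    obtain ⟨k, hk, x, hx, rfl⟩ := Set.mem_mul.mp h1
    have h2 : g * (k * x) * g⁻¹ = (g * k * g⁻¹) * (g * x * g⁻¹) := by group
    show g * (k * x) * g⁻¹ ∈ K ⊔ H
    rw [h2]
    exact Subgroup.mul_mem _ ((le_sup_left : K ≤ _) (hKn.conj_mem k hk g)) (hconjH g x hx)
  have htop := hgen _ hKH le_sup_right
  intro y
  obtain ⟨k, hk, x, hx, e⟩ := exists_mul_of_sup hKn htop (y : G)
  have h2 : x ∈ Y := by
    have : x = k⁻¹ * y := by rw [e]; group
    rw [this]
    exact Y.mul_mem (Y.inv_mem (hKY hk)) y.2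
  have h3 := eq_one_of_mem_both hHp hpY hx h2
  rw [h3, mul_one] at e
  rw [← hmemK, e]
  exact hk

theorem c1_gen (hp : p ≠ 2) (h : Hyp p H) (hY : Y.Normal) (hpY : ¬ p ∣ Nat.card Y) (hYH : Y ⊔ H = ⊤)
    (hgen : ∀ N : Subgroup G, N.Normal → H ≤ N → N = ⊤) {y : G} (hy : y ∈ Y)
    (hyc : ∀ b ∈ H, b * y = y * b) : y = 1 := by
  classical
  haveI := Fintype.ofFinite G
  haveI := Fintype.ofFinite Y
  set C : Subgroup G := Y ⊓ Subgroup.centralizer (H : Set G) with hC
  haveI := Fintype.ofFinite C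
  have hyC : y ∈ C := ⟨hy, Subgroup.mem_centralizer_iff.mpr hyc⟩
  have hnorm : ∀ s ∈ H, ∀ g ∈ Y, s * g * s⁻¹ ∈ Y := fun s _ g hg => hY.conj_mem g hg s
  -- all irreducible characters of `C` are trivial
  have hall : ∀ β : IrrCharacter C, β = oneIrr C := by
    intro β
    by_contra hβ
    obtain ⟨χ, hinv, m, hm, hpm⟩ := Cfsg.Agent.Glaub.exists_over_fixed
      (Cfsg.Agent.Glaub.isFix_conjHom hnorm hC inf_le_left) hpf.out h.hp hpY β
    rw [Cfsg.Agent.Glaub.inv_conjHom_iff] at hinv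
    have hcomm := inv_aux hp _ G H Y rfl h hY hpY hYH (χ : Y → ℂ) χ.2 hinv
    have htriv := trivial_of_gen h.hp hY hpY hYH hgen χ hinv hcomm
    have h1 : χ = oneIrr Y := by
      apply eq_oneIrr_of_charKer
      rw [eq_top_iff]
      intro x _
      exact htriv x
    have h2 : Cfsg.Agent.Glaub.res (Subgroup.inclusion (inf_le_left : C ≤ Y)) (χ : Y → ℂ) =
        ((oneIrr C : IrrCharacter C) : C → ℂ) := by
      rw [h1]; rfl
    rw [h2, classInner_irr_of_ne (fun e => hβ e.symm)] at hm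
    have h3 : m = 0 := by exact_mod_cast hm.symm
    exact hpm (by rw [h3]; exact dvd_zero p)
  have h1 : IsConj (⟨y, hyC⟩ : C) 1 := isConj_of_irr_eq fun χ => by rw [hall χ]; rfl
  rw [isConj_one_left] at h1
  exact congrArg Subtype.val h1

theorem conj_mem_sup (h : Subgroup.normalizer (H : Set G) ⊔ pPrimeCore p G = ⊤) (s y : G) (hy : y ∈ H) :
    s * y * s⁻¹ ∈ pPrimeCore p G ⊔ H := by
  have h2 : s ∈ Subgroup.normalizer (H : Set G) ⊔ pPrimeCore p G := by rw [h]; trivial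
  rw [sup_comm, ← SetLike.mem_coe, Subgroup.normal_mul] at h2
  obtain ⟨o, ho, m, hm, rfl⟩ := Set.mem_mul.mp h2
  have h3 : m * y * m⁻¹ ∈ H := (Subgroup.mem_normalizer_iff.mp hm y).mp hy
  have h4 : o * m * y * (o * m)⁻¹ = (o * ((m * y * m⁻¹) * o⁻¹ * (m * y * m⁻¹)⁻¹)) * (m * y * m⁻¹) := by
    group
  show o * m * y * (o * m)⁻¹ ∈ _
  rw [h4]
  refine Subgroup.mul_mem _ ((le_sup_left : pPrimeCore p G ≤ _) ?_) ((le_sup_right : H ≤ _) h3)
  refine Subgroup.mul_mem _ ho ?_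
  have : (pPrimeCore p G).Normal := inferInstance
  exact this.conj_mem _ (Subgroup.inv_mem _ ho) _

/-- **C1** -/
theorem c1 (hp : p ≠ 2) (h : Hyp p H) :
    Subgroup.normalClosure (H : Set G) ⊓ Subgroup.normalizer (H : Set G) = H := by
  have hc2 := c2 hp h
  set X := Subgroup.normalClosure (H : Set G) with hX
  haveI hXn : X.Normal := Subgroup.normalClosure_normal
  have hHX : H ≤ X := Subgroup.subset_normalClosure
  haveI hOn : (pPrimeCore p G).Normal := inferInstance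
  have hXle : X ≤ pPrimeCore p G ⊔ H := by
    rw [hX, Subgroup.normalClosure, Subgroup.closure_le]
    intro x hx
    rw [Group.mem_conjugatesOfSet_iff] at hx
    obtain ⟨a, ha, hax⟩ := hx
    obtain ⟨g, rfl⟩ := isConj_iff.mp hax
    exact conj_mem_sup hc2 g a ha
  apply le_antisymm
  · rintro x ⟨hxX, hxN⟩
    set Y : Subgroup X := (pPrimeCore p G).subgroupOf X with hY
    have hYn : Y.Normal := inferInstance
    have hpY : ¬ p ∣ Nat.card Y := by
      intro hd
      have h1 : ¬ p ∣ Nat.card (pPrimeCore p G) :=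
        (Nat.Prime.coprime_iff_not_dvd hpf.out).mp (pPrimeCore_card_coprime p).symm
      apply h1
      refine hd.trans ?_
      have h2 : Nat.card Y = Nat.card (Y.map X.subtype) :=
        (Subgroup.card_map_of_injective X.subtype_injective).symm
      rw [h2]
      refine Subgroup.card_dvd_of_le ?_
      rintro _ ⟨z, hz, rfl⟩
      exact hz
    have hYH : Y ⊔ H.subgroupOf X = ⊤ := by
      rw [eq_top_iff]
      intro z _
      have h1 : (z : G) ∈ ((pPrimeCore p G ⊔ H : Subgroup G) : Set G) := hXle z.2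
      rw [Subgroup.normal_mul] at h1
      obtain ⟨o, ho, w, hw, e⟩ := Set.mem_mul.mp h1
      have hoX : o ∈ X := by
        have : o = (z : G) * w⁻¹ := by rw [← e]; group
        rw [this]
        exact X.mul_mem z.2 (X.inv_mem (hHX hw))
      have : z = ⟨o, hoX⟩ * ⟨w, hHX hw⟩ := Subtype.ext e.symm
      rw [this]
      exact Subgroup.mul_mem _ ((le_sup_left : Y ≤ _) (show (⟨o, hoX⟩ : X) ∈ Y from ho))
        ((le_sup_right : H.subgroupOf X ≤ _) (show (⟨w, hHX hw⟩ : X) ∈ H.subgroupOf X from hw))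
    have hgen : ∀ N : Subgroup X, N.Normal → H.subgroupOf X ≤ N → N = ⊤ := by
      intro N hN hHN
      have h1 : X ≤ N.map X.subtype := by
        conv_lhs => rw [hX]
        rw [Subgroup.normalClosure, Subgroup.closure_le]
        intro x hx
        rw [Group.mem_conjugatesOfSet_iff] at hx
        obtain ⟨a, ha, hax⟩ := hx
        obtain ⟨g, rfl⟩ := isConj_iff.mp hax
        obtain ⟨k, hk, hkg⟩ := h.exists_k g
        have hkX : k ∈ X := by
          have h2 : pr H g ≤ X := pr_le hHX fun y hy => hXn.conj_mem y (hHX hy) g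
          exact h2 hk
        have ha' : (k⁻¹ * g) * a * (k⁻¹ * g)⁻¹ ∈ H := (Subgroup.mem_normalizer_iff.mp hkg a).mp ha
        refine ⟨⟨k, hkX⟩ * ⟨(k⁻¹ * g) * a * (k⁻¹ * g)⁻¹, hHX ha'⟩ * ⟨k, hkX⟩⁻¹, ?_, ?_⟩
        · exact hN.conj_mem _ (hHN (show (⟨(k⁻¹ * g) * a * (k⁻¹ * g)⁻¹, hHX ha'⟩ : X) ∈ H.subgroupOf X from ha')) _
        · change k * ((k⁻¹ * g) * a * (k⁻¹ * g)⁻¹) * k⁻¹ = g * a * g⁻¹
          group
      rw [eq_top_iff]
      intro z _
      obtain ⟨w, hw, e⟩ := h1 z.2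
      have : w = z := Subtype.ext e
      rwa [← this]
    -- decompose `x`
    obtain ⟨y, hy, w, hw, e⟩ := exists_mul_of_sup hYn hYH (⟨x, hxX⟩ : X)
    have hHX' := h.subgroupOf hHX
    have hyN : y ∈ Subgroup.normalizer ((H.subgroupOf X : Subgroup X) : Set X) := by
      have hxN' : (⟨x, hxX⟩ : X) ∈ Subgroup.normalizer ((H.subgroupOf X : Subgroup X) : Set X) := by
        rw [Subgroup.mem_normalizer_iff]
        intro z
        exact Subgroup.mem_normalizer_iff.mp hxN z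
      have h1 : y = ⟨x, hxX⟩ * w⁻¹ := by rw [e]; group
      rw [h1]
      exact Subgroup.mul_mem _ hxN' (Subgroup.inv_mem _ (Subgroup.le_normalizer hw))
    have hy1 : y = 1 := by
      refine c1_gen hp hHX' hYn hpY hYH hgen hy ?_
      intro b hb
      have h1 := normalizer_centralizes hHX' hYn hpY hYH hyN hb
      calc b * y = (y * b * y⁻¹) * y := by rw [h1]
        _ = y * b := by group
    rw [hy1, one_mul] at e
    have : x = (w : G) := congrArg Subtype.val e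
    rw [this]
    exact hw
  · exact le_inf hHX Subgroup.le_normalizer

end Basic

end Cfsg.Agent.H72.EC
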