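import Cfsg.Agent.H72.Basic

set_option autoImplicit false

/-! Counting Sylow subgroups: quotients, normal subgroups, M. Hall's product formula (helper72). -/

namespace Cfsg.Agent.H72

open Subgroup

/-- If all fibres of a map are in bijection with a given one, the cardinalities multiply. -/
theorem card_eq_card_mul_fiber {X Y : Type*} (f : X → Y) (y₀ : Y)
    (h : ∀ y : Y, Nonempty ({x // f x = y} ≃ {x // f x = y₀})) :
    Nat.card X = Nat.card Y * Nat.card {x // f x = y₀} := by
  have e : X ≃ Y × {x // f x = y₀} :=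
    (Equiv.sigmaFiberEquiv f).symm.trans
      ((Equiv.sigmaCongrRight (fun y => (h y).some)).trans (Equiv.sigmaEquivProd _ _))
  rw [Nat.card_congr e, Nat.card_prod]

section

variable {G : Type*} [Group G] {p : ℕ} [Fact p.Prime]

/-- The number of Sylow subgroups is an isomorphism invariant. -/
theorem card_sylow_congr {H : Type*} [Group H] [Finite G] (e : G ≃* H) :
    Nat.card (Sylow p G) = Nat.card (Sylow p H) := by
  have hs : Function.Surjective (e.toMonoidHom : G →* H) := e.surjective
  have : Function.Bijective (Sylow.mapSurjective (p := p) hs) := by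
    refine ⟨?_, Sylow.mapSurjective_surjective hs p⟩
    intro P Q h
    apply Sylow.ext
    have h1 : ((P.mapSurjective hs : Sylow p H) : Subgroup H) =
      (Q.mapSurjective hs : Sylow p H) := by rw [h]
    rw [Sylow.coe_mapSurjective, Sylow.coe_mapSurjective] at h1
    exact Subgroup.map_injective e.injective h1
  exact Nat.card_eq_of_bijective _ this

/-- Every Sylow subgroup of a subgroup `L` containing a Sylow subgroup of `G` comes from a Sylow subgroup of `G`. -/
theorem exists_subtype_eq [Finite G] {L : Subgroup G} (P : Sylow p G) (hP : (P : Subgroup G) ≤ L)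
    (R : Sylow p L) : ∃ (Q : Sylow p G) (hQ : (Q : Subgroup G) ≤ L), Q.subtype hQ = R := by
  obtain ⟨l, hl⟩ := MulAction.exists_smul_eq L (P.subtype hP) R
  rw [Sylow.smul_subtype] at hl
  exact ⟨_, _, hl⟩

/-- The Sylow subgroups of `G` inside `L` are the Sylow subgroups of `L` (if there is one). -/
theorem card_sylow_le [Finite G] {L : Subgroup G} (P : Sylow p G) (hP : (P : Subgroup G) ≤ L) :
    Nat.card {Q : Sylow p G // (Q : Subgroup G) ≤ L} = Nat.card (Sylow p L) := by
  apply Nat.card_eq_of_bijective (fun Q : {Q : Sylow p G // (Q : Subgroup G) ≤ L} => Q.1.subtype Q.2)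
  constructor
  · rintro ⟨Q, hQ⟩ ⟨R, hR⟩ h
    exact Subtype.ext (Sylow.subtype_injective h)
  · intro R
    obtain ⟨Q, hQ, h⟩ := exists_subtype_eq P hP R
    exact ⟨⟨Q, hQ⟩, h⟩

theorem mapSurjective_smul [Finite G] {H : Type*} [Group H] {f : G →* H} (hf : Function.Surjective f)
    (g : G) (P : Sylow p G) : (g • P).mapSurjective hf = f g • P.mapSurjective hf := by
  apply Sylow.ext
  ext x
  constructor
  · rintro ⟨u, ⟨v, hv, rfl⟩, rfl⟩
    refine ⟨f v, ⟨v, hv, rfl⟩, ?_⟩
    show f g * f v * (f g)⁻¹ = f (g * v * g⁻¹)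
    simp
  · rintro ⟨_, ⟨v, hv, rfl⟩, rfl⟩
    refine ⟨g * v * g⁻¹, ⟨v, hv, rfl⟩, ?_⟩
    show f (g * v * g⁻¹) = f g * f v * (f g)⁻¹
    simp

omit [Fact p.Prime] in
theorem sylow_le_iff_eq [Finite G] (P Q : Sylow p G) : (Q : Subgroup G) ≤ (P : Subgroup G) ↔ Q = P := by
  constructor
  · intro h; exact Sylow.ext (Q.is_maximal' P.isPGroup' h).symm
  · rintro rfl; exact le_rfl

/-- `n_p(G) = n_p(G/K) n_p(PK)`. -/
theorem card_sylow_eq_quotient_mul [Finite G] (K : Subgroup G) [K.Normal] (P : Sylow p G) :
    Nat.card (Sylow p G) =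
      Nat.card (Sylow p (G ⧸ K)) * Nat.card (Sylow p ↥((P : Subgroup G) ⊔ K)) := by
  have hs : Function.Surjective (QuotientGroup.mk' K) := QuotientGroup.mk'_surjective K
  rw [card_eq_card_mul_fiber (fun Q : Sylow p G => Q.mapSurjective hs) (P.mapSurjective hs)]
  · congr 1
    rw [← card_sylow_le P (L := (P : Subgroup G) ⊔ K) le_sup_left]
    apply Nat.card_congr
    apply Equiv.subtypeEquivRight
    intro Q
    constructor
    · intro h
      have h1 := congrArg (fun R : Sylow p (G ⧸ K) => (R : Subgroup (G ⧸ K))) h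
      simp only [Sylow.coe_mapSurjective] at h1
      have h2 := congrArg (Subgroup.comap (QuotientGroup.mk' K)) h1
      rw [Subgroup.comap_map_eq, Subgroup.comap_map_eq, QuotientGroup.ker_mk'] at h2
      rw [← h2]; exact le_sup_left
    · intro h
      rw [← sylow_le_iff_eq]
      have h1 := Subgroup.map_mono (f := QuotientGroup.mk' K) h
      rw [Subgroup.map_sup, QuotientGroup.map_mk'_self, sup_bot_eq] at h1
      exact h1
  · intro y
    obtain ⟨Q, rfl⟩ := Sylow.mapSurjective_surjective hs p y
    obtain ⟨g, rfl⟩ := MulAction.exists_smul_eq G P Q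
    refine ⟨((MulAction.toPerm (g⁻¹ : G) : Equiv.Perm (Sylow p G)).subtypeEquiv ?_)⟩
    intro R
    simp only [MulAction.toPerm_apply]
    rw [mapSurjective_smul, mapSurjective_smul]
    constructor
    · intro h; rw [h, map_inv, inv_smul_smul]
    · intro h; rw [← h, map_inv, smul_inv_smul]

/-- `Q ∩ K` as a Sylow subgroup of the normal subgroup `K`. -/
noncomputable def sylowInf [Finite G] (K : Subgroup G) [K.Normal] (Q : Sylow p G) : Sylow p K :=
  IsPGroup.toSylow (P := (Q : Subgroup G).subgroupOf K)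
    (show IsPGroup p ((Q : Subgroup G).subgroupOf K) from
      Q.isPGroup'.comap_of_injective K.subtype Subtype.coe_injective)
    (fun h => Q.not_dvd_index (h.trans (relIndex_dvd_index_of_normal_right (Q : Subgroup G) K)))

theorem coe_sylowInf [Finite G] (K : Subgroup G) [K.Normal] (Q : Sylow p G) :
    (sylowInf K Q : Subgroup K) = (Q : Subgroup G).subgroupOf K := rfl

theorem mem_sylowInf [Finite G] (K : Subgroup G) [K.Normal] (Q : Sylow p G) (x : K) :
    x ∈ sylowInf K Q ↔ (x : G) ∈ Q := by
  have : x ∈ (sylowInf K Q : Subgroup K) ↔ (x : G) ∈ Q := by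
    rw [coe_sylowInf, Subgroup.mem_subgroupOf]; rfl
  exact this

theorem sylowInf_surjective [Finite G] (K : Subgroup G) [K.Normal] :
    Function.Surjective (sylowInf (p := p) K) := by
  intro R
  have hR : IsPGroup p ((R : Subgroup K).map K.subtype) := R.isPGroup'.map _
  obtain ⟨Q, hQ⟩ := hR.exists_le_sylow
  refine ⟨Q, ?_⟩
  symm
  rw [← sylow_le_iff_eq, coe_sylowInf]
  intro x hx
  rw [Subgroup.mem_subgroupOf]
  exact hQ ⟨x, hx, rfl⟩

theorem sylowInf_smul [Finite G] (K : Subgroup G) [K.Normal] (k : K) (Q : Sylow p G) :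
    sylowInf K ((k : G) • Q) = k • sylowInf K Q := by
  apply Sylow.ext
  ext x
  have h1 : x ∈ (sylowInf K ((k : G) • Q) : Subgroup K) ↔ (x : G) ∈ (k : G) • Q := mem_sylowInf K _ x
  have h2 : x ∈ ((k • sylowInf K Q : Sylow p K) : Subgroup K) ↔ k⁻¹ * x * k ∈ sylowInf K Q :=
    mem_smul_sylow_iff _ k x
  rw [h1, h2, mem_smul_sylow_iff, mem_sylowInf]
  rfl

/-- `n_p(G) = n_p(K) n_p(N_G(P ∩ K))`. -/
theorem card_sylow_eq_mul_normalizer [Finite G] (K : Subgroup G) [K.Normal] (P : Sylow p G) :
    Nat.card (Sylow p G) =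
      Nat.card (Sylow p K) *
        Nat.card (Sylow p ↥(Subgroup.normalizer (((P : Subgroup G) ⊓ K : Subgroup G) : Set G))) := by
  set N := Subgroup.normalizer (((P : Subgroup G) ⊓ K : Subgroup G) : Set G) with hN
  have hnorm : ∀ Q : Sylow p G, (Q : Subgroup G) ≤
      Subgroup.normalizer (((Q : Subgroup G) ⊓ K : Subgroup G) : Set G) := by
    intro Q q hq
    rw [Subgroup.mem_normalizer_iff]
    intro u
    have hK : K.Normal := inferInstance
    constructor
    · rintro ⟨h1, h2⟩
      exact ⟨(Q : Subgroup G).mul_mem ((Q : Subgroup G).mul_mem hq h1) ((Q : Subgroup G).inv_mem hq),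
        hK.conj_mem _ h2 _⟩
    · rintro ⟨h1, h2⟩
      have e : q⁻¹ * (q * u * q⁻¹) * q⁻¹⁻¹ = u := by group
      refine ⟨?_, ?_⟩
      · rw [← e]
        exact (Q : Subgroup G).mul_mem ((Q : Subgroup G).mul_mem ((Q : Subgroup G).inv_mem hq) h1)
          ((Q : Subgroup G).inv_mem ((Q : Subgroup G).inv_mem hq))
      · rw [← e]; exact hK.conj_mem _ h2 _
  have hPN : (P : Subgroup G) ≤ N := hnorm P
  rw [card_eq_card_mul_fiber (sylowInf (p := p) K) (sylowInf K P)]
  · congr 1
    rw [← card_sylow_le P hPN]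
    apply Nat.card_congr
    apply Equiv.subtypeEquivRight
    intro Q
    have hiff : sylowInf K Q = sylowInf K P ↔ (Q : Subgroup G) ⊓ K = (P : Subgroup G) ⊓ K := by
      constructor
      · intro h
        ext x
        constructor
        · rintro ⟨hx, hxK⟩
          refine ⟨?_, hxK⟩
          have : (⟨x, hxK⟩ : K) ∈ sylowInf K Q := (mem_sylowInf K Q _).2 hx
          rw [h] at this
          exact (mem_sylowInf K P _).1 this
        · rintro ⟨hx, hxK⟩
          refine ⟨?_, hxK⟩
          have : (⟨x, hxK⟩ : K) ∈ sylowInf K P := (mem_sylowInf K P _).2 hx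
          rw [← h] at this
          exact (mem_sylowInf K Q _).1 this
      · intro h
        rw [← sylow_le_iff_eq]
        intro x hx
        have h1 : (x : G) ∈ (Q : Subgroup G) ⊓ K := ⟨(mem_sylowInf K Q x).1 hx, x.2⟩
        rw [h] at h1
        exact (mem_sylowInf K P x).2 h1.1
    rw [hiff]
    constructor
    · intro h
      rw [hN, ← h]; exact hnorm Q
    · intro h
      -- P ⊓ K is a normal p-subgroup of N hence inside Q
      have h1 : (P : Subgroup G) ⊓ K ≤ (Q : Subgroup G) := by
        have hp1 : IsPGroup p ↥((((P : Subgroup G) ⊓ K : Subgroup G)).subgroupOf N) :=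
          (P.isPGroup'.to_le inf_le_left).comap_of_injective N.subtype Subtype.coe_injective
        have hn1 : ((((P : Subgroup G) ⊓ K : Subgroup G)).subgroupOf N).Normal :=
          Subgroup.normal_in_normalizer
        have h2 := hp1.le_sylow_of_normal (Q.subtype h)
        intro x hx
        have hxN : x ∈ N := hPN hx.1
        have h3 : (⟨x, hxN⟩ : N) ∈ (((P : Subgroup G) ⊓ K : Subgroup G)).subgroupOf N := by
          rw [Subgroup.mem_subgroupOf]; exact hx
        exact h2 h3
      have h4 : sylowInf K P = sylowInf K Q := by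
        rw [← sylow_le_iff_eq]
        intro x hx
        exact (mem_sylowInf K Q x).2 (h1 ⟨(mem_sylowInf K P x).1 hx, x.2⟩)
      exact hiff.1 h4.symm
  · intro y
    obtain ⟨k, rfl⟩ := MulAction.exists_smul_eq K (sylowInf K P) y
    refine ⟨((MulAction.toPerm ((k : G)⁻¹ : G) : Equiv.Perm (Sylow p G)).subtypeEquiv ?_)⟩
    intro R
    simp only [MulAction.toPerm_apply]
    have : (k : G)⁻¹ = ((k⁻¹ : K) : G) := rfl
    rw [this, sylowInf_smul]
    constructor
    · intro h; rw [h, inv_smul_smul]
    · intro h; rw [← h, smul_inv_smul]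

theorem card_sylow_eq_one_of_normal [Finite G] (P : Sylow p G) [(P : Subgroup G).Normal] :
    Nat.card (Sylow p G) = 1 := by
  have := P.unique_of_normal inferInstance
  exact Nat.card_unique

/-- Quotients by central subgroups keep the number of Sylow subgroups. -/
theorem card_sylow_quotient_central [Finite G] (Z : Subgroup G) [Z.Normal] (hZ : Z ≤ Subgroup.center G) :
    Nat.card (Sylow p (G ⧸ Z)) = Nat.card (Sylow p G) := by
  obtain ⟨P⟩ : Nonempty (Sylow p G) := inferInstance
  rw [card_sylow_eq_quotient_mul Z P]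
  have hP : (P : Subgroup G) ≤ (P : Subgroup G) ⊔ Z := le_sup_left
  have hn : ((P.subtype hP : Sylow p ↥((P : Subgroup G) ⊔ Z)) : Subgroup ↥((P : Subgroup G) ⊔ Z)).Normal := by
    rw [Sylow.coe_subtype]
    rw [Subgroup.normal_subgroupOf_iff_le_normalizer hP]
    refine sup_le Subgroup.le_normalizer ?_
    intro z hz
    rw [Subgroup.mem_normalizer_iff]
    intro u
    have := Subgroup.mem_center_iff.1 (hZ hz) u
    rw [← this, mul_inv_cancel_right]
  rw [card_sylow_eq_one_of_normal (P.subtype hP), mul_one]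

/-- Quotients by normal `p`-subgroups keep the number of Sylow `p`-subgroups. -/
theorem card_sylow_quotient_pGroup [Finite G] (D : Subgroup G) [D.Normal] (hD : IsPGroup p D) :
    Nat.card (Sylow p (G ⧸ D)) = Nat.card (Sylow p G) := by
  obtain ⟨P⟩ : Nonempty (Sylow p G) := inferInstance
  rw [card_sylow_eq_quotient_mul D P]
  have hle : D ≤ P := hD.le_sylow_of_normal P
  have hP : (P : Subgroup G) ≤ (P : Subgroup G) ⊔ D := le_sup_left
  have hn : ((P.subtype hP : Sylow p ↥((P : Subgroup G) ⊔ D)) : Subgroup ↥((P : Subgroup G) ⊔ D)).Normal := by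
    rw [Sylow.coe_subtype]
    rw [Subgroup.normal_subgroupOf_iff_le_normalizer hP]
    exact sup_le Subgroup.le_normalizer (hle.trans Subgroup.le_normalizer)
  rw [card_sylow_eq_one_of_normal (P.subtype hP), mul_one]

/-- A normal subgroup of index prime to `p` has all the Sylow `p`-subgroups. -/
theorem card_sylow_of_not_dvd_index [Finite G] (H : Subgroup G) [H.Normal] (hp : ¬ p ∣ H.index) :
    Nat.card (Sylow p H) = Nat.card (Sylow p G) := by
  obtain ⟨P, hP⟩ := exists_sylow_le_of_not_dvd_index H hp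
  rw [← card_sylow_le P hP]
  apply Nat.card_congr
  refine (Equiv.subtypeUnivEquiv ?_)
  intro Q
  obtain ⟨g, rfl⟩ := MulAction.exists_smul_eq G P Q
  rintro x ⟨u, hu, rfl⟩
  exact Subgroup.Normal.conj_mem inferInstance u (hP hu) g

end

end Cfsg.Agent.H72
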